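import Mathlib

/-!
# The arithmetic of a group with involution centralizer `GL₂(3)`
-/

set_option autoImplicit false
set_option maxRecDepth 100000

namespace Cfsg.Agent.Lib.Gl23.Arith

/-- The constraints on the last four parameters. -/
def good (N l v mt m : ℤ) : Prop :=
  ((8 ∣ m - mt ∧ 8 ∣ (l + 1 - m) - (v + 1 - mt)) ∨ (8 ∣ m - mt - 4 ∧ 8 ∣ (l + 1 - m) - (v + 1 - mt) - 4)) ∧
    8 ∣ m + mt - 2 ∧ 8 ∣ (l + 1 - m) + (v + 1 - mt) - 2 ∧ m ≠ mt ∧ (l + 1 - m) ≠ (v + 1 - mt) ∧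
    m * (l + 1 - m) * (l - v) ^ 2 = l * (mt * (l + 1 - m) - (v + 1 - mt) * m) ^ 2 ∧
    1 + l ^ 2 + (l + 1) ^ 2 + m ^ 2 + (l + 1 - m) ^ 2 ≤ N ∧
    1 + v ^ 2 + (v + 1) ^ 2 + mt ^ 2 + (v + 1 - mt) ^ 2 ≤ 48 ∧
    (1 + l * v + (l + 1) * (v + 1) + m * mt + (l + 1 - m) * (v + 1 - mt)) ^ 2 ≤
      (N - (1 + l ^ 2 + (l + 1) ^ 2 + m ^ 2 + (l + 1 - m) ^ 2)) *
        (48 - (1 + v ^ 2 + (v + 1) ^ 2 + mt ^ 2 + (v + 1 - mt) ^ 2))

instance (N l v mt m : ℤ) : Decidable (good N l v mt m) := by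
  unfold good
  infer_instance

/-- The order in terms of the parameters. -/
def ordN (k v : ℤ) : ℤ := 72 * ((8 * k + v) * (8 * k + v + 1)) / (k * k)

theorem check : ∀ k ∈ Finset.Icc (-18 : ℤ) 18, ∀ v ∈ ({-3, 1} : Finset ℤ), k ≠ 0 →
    k * k ∣ 72 * ((8 * k + v) * (8 * k + v + 1)) → 48 ∣ ordN k v →
    ∀ mt ∈ Finset.Icc (-6 : ℤ) 6, ∀ m ∈ Finset.Icc (-90 : ℤ) 90,
      good (ordN k v) (8 * k + v) v mt m → ordN k v = 5616 ∨ ordN k v = 7920 := by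
  decide +kernel

theorem bound_sq {x y : ℤ} (h : x ^ 2 + y ≤ 48) (hy : 0 ≤ y) : x ≤ 6 ∧ -6 ≤ x := by
  constructor <;> nlinarith

theorem bound_sq' {x y : ℤ} (h : x ^ 2 + y ≤ 8100) (hy : 0 ≤ y) : x ≤ 90 ∧ -90 ≤ x := by
  constructor <;> nlinarith

theorem dvd_of_eq {k c Q v : ℤ} (h : 2 * Q * (k * k) = 3 * ((8 * k + v) * (8 * k + v + 1)))
    (hc : c = 3 * (v * (v + 1))) : k ∣ c := by
  refine ⟨2 * Q * k - 3 * (64 * k + 8 * (2 * v + 1)), ?_⟩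
  rw [hc]
  linear_combination -h

/-- The order bound. -/
theorem ordN_le : ∀ k ∈ Finset.Icc (-18 : ℤ) 18, ∀ v ∈ ({-3, 1} : Finset ℤ), k ≠ 0 → ordN k v ≤ 8100 := by
  decide +kernel

/-- The final arithmetic. -/
theorem main {N l v m n mt nt : ℤ} (h1 : 8 ∣ l - v) (h2 : 8 ∣ l + v - 2)
    (hmn : m + n = l + 1) (hmt : mt + nt = v + 1)
    (hc : (8 ∣ m - mt ∧ 8 ∣ n - nt) ∨ (8 ∣ m - mt - 4 ∧ 8 ∣ n - nt - 4))
    (h5 : 8 ∣ m + mt - 2) (h6 : 8 ∣ n + nt - 2)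
    (hlv : l ≠ v) (hm : m ≠ mt) (hn : n ≠ nt)
    (hN : N * (l - v) ^ 2 = 4608 * (l * (l + 1)))
    (hQ : m * n * (l - v) ^ 2 = l * (mt * n - nt * m) ^ 2)
    (h48 : 48 ∣ N)
    (hA : 1 + l ^ 2 + (l + 1) ^ 2 + m ^ 2 + n ^ 2 ≤ N)
    (hB : 1 + v ^ 2 + (v + 1) ^ 2 + mt ^ 2 + nt ^ 2 ≤ 48)
    (hCS : (1 + l * v + (l + 1) * (v + 1) + m * mt + n * nt) ^ 2 ≤
      (N - (1 + l ^ 2 + (l + 1) ^ 2 + m ^ 2 + n ^ 2)) * (48 - (1 + v ^ 2 + (v + 1) ^ 2 + mt ^ 2 + nt ^ 2))) :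
    N = 5616 ∨ N = 7920 := by
  obtain ⟨k, hk⟩ := h1
  have hl : l = 8 * k + v := by omega
  have hn' : n = l + 1 - m := by omega
  have hnt : nt = v + 1 - mt := by omega
  subst hn' hnt hl
  have hk0 : k ≠ 0 := by
    rintro rfl
    exact hlv (by omega)
  have hb1 := bound_sq (x := v) (y := 1 + (v + 1) ^ 2 + mt ^ 2 + (v + 1 - mt) ^ 2) (by linarith) (by positivity)
  have hb2 := bound_sq (x := mt) (y := 1 + v ^ 2 + (v + 1) ^ 2 + (v + 1 - mt) ^ 2) (by linarith) (by positivity)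
  have hv : v = -3 ∨ v = 1 := by
    have h3 : (v - 1) % 4 = 0 := by omega
    have h4 : v ≠ 5 := by
      rintro rfl
      norm_num at hB
      nlinarith [sq_nonneg mt, sq_nonneg (5 + 1 - mt)]
    omega
  obtain ⟨Q, rfl⟩ := h48
  have hE : 64 * (k * k) * (48 * Q) = 4608 * ((8 * k + v) * (8 * k + v + 1)) := by
    have e : 8 * k + v - v = 8 * k := by ring
    rw [e] at hN
    linear_combination hN
  have hE' : 2 * Q * (k * k) = 3 * ((8 * k + v) * (8 * k + v + 1)) := by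
    linarith
  have hkb : k ≤ 18 ∧ -18 ≤ k := by
    have hd : k ∣ 18 := by
      rcases hv with rfl | rfl
      · exact dvd_of_eq hE' (by norm_num)
      · have : k ∣ 6 := dvd_of_eq hE' (by norm_num)
        exact this.trans (by norm_num)
    have h7 := Int.le_of_dvd (by norm_num) hd
    have h8 := Int.le_of_dvd (by norm_num) ((neg_dvd).mpr hd)
    omega
  have hNe : 48 * Q = ordN k v := by
    rw [ordN]
    refine (Int.ediv_eq_of_eq_mul_right (mul_ne_zero hk0 hk0) ?_).symm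
    linear_combination (-24 : ℤ) * hE'
  have hdd : k * k ∣ 72 * ((8 * k + v) * (8 * k + v + 1)) :=
    ⟨48 * Q, by linear_combination (-24 : ℤ) * hE'⟩
  have hk_mem : k ∈ Finset.Icc (-18 : ℤ) 18 := Finset.mem_Icc.mpr ⟨hkb.2, hkb.1⟩
  have hv_mem : v ∈ ({-3, 1} : Finset ℤ) := by
    rcases hv with rfl | rfl <;> simp
  have hle := ordN_le k hk_mem v hv_mem hk0
  have hb3 := bound_sq' (x := m) (y := 1 + (8 * k + v) ^ 2 + (8 * k + v + 1) ^ 2 + (8 * k + v + 1 - m) ^ 2)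
    (by linarith) (by positivity)
  rw [hNe] at hA hCS ⊢
  refine check k hk_mem v hv_mem hk0 hdd (by rw [← hNe]; exact ⟨Q, rfl⟩) mt
    (Finset.mem_Icc.mpr ⟨hb2.2, hb2.1⟩) m (Finset.mem_Icc.mpr ⟨hb3.2, hb3.1⟩) ?_
  unfold good
  refine ⟨hc, h5, h6, hm, hn, hQ, hA, hB, hCS⟩

end Cfsg.Agent.Lib.Gl23.Arith
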