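import Mathlib
import Cfsg.Agent.Lib.Gl23.Model

/-!
# Decidable facts about elements of order three of `GL₂(3)`
-/

set_option autoImplicit false
set_option maxRecDepth 100000
set_option synthInstance.maxHeartbeats 0
set_option synthInstance.maxSize 4000

namespace Cfsg.Agent.Lib.Gl23.Loc0

open Cfsg.Agent.Lib.Gl23.Model

/-- A transvection. -/
def u0 : Gam := ⟨!![1, 1; 0, 1], !![1, 2; 0, 1], by decide, by decide⟩

theorem u0_cube : u0 ^ 3 = 1 := by decide +kernel

theorem u0_ne : u0 ≠ 1 := by decide +kernel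

theorem u0_ne_inv : u0⁻¹ ≠ u0 := by decide +kernel

theorem b_u0 : b * u0 * b⁻¹ = u0⁻¹ := by decide +kernel

theorem b_sq : b * b = 1 := by decide +kernel

theorem b_ne : b ≠ 1 := by decide +kernel

theorem b_ne_z : b ≠ z := by decide +kernel

theorem z_u0 : z * u0 * z⁻¹ = u0 := by decide +kernel

theorem zu0_cube : (z * u0) ^ 3 = z := by decide +kernel

theorem zu0_six : (z * u0) ^ 6 = 1 := by decide +kernel

theorem zu0_sq : (z * u0) ^ 2 = u0 ^ 2 := by decide +kernel

theorem u0_pow6 : u0 ^ 6 = 1 := by decide +kernel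

theorem b_zu0 : b * (z * u0) * b⁻¹ = (z * u0)⁻¹ := by decide +kernel

theorem cent_zu0 : (Finset.univ.filter (fun c : Gam => c * (z * u0) = (z * u0) * c)).card = 6 := by
  decide +kernel

theorem pow27 : ∀ c : Gam, c ^ 27 = 1 → c ^ 3 = 1 := by decide +kernel

theorem comm_three : ∀ c : Gam, c * u0 = u0 * c → c ^ 3 = 1 → c = 1 ∨ c = u0 ∨ c = u0 ^ 2 := by decide +kernel

theorem comm_two : ∀ c : Gam, c * u0 = u0 * c → c ^ 4 = 1 → c = 1 ∨ c = z := by decide +kernel

theorem order3_conj : ∀ c : Gam, c ^ 3 = 1 → c ≠ 1 → ∃ h : Gam, h * c * h⁻¹ = u0 := by decide +kernel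

theorem norm12 : ∀ c₀ : Gam, c₀ ^ 3 = 1 → c₀ ≠ 1 →
    (Finset.univ.filter (fun x : Gam => x * c₀ * x⁻¹ = c₀ ∨ x * c₀ * x⁻¹ = c₀⁻¹)).card = 12 := by
  decide +kernel

theorem cent_b : ∀ x : Gam, x * b = b * x → x = 1 ∨ x = z ∨ x = b ∨ x = z * b := by decide +kernel

theorem card_cent_b : (Finset.univ.filter (fun x : Gam => x * b = b * x)).card = 4 := by decide +kernel

theorem zb_conj : ∃ h : Gam, h * b * h⁻¹ = z * b := by decide +kernel

end Cfsg.Agent.Lib.Gl23.Loc0
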