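import Mathlib

/-!
# Integer vectors of norm three with inner product one
-/

set_option autoImplicit false
set_option linter.unusedSectionVars false

namespace Cfsg.Agent.Lib.Gl23.Gram

universe u

variable {X : Type u} [Fintype X] [DecidableEq X]

/-- The support of a vector. -/
def supp (f : X → ℤ) : Finset X := Finset.univ.filter (fun x => f x ≠ 0)

theorem mem_supp {f : X → ℤ} {x : X} : x ∈ supp f ↔ f x ≠ 0 := by
  simp [supp]

theorem val_of_norm {f : X → ℤ} (hf : ∑ x, f x * f x = 3) (x : X) : f x = 0 ∨ f x = 1 ∨ f x = -1 := by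
  have h1 : f x * f x ≤ 3 := by
    rw [← hf]
    exact Finset.single_le_sum (f := fun x => f x * f x) (fun i _ => mul_self_nonneg _) (Finset.mem_univ x)
  have h2 : f x ≤ 1 := by nlinarith
  have h3 : -1 ≤ f x := by nlinarith
  omega

theorem card_supp {f : X → ℤ} (hf : ∑ x, f x * f x = 3) : (supp f).card = 3 := by
  have h1 : ∑ x, f x * f x = ∑ x ∈ supp f, 1 := by
    rw [supp, Finset.sum_filter]
    refine Finset.sum_congr rfl fun x _ => ?_
    rcases val_of_norm hf x with h | h | h <;> simp [h]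
  rw [hf] at h1
  simp at h1
  omega

theorem sign_of_mem {f : X → ℤ} (hf : ∑ x, f x * f x = 3) {x : X} (hx : x ∈ supp f) : f x = 1 ∨ f x = -1 := by
  have := mem_supp.mp hx
  rcases val_of_norm hf x with h | h | h
  · exact absurd h this
  · exact Or.inl h
  · exact Or.inr h

/-- The classification. -/
theorem gram {n₁ n₂ : X → ℤ} {o : X} (h1 : n₁ o = 1) (h2 : n₂ o = 0) (s1 : ∑ x, n₁ x * n₁ x = 3)
    (s2 : ∑ x, n₂ x * n₂ x = 3) (s12 : ∑ x, n₁ x * n₂ x = 1) :
    ∃ lam del mu nu : X,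
      o ≠ lam ∧ o ≠ del ∧ o ≠ mu ∧ o ≠ nu ∧ lam ≠ del ∧ lam ≠ mu ∧ lam ≠ nu ∧ del ≠ mu ∧ del ≠ nu ∧ mu ≠ nu ∧
      (n₁ lam = 1 ∨ n₁ lam = -1) ∧ n₂ lam = 0 ∧
      (n₁ del = 1 ∨ n₁ del = -1) ∧ n₂ del = n₁ del ∧
      n₁ mu = 0 ∧ (n₂ mu = 1 ∨ n₂ mu = -1) ∧
      n₁ nu = 0 ∧ (n₂ nu = 1 ∨ n₂ nu = -1) ∧
      (∀ x, x ≠ o → x ≠ lam → x ≠ del → n₁ x = 0) ∧ (∀ x, x ≠ del → x ≠ mu → x ≠ nu → n₂ x = 0) := by
  have c1 := card_supp s1
  have c2 := card_supp s2
  have ho1 : o ∈ supp n₁ := mem_supp.mpr (by rw [h1]; norm_num)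
  have ho2 : o ∉ supp n₂ := by
    rw [mem_supp, not_not]
    exact h2
  set I := supp n₁ ∩ supp n₂ with hI
  have hIo : o ∉ I := fun h => ho2 (Finset.mem_inter.mp h).2
  have hIsub : I ⊆ (supp n₁).erase o := by
    intro x hx
    refine Finset.mem_erase.mpr ⟨?_, (Finset.mem_inter.mp hx).1⟩
    rintro rfl
    exact hIo hx
  have hIc : I.card ≤ 2 := by
    have := Finset.card_le_card hIsub
    rw [Finset.card_erase_of_mem ho1, c1] at this
    omega
  have hsum : ∑ x ∈ I, n₁ x * n₂ x = 1 := by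
    rw [← s12]
    refine Finset.sum_subset (Finset.subset_univ _) fun x _ hx => ?_
    by_contra h0
    apply hx
    refine Finset.mem_inter.mpr ⟨mem_supp.mpr ?_, mem_supp.mpr ?_⟩
    · rintro h
      exact h0 (by rw [h, zero_mul])
    · rintro h
      exact h0 (by rw [h, mul_zero])
  have hIc1 : I.card = 1 := by
    have hcases : I.card = 0 ∨ I.card = 1 ∨ I.card = 2 := by omega
    rcases hcases with h0 | h0 | h0
    · rw [Finset.card_eq_zero] at h0
      rw [h0] at hsum
      simp at hsum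
    · exact h0
    · obtain ⟨x, y, hxy, hIe⟩ := Finset.card_eq_two.mp h0
      rw [hIe, Finset.sum_pair hxy] at hsum
      have hxI : x ∈ I := by rw [hIe]; simp
      have hyI : y ∈ I := by rw [hIe]; simp
      have a1 := sign_of_mem s1 (Finset.mem_inter.mp hxI).1
      have a2 := sign_of_mem s2 (Finset.mem_inter.mp hxI).2
      have a3 := sign_of_mem s1 (Finset.mem_inter.mp hyI).1
      have a4 := sign_of_mem s2 (Finset.mem_inter.mp hyI).2
      exfalso
      rcases a1 with a1 | a1 <;> rcases a2 with a2 | a2 <;> rcases a3 with a3 | a3 <;>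
        rcases a4 with a4 | a4 <;> rw [a1, a2, a3, a4] at hsum <;> norm_num at hsum
  obtain ⟨del, hIe⟩ := Finset.card_eq_one.mp hIc1
  have hdel : del ∈ I := by rw [hIe]; simp
  have hd1 := (Finset.mem_inter.mp hdel).1
  have hd2 := (Finset.mem_inter.mp hdel).2
  have hs : n₁ del * n₂ del = 1 := by
    rw [hIe, Finset.sum_singleton] at hsum
    exact hsum
  have hsd1 := sign_of_mem s1 hd1
  have hsd2 := sign_of_mem s2 hd2
  have hdeq : n₂ del = n₁ del := by
    rcases hsd1 with a1 | a1 <;> rcases hsd2 with a2 | a2 <;> rw [a1, a2] at hs ⊢ <;> simp at hs ⊢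
  have hdo : o ≠ del := by
    rintro rfl
    exact ho2 hd2
  -- the rest of the first support
  have c3 : (((supp n₁).erase o).erase del).card = 1 := by
    rw [Finset.card_erase_of_mem (Finset.mem_erase.mpr ⟨hdo.symm, hd1⟩), Finset.card_erase_of_mem ho1, c1]
  obtain ⟨lam, hle⟩ := Finset.card_eq_one.mp c3
  have hlam : lam ∈ ((supp n₁).erase o).erase del := by rw [hle]; simp
  have hl1 := Finset.mem_erase.mp hlam
  have hl2 := Finset.mem_erase.mp hl1.2
  have hnotI : ∀ x, x ≠ del → x ∈ supp n₁ → n₂ x = 0 := by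
    intro x hx hx1
    by_contra h0
    have : x ∈ I := Finset.mem_inter.mpr ⟨hx1, mem_supp.mpr h0⟩
    rw [hIe, Finset.mem_singleton] at this
    exact hx this
  have hnotI' : ∀ x, x ≠ del → x ∈ supp n₂ → n₁ x = 0 := by
    intro x hx hx1
    by_contra h0
    have : x ∈ I := Finset.mem_inter.mpr ⟨mem_supp.mpr h0, hx1⟩
    rw [hIe, Finset.mem_singleton] at this
    exact hx this
  -- the rest of the second support
  have c4 : ((supp n₂).erase del).card = 2 := by
    rw [Finset.card_erase_of_mem hd2, c2]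
  obtain ⟨mu, nu, hmn, hme⟩ := Finset.card_eq_two.mp c4
  have hmu : mu ∈ (supp n₂).erase del := by rw [hme]; simp
  have hnu : nu ∈ (supp n₂).erase del := by rw [hme]; simp
  have hm1 := Finset.mem_erase.mp hmu
  have hn1 := Finset.mem_erase.mp hnu
  have hmu0 := hnotI' mu hm1.1 hm1.2
  have hnu0 := hnotI' nu hn1.1 hn1.2
  have hla0 := hnotI lam hl1.1 hl2.2
  refine ⟨lam, del, mu, nu, hl2.1.symm, hdo, ?_, ?_, hl1.1, ?_, ?_, hm1.1.symm, hn1.1.symm, hmn,
    sign_of_mem s1 hl2.2, hla0, hsd1, hdeq, hmu0, sign_of_mem s2 hm1.2, hnu0, sign_of_mem s2 hn1.2, ?_, ?_⟩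
  · rintro rfl
    exact ho2 hm1.2
  · rintro rfl
    exact ho2 hn1.2
  · rintro rfl
    exact (mem_supp.mp hm1.2) hla0
  · rintro rfl
    exact (mem_supp.mp hn1.2) hla0
  · intro x h1' h2' h3'
    by_contra h0
    have : x ∈ ((supp n₁).erase o).erase del :=
      Finset.mem_erase.mpr ⟨h3', Finset.mem_erase.mpr ⟨h1', mem_supp.mpr h0⟩⟩
    rw [hle, Finset.mem_singleton] at this
    exact h2' this
  · intro x h1' h2' h3'
    by_contra h0
    have : x ∈ (supp n₂).erase del := Finset.mem_erase.mpr ⟨h1', mem_supp.mpr h0⟩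
    rw [hme] at this
    simp only [Finset.mem_insert, Finset.mem_singleton] at this
    rcases this with h | h
    · exact h2' h
    · exact h3' h

/-- A sum against a vector supported on three points. -/
theorem sum_three {R : Type*} [AddCommMonoid R] {f : X → R} {a b c : X} (hab : a ≠ b) (hac : a ≠ c) (hbc : b ≠ c)
    (h0 : ∀ x, x ≠ a → x ≠ b → x ≠ c → f x = 0) : ∑ x, f x = f a + (f b + f c) := by
  have h1 : ∑ x ∈ ({a, b, c} : Finset X), f x = ∑ x, f x := by
    refine Finset.sum_subset (Finset.subset_univ _) fun x _ hx => ?_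
    simp only [Finset.mem_insert, Finset.mem_singleton, not_or] at hx
    exact h0 x hx.1 hx.2.1 hx.2.2
  rw [← h1, Finset.sum_insert (by simp [hab, hac]), Finset.sum_insert (by simp [hbc]), Finset.sum_singleton]

/-- Splitting five points off a sum. -/
theorem sum_five {R : Type*} [AddCommMonoid R] (f : X → R) {a b c d e : X} (hab : a ≠ b) (hac : a ≠ c) (had : a ≠ d)
    (hae : a ≠ e) (hbc : b ≠ c) (hbd : b ≠ d) (hbe : b ≠ e) (hcd : c ≠ d) (hce : c ≠ e) (hde : d ≠ e) :
    ∑ x, f x = f a + (f b + (f c + (f d + f e))) +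
      ∑ x ∈ Finset.univ \ ({a, b, c, d, e} : Finset X), f x := by
  rw [add_comm, ← Finset.sum_sdiff (Finset.subset_univ ({a, b, c, d, e} : Finset X))]
  rw [Finset.sum_insert (by simp [hab, hac, had, hae]), Finset.sum_insert (by simp [hbc, hbd, hbe]),
    Finset.sum_insert (by simp [hcd, hce]), Finset.sum_insert (by simp [hde]), Finset.sum_singleton]

end Cfsg.Agent.Lib.Gl23.Gram
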