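import Mathlib
import Cfsg.Agent.Lib.Gl23.Model

/-!
# A group in which the centralizer of an involution is a copy of `GL₂(3)`: local analysis
-/

set_option autoImplicit false
set_option linter.unusedSectionVars false
set_option linter.style.haveILetI false
set_option maxRecDepth 100000

namespace Cfsg.Agent.Lib.Gl23.Local

open Cfsg.Agent.Lib.Gl23.Model

universe u

variable {G : Type u} [Group G]

/-- The embedding of `GL₂(3)` as the centralizer of the involution `t`. -/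
structure Emb (ι : Gam →* G) (t : G) : Prop where
  inj : Function.Injective ι
  hz : ι z = t
  cent : ∀ g : G, g * t = t * g → g ∈ ι.range

variable {ι : Gam →* G} {t : G}

theorem Emb.t_sq (h : Emb ι t) : t * t = 1 := by
  rw [← h.hz, ← map_mul, z_sq, map_one]

theorem Emb.t_ne (h : Emb ι t) : t ≠ 1 := by
  rw [← h.hz]
  intro h1
  exact z_ne (h.inj (by rw [h1, map_one]))

theorem Emb.t_inv (h : Emb ι t) : t⁻¹ = t :=
  inv_eq_of_mul_eq_one_left h.t_sq

theorem Emb.pow_eq (h : Emb ι t) {w : Gam} {k : ℕ} (hw : w ^ k = z) : (ι w) ^ k = t := by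
  rw [← map_pow, hw, h.hz]

/-- An element conjugating one power-root of `t` to another lies in the model. -/
theorem Emb.mem_range_of_conj (h : Emb ι t) {w w' : Gam} {k : ℕ} (hw : w ^ k = z) (hw' : w' ^ k = z) {g : G}
    (hg : g * ι w * g⁻¹ = ι w') : g ∈ ι.range := by
  apply h.cent
  have h1 : g * t * g⁻¹ = t := by
    have h2 : g * (ι w) ^ k * g⁻¹ = (ι w') ^ k := by
      rw [← conj_pow, hg]
    rwa [h.pow_eq hw, h.pow_eq hw'] at h2
  calc g * t = g * t * g⁻¹ * g := by group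
    _ = t * g := by rw [h1]

theorem Emb.isConj_of_isConj (h : Emb ι t) {w w' : Gam} {k : ℕ} (hw : w ^ k = z) (hw' : w' ^ k = z)
    (hc : IsConj (ι w) (ι w')) : ∃ c : Gam, c * w * c⁻¹ = w' := by
  obtain ⟨g, hg⟩ := isConj_iff.mp hc
  obtain ⟨c, rfl⟩ := h.mem_range_of_conj hw hw' hg
  refine ⟨c, h.inj ?_⟩
  rw [map_mul, map_mul, map_inv, hg]

theorem isConj_map (ι : Gam →* G) {w w' : Gam} {c : Gam} (hc : c * w * c⁻¹ = w') : IsConj (ι w) (ι w') :=
  isConj_iff.mpr ⟨ι c, by rw [← map_inv, ← map_mul, ← map_mul, hc]⟩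

/-- The centralizer of a power-root of `t`. -/
theorem Emb.card_centralizer (h : Emb ι t) {w : Gam} {k : ℕ} (hw : w ^ k = z) :
    Nat.card (Subgroup.centralizer ({ι w} : Set G)) =
      (Finset.univ.filter (fun c : Gam => c * w = w * c)).card := by
  classical
  have e1 : Nat.card (Subgroup.centralizer ({ι w} : Set G)) =
      Nat.card {c : Gam // c ∈ Finset.univ.filter (fun c : Gam => c * w = w * c)} := by
    symm
    refine Nat.card_congr (Equiv.ofBijective
      (fun c => ⟨ι c, ?_⟩) ⟨?_, ?_⟩)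
    · have := (Finset.mem_filter.mp c.2).2
      rw [Subgroup.mem_centralizer_singleton_iff, ← map_mul, this, map_mul]
    · intro a b hab
      apply Subtype.ext
      apply h.inj
      exact congrArg Subtype.val hab
    · rintro ⟨g, hg⟩
      rw [Subgroup.mem_centralizer_singleton_iff] at hg
      obtain ⟨c, rfl⟩ := h.mem_range_of_conj hw hw (g := g) (by rw [hg]; group)
      refine ⟨⟨c, Finset.mem_filter.mpr ⟨Finset.mem_univ _, ?_⟩⟩, rfl⟩
      apply h.inj
      rw [map_mul, map_mul, hg]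
  rw [e1, Nat.card_eq_fintype_card, Fintype.card_coe]

/-- The key property of a pair of conjugates of `t` whose product is a root of `t`. -/
theorem Emb.pair_mem (h : Emb ι t) {w : Gam} {k : ℕ} (hw : w ^ k = z) {x y : G} (hx : IsConj t x)
    (hy : IsConj t y) (hxy : x * y = ι w) : ∃ c : Gam, ι c = x ∧ c * c = 1 ∧ c * w * c⁻¹ = w⁻¹ := by
  have hx2 : x * x = 1 := by
    obtain ⟨g, rfl⟩ := isConj_iff.mp hx
    calc g * t * g⁻¹ * (g * t * g⁻¹) = g * (t * t) * g⁻¹ := by group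
      _ = 1 := by rw [h.t_sq]; group
  have hy2 : y * y = 1 := by
    obtain ⟨g, rfl⟩ := isConj_iff.mp hy
    calc g * t * g⁻¹ * (g * t * g⁻¹) = g * (t * t) * g⁻¹ := by group
      _ = 1 := by rw [h.t_sq]; group
  have hxinv : x⁻¹ = x := inv_eq_of_mul_eq_one_left hx2
  have hyinv : y⁻¹ = y := inv_eq_of_mul_eq_one_left hy2
  have h1 : x * ι w * x⁻¹ = (ι w)⁻¹ := by
    rw [← hxy, mul_inv_rev, hxinv, hyinv, ← mul_assoc, hx2, one_mul]
  have hcomm : x * t = t * x := by
    have h2 : x * t * x⁻¹ = t := by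
      rw [← h.pow_eq hw, ← conj_pow, h1, inv_pow, h.pow_eq hw, h.t_inv]
    calc x * t = x * t * x⁻¹ * x := by group
      _ = t * x := by rw [h2]
  obtain ⟨c, rfl⟩ := h.cent x hcomm
  refine ⟨c, rfl, h.inj (by rw [map_mul, hx2, map_one]), h.inj ?_⟩
  rw [map_mul, map_mul, map_inv, h1, map_inv]

/-- No two conjugates of `t` multiply to `a`. -/
theorem Emb.count_a (h : Emb ι t) :
    Nat.card {p : G × G // IsConj t p.1 ∧ IsConj t p.2 ∧ p.1 * p.2 = ι a} = 0 := by
  haveI : IsEmpty {p : G × G // IsConj t p.1 ∧ IsConj t p.2 ∧ p.1 * p.2 = ι a} := by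
    refine ⟨?_⟩
    rintro ⟨⟨x, y⟩, hx, hy, hxy⟩
    obtain ⟨c, -, -, h3⟩ := h.pair_mem a4 hx hy hxy
    exact not_real_a c h3
  exact Nat.card_of_isEmpty

/-- The count at `a²`. -/
theorem Emb.count_a2 (h : Emb ι t) [Finite G] :
    Nat.card {p : G × G // IsConj t p.1 ∧ IsConj t p.2 ∧ p.1 * p.2 = ι (a ^ 2)} = 0 ∨
    Nat.card {p : G × G // IsConj t p.1 ∧ IsConj t p.2 ∧ p.1 * p.2 = ι (a ^ 2)} = 4 := by
  classical
  have hY : ∀ c : Gam, c * c = 1 → c * a ^ 2 * c⁻¹ = (a ^ 2)⁻¹ → c ∈ Y := fun c h1 h2 =>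
    Finset.mem_filter.mpr ⟨Finset.mem_univ _, h1, h2⟩
  by_cases hb : IsConj t (ι b)
  · right
    have hYc : ∀ c ∈ Y, IsConj t (ι c) := by
      intro c hc
      obtain ⟨u, hu⟩ := Y_conj c hc
      exact hb.trans (isConj_map ι hu)
    have e1 : Nat.card {p : G × G // IsConj t p.1 ∧ IsConj t p.2 ∧ p.1 * p.2 = ι (a ^ 2)} =
        Nat.card {c : Gam // c ∈ Y} := by
      symm
      refine Nat.card_congr (Equiv.ofBijective
        (fun c => ⟨(ι c, ι (c.1⁻¹ * a ^ 2)), hYc _ c.2, hYc _ (Y_mul _ c.2), ?_⟩) ⟨?_, ?_⟩)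
      · simp
      · intro c c' hcc
        apply Subtype.ext
        apply h.inj
        exact congrArg (fun p => p.1.1) hcc
      · rintro ⟨⟨x, y⟩, hx, hy, hxy⟩
        obtain ⟨c, rfl, h2, h3⟩ := h.pair_mem a2_2 hx hy hxy
        refine ⟨⟨c, hY c h2 h3⟩, ?_⟩
        apply Subtype.ext
        apply Prod.ext
        · rfl
        · change ι (c⁻¹ * a ^ 2) = y
          rw [map_mul, map_inv, ← hxy]
          group
    rw [e1, Nat.card_eq_fintype_card, Fintype.card_coe, card_Y]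
  · left
    haveI : IsEmpty {p : G × G // IsConj t p.1 ∧ IsConj t p.2 ∧ p.1 * p.2 = ι (a ^ 2)} := by
      refine ⟨?_⟩
      rintro ⟨⟨x, y⟩, hx, hy, hxy⟩
      obtain ⟨c, rfl, h2, h3⟩ := h.pair_mem a2_2 hx hy hxy
      obtain ⟨u, hu⟩ := Y_conj c (hY c h2 h3)
      exact hb (hx.trans (isConj_map ι hu).symm)
    exact Nat.card_of_isEmpty

end Cfsg.Agent.Lib.Gl23.Local
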