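import Mathlib
import Cfsg.Agent.Lib.Char.Ortho
import Cfsg.Agent.Lib.Char.Basic

/-!
# Eigenvalue multiplicities of an element of order dividing `8`

If `x ^ 8 = 1` and a character takes equal values at `x` and `x ^ 3`, and at `x ^ 2` and `x ^ 6`,
then its values at the powers of `x` are given by five natural numbers.
-/

set_option autoImplicit false

namespace Cfsg.Agent.Lib.Gl23.Mult

open Cfsg Module

universe u

/-- The square root of `2` in `ℂ`. -/
noncomputable def sq2 : ℂ := ((Real.sqrt 2 : ℝ) : ℂ)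

theorem sq2_sq : sq2 * sq2 = 2 := by
  rw [sq2, ← Complex.ofReal_mul, Real.mul_self_sqrt (by norm_num)]
  norm_num

theorem sq2_ne : sq2 ≠ 0 := by
  intro h
  have := sq2_sq
  rw [h] at this
  norm_num at this

/-- A primitive eighth root of unity. -/
noncomputable def zt : ℂ := sq2 / 2 * (1 + Complex.I)

theorem zt_sq : zt * zt = Complex.I := by
  rw [zt]
  have h1 := sq2_sq
  have h2 := Complex.I_mul_I
  linear_combination (1 / 4 * (1 + Complex.I) * (1 + Complex.I)) * h1 + (1 / 2 : ℂ) * h2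

/-- The eighth roots of unity. -/
noncomputable def wv : Fin 8 → ℂ :=
  ![1, zt, Complex.I, Complex.I * zt, -1, -zt, -Complex.I, -(Complex.I * zt)]

theorem exists_wv {c : ℂ} (hc : c ^ 8 = 1) : ∃ j, c = wv j := by
  have h1 := zt_sq
  have h2 := Complex.I_mul_I
  have hf : (c - 1) * (c + 1) * (c - Complex.I) * (c + Complex.I) * (c - zt) * (c + zt) *
      (c - Complex.I * zt) * (c + Complex.I * zt) = 0 := by
    have e1 : (c - zt) * (c + zt) = c * c - Complex.I := by
      linear_combination -h1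
    have e2 : (c - Complex.I * zt) * (c + Complex.I * zt) = c * c + Complex.I := by
      have : (Complex.I * zt) * (Complex.I * zt) = -Complex.I := by
        linear_combination (zt * zt) * h2 - h1
      linear_combination -this
    have e3 : (c - Complex.I) * (c + Complex.I) = c * c + 1 := by
      linear_combination -h2
    calc (c - 1) * (c + 1) * (c - Complex.I) * (c + Complex.I) * (c - zt) * (c + zt) *
          (c - Complex.I * zt) * (c + Complex.I * zt)
        = (c - 1) * (c + 1) * ((c - Complex.I) * (c + Complex.I)) * ((c - zt) * (c + zt)) *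
          ((c - Complex.I * zt) * (c + Complex.I * zt)) := by ring
      _ = (c - 1) * (c + 1) * (c * c + 1) * (c * c - Complex.I) * (c * c + Complex.I) := by
          rw [e1, e2, e3]
      _ = 0 := by linear_combination hc + (-(c ^ 4 - 1)) * h2
  simp only [mul_eq_zero, or_assoc] at hf
  rcases hf with h | h | h | h | h | h | h | h
  · exact ⟨0, by simpa [wv] using sub_eq_zero.mp h⟩
  · exact ⟨4, by simpa [wv] using eq_neg_of_add_eq_zero_left h⟩
  · exact ⟨2, by simpa [wv] using sub_eq_zero.mp h⟩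
  · exact ⟨6, by simpa [wv] using eq_neg_of_add_eq_zero_left h⟩
  · exact ⟨1, by simpa [wv] using sub_eq_zero.mp h⟩
  · exact ⟨5, by simpa [wv] using eq_neg_of_add_eq_zero_left h⟩
  · exact ⟨3, by simpa [wv] using sub_eq_zero.mp h⟩
  · exact ⟨7, by simpa [wv] using eq_neg_of_add_eq_zero_left h⟩

variable {G : Type u} [Group G]

/-- A character at the powers of an element of order dividing `8`. -/
theorem exists_counts [Finite G] {χ : G → ℂ} (hχ : IsCharacter G χ) {x : G} (h8 : x ^ 8 = 1) :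
    ∃ m : Fin 8 → ℕ, ∀ k : ℕ, χ (x ^ k) = ∑ j : Fin 8, (m j : ℂ) * (wv j) ^ k := by
  classical
  obtain ⟨n, ρ, rfl⟩ := hχ
  obtain ⟨b, c, h1, h2, -, -⟩ := Cfsg.Agent.Lib.Char.Ortho.exists_eigenbasis_of_rep ρ x
  have hc8 : ∀ i, c i ^ 8 = 1 := by
    intro i
    obtain ⟨k, hk⟩ := orderOf_dvd_of_pow_eq_one h8
    rw [hk, pow_mul, h2 i, one_pow]
  choose J hJ using fun i => exists_wv (hc8 i)
  refine ⟨fun j => (Finset.univ.filter (fun i => J i = j)).card, fun k => ?_⟩
  have hpow : ∀ (k : ℕ) (i : Fin (finrank ℂ (Fin n → ℂ))), ρ (x ^ k) (b i) = (c i) ^ k • b i := by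
    intro k i
    induction k with
    | zero => simp
    | succ k ih =>
      rw [pow_succ, map_mul, Module.End.mul_apply, h1 i, map_smul, ih, smul_smul, pow_succ, mul_comm]
  have e1 : ρ.character (x ^ k) = ∑ i, (c i) ^ k :=
    Cfsg.Agent.Lib.Char.Ortho.trace_eq_sum_of_eigenbasis (ρ (x ^ k)) b _ (hpow k)
  rw [e1]
  have e2 : ∑ i, (c i) ^ k = ∑ i, (wv (J i)) ^ k :=
    Finset.sum_congr rfl fun i _ => by rw [hJ i]
  rw [e2, ← Finset.sum_fiberwise Finset.univ J]
  refine Finset.sum_congr rfl fun j _ => ?_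
  have e3 : ∀ i ∈ Finset.univ.filter (fun i => J i = j), (wv (J i)) ^ k = (wv j) ^ k := by
    intro i hi
    rw [(Finset.mem_filter.mp hi).2]
  rw [Finset.sum_congr rfl e3, Finset.sum_const, nsmul_eq_mul]

theorem re_im_zero {u v : ℝ} (h : (u : ℂ) * sq2 + 2 * (v : ℂ) * Complex.I = 0) : u = 0 ∧ v = 0 := by
  have h1 := congrArg Complex.re h
  have h2 := congrArg Complex.im h
  simp [sq2] at h1 h2
  exact ⟨h1, h2⟩

/-- **Multiplicities.** -/
theorem exists_mult [Finite G] {χ : G → ℂ} (hχ : IsCharacter G χ) {x : G} (h8 : x ^ 8 = 1)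
    (h3 : χ x = χ (x ^ 3)) (h2 : χ (x ^ 2) = χ (x ^ 6)) :
    ∃ A B C E F : ℕ,
      χ 1 = (A : ℂ) + B + 2 * C + 2 * E + 2 * F ∧
      χ (x ^ 4) = (A : ℂ) + B + 2 * C - 2 * E - 2 * F ∧
      χ (x ^ 2) = (A : ℂ) + B - 2 * C ∧
      χ x = ((A : ℂ) - B) + Complex.I * sq2 * ((E : ℂ) - F) ∧
      χ (x ^ 5) = ((A : ℂ) - B) - Complex.I * sq2 * ((E : ℂ) - F) := by
  obtain ⟨m, hm⟩ := exists_counts hχ h8
  have hI := Complex.I_mul_I
  have hz := zt_sq
  have e0 := hm 0
  have e1 := hm 1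
  have e2 := hm 2
  have e3 := hm 3
  have e4 := hm 4
  have e5 := hm 5
  have e6 := hm 6
  simp only [Fin.sum_univ_eight, wv] at e0 e1 e2 e3 e4 e5 e6
  simp at e0 e1 e2 e3 e4 e5 e6
  have x1 : χ x = ((m 0 : ℂ) - m 4) + ((m 1 : ℂ) - m 5) * zt + ((m 2 : ℂ) - m 6) * Complex.I +
      ((m 3 : ℂ) - m 7) * (Complex.I * zt) := by
    rw [e1]
    ring
  have x3 : χ (x ^ 3) = ((m 0 : ℂ) - m 4) + ((m 1 : ℂ) - m 5) * (Complex.I * zt) -
      ((m 2 : ℂ) - m 6) * Complex.I + ((m 3 : ℂ) - m 7) * zt := by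
    have t1 : zt ^ 3 = Complex.I * zt := by grind
    have t2 : (Complex.I * zt) ^ 3 = zt := by grind
    have t3 : Complex.I ^ 3 = - Complex.I := by grind
    grind
  have x2 : χ (x ^ 2) = ((m 0 : ℂ) + m 4 - m 2 - m 6) + ((m 1 : ℂ) + m 5 - m 3 - m 7) * Complex.I := by
    have t1 : zt ^ 2 = Complex.I := by grind
    have t2 : (Complex.I * zt) ^ 2 = - Complex.I := by grind
    have t3 : Complex.I ^ 2 = - 1 := by grind
    grind
  have x6 : χ (x ^ 6) = ((m 0 : ℂ) + m 4 - m 2 - m 6) - ((m 1 : ℂ) + m 5 - m 3 - m 7) * Complex.I := by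
    have t1 : zt ^ 6 = - Complex.I := by grind
    have t2 : (Complex.I * zt) ^ 6 = Complex.I := by grind
    have t3 : Complex.I ^ 6 = - 1 := by grind
    grind
  have x4 : χ (x ^ 4) = (m 0 : ℂ) - m 1 + m 2 - m 3 + m 4 - m 5 + m 6 - m 7 := by
    have t1 : zt ^ 4 = - 1 := by grind
    have t2 : (Complex.I * zt) ^ 4 = - 1 := by grind
    have t3 : Complex.I ^ 4 = 1 := by grind
    grind
  have x5 : χ (x ^ 5) = ((m 0 : ℂ) - m 4) - ((m 1 : ℂ) - m 5) * zt + ((m 2 : ℂ) - m 6) * Complex.I -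
      ((m 3 : ℂ) - m 7) * (Complex.I * zt) := by
    have t1 : zt ^ 5 = - zt := by grind
    have t2 : (Complex.I * zt) ^ 5 = - (Complex.I * zt) := by grind
    have t3 : Complex.I ^ 5 = Complex.I := by grind
    grind
  -- the relations
  have r1 : ((m 1 : ℂ) + m 5 - m 3 - m 7) = 0 := by
    have h4 : ((m 1 : ℂ) + m 5 - m 3 - m 7) * (2 * Complex.I) = 0 := by
      have := h2
      rw [x2, x6] at this
      linear_combination this
    exact (mul_eq_zero.mp h4).resolve_right (by simp)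
  have r2 : (((m 1 : ℝ) - m 5 - m 3 + m 7 : ℝ) : ℂ) * sq2 + 2 * (((m 2 : ℝ) - m 6 : ℝ) : ℂ) * Complex.I = 0 := by
    have h4 := h3
    rw [x1, x3] at h4
    have e : zt - Complex.I * zt = sq2 := by
      rw [zt]
      linear_combination (-(sq2 / 2)) * hI
    push_cast
    linear_combination h4 + (-((m 1 : ℂ) - m 5 - m 3 + m 7)) * e
  obtain ⟨r3, r4⟩ := re_im_zero r2
  have n1 : m 1 + m 5 = m 3 + m 7 := by
    have : ((m 1 + m 5 : ℕ) : ℂ) = ((m 3 + m 7 : ℕ) : ℂ) := by
      push_cast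
      linear_combination r1
    exact_mod_cast this
  have n2 : m 1 + m 7 = m 3 + m 5 := by
    have : ((m 1 + m 7 : ℕ) : ℝ) = ((m 3 + m 5 : ℕ) : ℝ) := by
      push_cast
      linear_combination r3
    exact_mod_cast this
  have n3 : m 2 = m 6 := by
    have : ((m 2 : ℕ) : ℝ) = ((m 6 : ℕ) : ℝ) := by
      linear_combination r4
    exact_mod_cast this
  have n4 : m 1 = m 3 := by omega
  have n5 : m 5 = m 7 := by omega
  have e' : zt + Complex.I * zt = Complex.I * sq2 := by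
    rw [zt]
    linear_combination (sq2 / 2) * hI
  refine ⟨m 0, m 4, m 2, m 1, m 5, ?_, ?_, ?_, ?_, ?_⟩
  · rw [e0, ← n3, ← n4, ← n5]
    ring
  · rw [x4, ← n3, ← n4, ← n5]
    ring
  · rw [x2, ← n3, ← n4, ← n5]
    ring
  · rw [x1, ← n3, ← n4, ← n5]
    linear_combination ((m 1 : ℂ) - m 5) * e'
  · rw [x5, ← n3, ← n4, ← n5]
    linear_combination (-((m 1 : ℂ) - m 5)) * e'

end Cfsg.Agent.Lib.Gl23.Mult
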