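import Mathlib
import Cfsg.Agent.Lib.Gl23.Local
import Cfsg.Agent.Lib.Gl23.Mult
import Cfsg.Agent.Lib.Char.ClassProd
import Cfsg.Agent.Lib.Char.Complete
import Cfsg.Agent.Lib.Char.Degree
import Cfsg.Agent.Lib.Char.Burnside

/-!
# Integer columns of the character table at the elements of the semidihedral subgroup
-/

set_option autoImplicit false
set_option linter.unusedSectionVars false
set_option linter.style.haveILetI false
set_option maxRecDepth 100000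

namespace Cfsg.Agent.Lib.Gl23.Vals

open Cfsg Cfsg.Agent.Lib.Gl23.Model Cfsg.Agent.Lib.Gl23.Local Cfsg.Agent.Lib.Gl23.Mult
open scoped ComplexConjugate

universe u

variable {G : Type u} [Group G] [Fintype G] {ι : Gam →* G} {t : G}

theorem isClass (χ : IrrCharacter G) {a b : G} (h : IsConj a b) : (χ : G → ℂ) a = (χ : G → ℂ) b := by
  obtain ⟨c, rfl⟩ := isConj_iff.mp h
  exact (Cfsg.Agent.Lib.Char.Basic.isClassFunction_of_isIrrCharacter χ.2 a c).symm

/-- The shape of the values of the irreducible characters. -/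
structure Val (ι : Gam →* G) (t : G) (n1 n2 ww dd ee : IrrCharacter G → ℤ) : Prop where
  v1 : ∀ χ : IrrCharacter G, (χ : G → ℂ) 1 = dd χ
  vt : ∀ χ : IrrCharacter G, (χ : G → ℂ) t = ee χ
  va2 : ∀ χ : IrrCharacter G, (χ : G → ℂ) (ι (a ^ 2)) = (n1 χ : ℂ) + n2 χ
  va : ∀ χ : IrrCharacter G, (χ : G → ℂ) (ι a) = ((n1 χ : ℂ) - n2 χ) + Complex.I * sq2 * (ww χ)
  va5 : ∀ χ : IrrCharacter G, (χ : G → ℂ) (ι (a ^ 5)) = ((n1 χ : ℂ) - n2 χ) - Complex.I * sq2 * (ww χ)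
  c1 : ∀ χ, (8 : ℤ) ∣ dd χ - ee χ - 4 * ww χ
  c2 : ∀ χ, (8 : ℤ) ∣ dd χ + ee χ - 2 * n1 χ - 2 * n2 χ
  pos : ∀ χ, 0 < dd χ

theorem exists_val (h : Emb ι t) : ∃ n1 n2 ww dd ee : IrrCharacter G → ℤ, Val ι t n1 n2 ww dd ee := by
  have hmult : ∀ χ : IrrCharacter G, _ := fun χ =>
    exists_mult (Cfsg.Agent.Lib.Char.Basic.isCharacter_of_isIrrCharacter χ.2) (x := ι a)
      (by rw [← map_pow, a8, map_one])
      (by
        rw [← map_pow]
        exact isClass χ (isConj_map ι conj_a3))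
      (by
        rw [← map_pow, ← map_pow]
        exact isClass χ (isConj_map ι conj_a2))
  choose A B C E F h1 h4 h2 h3 h5 using hmult
  refine ⟨fun χ => (A χ : ℤ) - C χ, fun χ => (B χ : ℤ) - C χ, fun χ => (E χ : ℤ) - F χ,
    fun χ => (A χ : ℤ) + B χ + 2 * C χ + 2 * E χ + 2 * F χ,
    fun χ => (A χ : ℤ) + B χ + 2 * C χ - 2 * E χ - 2 * F χ, ?_⟩
  refine ⟨?_, ?_, ?_, ?_, ?_, ?_, ?_, ?_⟩
  · intro χ
    rw [h1 χ]
    push_cast
    ring
  · intro χ
    rw [← h.pow_eq a4, ← map_pow, map_pow, h4 χ]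
    push_cast
    ring
  · intro χ
    rw [map_pow, h2 χ]
    push_cast
    ring
  · intro χ
    rw [h3 χ]
    push_cast
    ring
  · intro χ
    rw [map_pow, h5 χ]
    push_cast
    ring
  · intro χ
    refine ⟨(F χ : ℤ), ?_⟩
    ring
  · intro χ
    refine ⟨(C χ : ℤ), ?_⟩
    ring
  · intro χ
    have h0 := Cfsg.Agent.Lib.Char.Complete.irr_one_ne_zero χ.2
    rw [h1 χ] at h0
    have h6 : (A χ : ℤ) + B χ + 2 * C χ + 2 * E χ + 2 * F χ ≠ 0 := by
      intro h7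
      apply h0
      exact_mod_cast h7
    omega

theorem sq2_conj : conj sq2 = sq2 := Complex.conj_ofReal _

theorem I_sq2 : Complex.I * sq2 * (Complex.I * sq2) = -2 := by
  have h1 := sq2_sq
  have h2 := Complex.I_mul_I
  linear_combination (sq2 * sq2) * h2 - h1

theorem conj_plus (x x' y : ℤ) :
    conj (((x : ℂ) - x') + Complex.I * sq2 * y) = ((x : ℂ) - x') - Complex.I * sq2 * y := by
  simp only [map_add, map_sub, map_mul, Complex.conj_I, sq2_conj, map_intCast]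
  ring

theorem conj_minus (x x' y : ℤ) :
    conj (((x : ℂ) - x') - Complex.I * sq2 * y) = ((x : ℂ) - x') + Complex.I * sq2 * y := by
  simp only [map_sub, map_mul, Complex.conj_I, sq2_conj, map_intCast]
  ring

theorem not_conj_of_pow {x y : G} {k : ℕ} (hx : x ^ k = 1) (hy : y ^ k ≠ 1) : ¬ IsConj x y := by
  intro hc
  obtain ⟨c, rfl⟩ := isConj_iff.mp hc
  apply hy
  rw [conj_pow, hx]
  group

/-- Elements of order at most two are conjugate to none of the three elements. -/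
theorem Emb.not_conj (h : Emb ι t) {g : G} (hg : g ^ 2 = 1) :
    ¬ IsConj g (ι a) ∧ ¬ IsConj g (ι (a ^ 2)) ∧ ¬ IsConj g (ι (a ^ 5)) := by
  have key : ∀ w : Gam, w ^ 2 ≠ 1 → ¬ IsConj g (ι w) := by
    intro w hw
    refine not_conj_of_pow hg ?_
    intro h1
    apply hw
    apply h.inj
    rw [map_pow, h1, map_one]
  exact ⟨key _ (by decide +kernel), key _ (by decide +kernel), key _ (by decide +kernel)⟩

theorem sum_comb {α : Type*} [Fintype α] (x y : α → ℝ) :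
    ∑ i, ((x i : ℂ) + Complex.I * sq2 * (y i : ℂ)) =
      ((∑ i, x i : ℝ) : ℂ) + Complex.I * sq2 * ((∑ i, y i : ℝ) : ℂ) := by
  push_cast
  rw [Finset.mul_sum, ← Finset.sum_add_distrib]

/-- Extracting the real part of a combination. -/
theorem re_of_sum {α : Type*} [Fintype α] {x y : α → ℝ} {r : ℝ}
    (h : ∑ i, ((x i : ℂ) + Complex.I * sq2 * (y i : ℂ)) = (r : ℂ)) : ∑ i, x i = r := by
  rw [sum_comb] at h
  have h1 := congrArg Complex.re h
  simpa [sq2] using h1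

variable [Fintype (IrrCharacter G)]

theorem orth_ne {g w : G} (hn : ¬ IsConj g w) :
    ∑ χ : IrrCharacter G, (χ : G → ℂ) g * conj ((χ : G → ℂ) w) = 0 := by
  classical
  have h0 := Cfsg.Agent.Lib.Char.Complete.sum_irr_mul_conj g w
  rw [if_neg hn] at h0
  convert h0

theorem orth_self (w : G) :
    ∑ χ : IrrCharacter G, (χ : G → ℂ) w * conj ((χ : G → ℂ) w) =
      (Nat.card (Subgroup.centralizer ({w} : Set G)) : ℂ) := by
  classical
  have h0 := Cfsg.Agent.Lib.Char.Complete.sum_irr_mul_conj w w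
  rw [if_pos (IsConj.refl w)] at h0
  convert h0

variable {n1 n2 ww dd ee : IrrCharacter G → ℤ}

/-- The relations between the three columns. -/
theorem sums (h : Emb ι t) (V : Val ι t n1 n2 ww dd ee) :
    ∑ χ, n1 χ * n1 χ = 3 ∧ ∑ χ, n2 χ * n2 χ = 3 ∧ ∑ χ, n1 χ * n2 χ = 1 ∧ ∑ χ, ww χ * ww χ = 2 := by
  -- the column of `a²`
  have E1 : ∑ χ, (n1 χ + n2 χ) * (n1 χ + n2 χ) = 8 := by
    have h1 := orth_self (G := G) (ι (a ^ 2))
    rw [h.card_centralizer a2_2, cent_a2] at h1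
    have h2 : ((∑ χ, (n1 χ + n2 χ) * (n1 χ + n2 χ) : ℤ) : ℂ) = ((8 : ℕ) : ℂ) := by
      rw [← h1]
      push_cast
      refine Finset.sum_congr rfl fun χ _ => ?_
      rw [V.va2 χ]
      simp
    exact_mod_cast h2
  -- the column of `a`
  have E2 : ∑ χ, ((n1 χ - n2 χ) * (n1 χ - n2 χ) + 2 * (ww χ * ww χ)) = 8 := by
    have h1 := orth_self (G := G) (ι a)
    rw [h.card_centralizer a4, cent_a] at h1
    have h2 : ((∑ χ, ((n1 χ - n2 χ) * (n1 χ - n2 χ) + 2 * (ww χ * ww χ)) : ℤ) : ℂ) = ((8 : ℕ) : ℂ) := by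
      rw [← h1]
      push_cast
      refine Finset.sum_congr rfl fun χ _ => ?_
      rw [V.va χ]
      rw [conj_plus]
      linear_combination ((ww χ : ℂ) * ww χ) * I_sq2
    exact_mod_cast h2
  have E3 : ∑ χ, ((n1 χ - n2 χ) * (n1 χ - n2 χ) - 2 * (ww χ * ww χ)) = 0 := by
    have hnc : ¬ IsConj (ι a) (ι (a ^ 5)) := by
      intro hc
      obtain ⟨c, hc⟩ := h.isConj_of_isConj a4 (by decide +kernel) hc
      exact not_conj_a5 c hc
    have h1 := orth_ne hnc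
    have h2 : ∑ χ : IrrCharacter G, ((((((n1 χ - n2 χ) * (n1 χ - n2 χ) - 2 * (ww χ * ww χ) : ℤ) : ℝ)) : ℂ) +
        Complex.I * sq2 * ((((2 * ((n1 χ - n2 χ) * ww χ) : ℤ) : ℝ)) : ℂ)) = ((0 : ℝ) : ℂ) := by
      rw [Complex.ofReal_zero, ← h1]
      refine Finset.sum_congr rfl fun χ _ => ?_
      rw [V.va χ, V.va5 χ]
      rw [conj_minus]
      push_cast
      linear_combination (-(ww χ : ℂ) * ww χ) * I_sq2
    have h3 := re_of_sum h2
    exact_mod_cast h3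
  have E4 : ∑ χ, (n1 χ + n2 χ) * (n1 χ - n2 χ) = 0 := by
    have hnc : ¬ IsConj (ι (a ^ 2)) (ι a) := by
      refine not_conj_of_pow (k := 4) ?_ ?_
      · rw [← map_pow, ← map_one ι]
        congr 1
        decide +kernel
      · rw [h.pow_eq a4]
        exact h.t_ne
    have h1 := orth_ne hnc
    have h2 : ∑ χ : IrrCharacter G, ((((((n1 χ + n2 χ) * (n1 χ - n2 χ) : ℤ) : ℝ)) : ℂ) +
        Complex.I * sq2 * (((( - ((n1 χ + n2 χ) * ww χ) : ℤ) : ℝ)) : ℂ)) = ((0 : ℝ) : ℂ) := by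
      rw [Complex.ofReal_zero, ← h1]
      refine Finset.sum_congr rfl fun χ _ => ?_
      rw [V.va2 χ, V.va χ]
      rw [conj_plus]
      push_cast
      ring
    have h3 := re_of_sum h2
    exact_mod_cast h3
  -- the linear algebra
  have e1 : ∑ χ, (n1 χ + n2 χ) * (n1 χ + n2 χ) =
      ∑ χ, n1 χ * n1 χ + 2 * ∑ χ, n1 χ * n2 χ + ∑ χ, n2 χ * n2 χ := by
    rw [Finset.mul_sum, ← Finset.sum_add_distrib, ← Finset.sum_add_distrib]
    exact Finset.sum_congr rfl fun χ _ => by ring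
  have e2 : ∑ χ, ((n1 χ - n2 χ) * (n1 χ - n2 χ) + 2 * (ww χ * ww χ)) =
      ∑ χ, n1 χ * n1 χ - 2 * ∑ χ, n1 χ * n2 χ + ∑ χ, n2 χ * n2 χ + 2 * ∑ χ, ww χ * ww χ := by
    rw [Finset.mul_sum, Finset.mul_sum, ← Finset.sum_sub_distrib, ← Finset.sum_add_distrib,
      ← Finset.sum_add_distrib]
    exact Finset.sum_congr rfl fun χ _ => by ring
  have e3 : ∑ χ, ((n1 χ - n2 χ) * (n1 χ - n2 χ) - 2 * (ww χ * ww χ)) =
      ∑ χ, n1 χ * n1 χ - 2 * ∑ χ, n1 χ * n2 χ + ∑ χ, n2 χ * n2 χ - 2 * ∑ χ, ww χ * ww χ := by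
    rw [Finset.mul_sum, Finset.mul_sum, ← Finset.sum_sub_distrib, ← Finset.sum_add_distrib,
      ← Finset.sum_sub_distrib]
    exact Finset.sum_congr rfl fun χ _ => by ring
  have e4 : ∑ χ, (n1 χ + n2 χ) * (n1 χ - n2 χ) = ∑ χ, n1 χ * n1 χ - ∑ χ, n2 χ * n2 χ := by
    rw [← Finset.sum_sub_distrib]
    exact Finset.sum_congr rfl fun χ _ => by ring
  rw [e1] at E1
  rw [e2] at E2
  rw [e3] at E3
  rw [e4] at E4
  omega

/-- Column relations. -/
theorem col_rel (V : Val ι t n1 n2 ww dd ee) {g : G} {v : IrrCharacter G → ℤ}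
    (hv : ∀ χ : IrrCharacter G, (χ : G → ℂ) g = v χ)
    (h1 : ¬ IsConj g (ι a)) (h2 : ¬ IsConj g (ι (a ^ 2))) :
    ∑ χ, v χ * n1 χ = 0 ∧ ∑ χ, v χ * n2 χ = 0 := by
  have E1 : ∑ χ, v χ * (n1 χ + n2 χ) = 0 := by
    have h4 := orth_ne h2
    have h5 : ((∑ χ, v χ * (n1 χ + n2 χ) : ℤ) : ℂ) = 0 := by
      rw [← h4]
      push_cast
      refine Finset.sum_congr rfl fun χ _ => ?_
      rw [hv χ, V.va2 χ]
      simp
    exact_mod_cast h5
  have E2 : ∑ χ, v χ * (n1 χ - n2 χ) = 0 := by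
    have h4 := orth_ne h1
    have h5 : ∑ χ : IrrCharacter G, (((((v χ * (n1 χ - n2 χ) : ℤ) : ℝ)) : ℂ) +
        Complex.I * sq2 * (((( - (v χ * ww χ) : ℤ) : ℝ)) : ℂ)) = ((0 : ℝ) : ℂ) := by
      rw [Complex.ofReal_zero, ← h4]
      refine Finset.sum_congr rfl fun χ _ => ?_
      rw [hv χ, V.va χ, conj_plus]
      push_cast
      ring
    have h6 := re_of_sum h5
    exact_mod_cast h6
  have e1 : ∑ χ, v χ * (n1 χ + n2 χ) = ∑ χ, v χ * n1 χ + ∑ χ, v χ * n2 χ := by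
    rw [← Finset.sum_add_distrib]
    exact Finset.sum_congr rfl fun χ _ => by ring
  have e2 : ∑ χ, v χ * (n1 χ - n2 χ) = ∑ χ, v χ * n1 χ - ∑ χ, v χ * n2 χ := by
    rw [← Finset.sum_sub_distrib]
    exact Finset.sum_congr rfl fun χ _ => by ring
  rw [e1] at E1
  rw [e2] at E2
  omega

end Cfsg.Agent.Lib.Gl23.Vals
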