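import Mathlib
import Cfsg.Agent.Lib.Gl23.Vals
import Cfsg.Agent.Lib.Gl23.Gram
import Cfsg.Agent.Lib.Gl23.Arith
import Cfsg.Agent.Lib.Blocks.Third

/-!
# The order of a simple group with an involution centralizer isomorphic to `GL₂(3)`
-/

set_option autoImplicit false
set_option linter.unusedSectionVars false
set_option linter.style.haveILetI false
set_option maxRecDepth 100000

namespace Cfsg.Agent.Lib.Gl23.Final

open Cfsg Cfsg.Agent.Lib.Gl23.Model Cfsg.Agent.Lib.Gl23.Local Cfsg.Agent.Lib.Gl23.Mult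
open Cfsg.Agent.Lib.Gl23.Vals Cfsg.Agent.Lib.Gl23.Gram
open Cfsg.Agent.Lib.Blocks.Third (oneI oneI_apply)
open scoped ComplexConjugate

universe u

variable {G : Type u} [Group G] [Fintype G] {ι : Gam →* G} {t : G}

/-- The pure algebra. -/
theorem alg {l v m n mt nt P N : ℝ} (hl : l ≠ 0) (hl1 : 1 + l ≠ 0) (hm : m ≠ 0) (hn : n ≠ 0)
    (hmn : m + n = l + 1) (hmt : mt + nt = v + 1)
    (h1 : 1 + v ^ 2 / l = mt ^ 2 / m + nt ^ 2 / n)
    (h2 : N * (2 * (1 + v ^ 2 / l + (1 + v) ^ 2 / (-(1 + l)))) = P * 2304) :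
    m * n * (l - v) ^ 2 = l * (mt * n - nt * m) ^ 2 ∧ 2 * N * (l - v) ^ 2 = P * 2304 * (l * (l + 1)) := by
  constructor
  · have h1' : (l + v ^ 2) * (m * n) = l * (mt ^ 2 * n + nt ^ 2 * m) := by
      field_simp at h1
      linear_combination h1
    have hn' : n = l + 1 - m := by linarith
    have hnt : nt = v + 1 - mt := by linarith
    subst hn' hnt
    linear_combination (l + 1) * h1'
  · have e : 1 + v ^ 2 / l + (1 + v) ^ 2 / (-(1 + l)) = (l - v) ^ 2 / (l * (l + 1)) := by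
      have hl1' : l + 1 ≠ 0 := by rwa [add_comm]
      have hl2 : -(1 + l) ≠ 0 := neg_ne_zero.mpr hl1
      field_simp
      ring
    rw [e] at h2
    have hl1' : l + 1 ≠ 0 := by rwa [add_comm]
    field_simp at h2
    linear_combination h2

theorem beta_sign {s e d : ℤ} (hs : s = 1 ∨ s = -1) :
    (e : ℝ) * e / d * (s : ℝ) = (((s * e : ℤ) : ℝ)) ^ 2 / ((s * d : ℤ) : ℝ) := by
  rcases hs with rfl | rfl
  · push_cast
    ring
  · push_cast
    rw [neg_one_mul, neg_one_mul, neg_sq, div_neg]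
    ring

/-- Parity. -/
theorem parity {g x y p q r w : ℤ} (h1 : (8 : ℤ) ∣ g - 4 * p) (h2 : (8 : ℤ) ∣ -g - 4 * q) (h3 : (8 : ℤ) ∣ x - 4 * r)
    (h4 : (8 : ℤ) ∣ y - 4 * w) (hxy : x + y = g) (hs : p ^ 2 + q ^ 2 + r ^ 2 + w ^ 2 ≤ 2) :
    (8 : ℤ) ∣ g ∧ (((8 : ℤ) ∣ x ∧ (8 : ℤ) ∣ y) ∨ ((8 : ℤ) ∣ x - 4 ∧ (8 : ℤ) ∣ y - 4)) := by
  have a1 : p ≤ 1 ∧ -1 ≤ p := by constructor <;> nlinarith [sq_nonneg q, sq_nonneg r, sq_nonneg w]
  have a2 : q ≤ 1 ∧ -1 ≤ q := by constructor <;> nlinarith [sq_nonneg p, sq_nonneg r, sq_nonneg w]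
  have a3 : r ≤ 1 ∧ -1 ≤ r := by constructor <;> nlinarith [sq_nonneg p, sq_nonneg q, sq_nonneg w]
  have a4 : w ≤ 1 ∧ -1 ≤ w := by constructor <;> nlinarith [sq_nonneg p, sq_nonneg q, sq_nonneg r]
  obtain ⟨a1, a1'⟩ := a1
  obtain ⟨a2, a2'⟩ := a2
  obtain ⟨a3, a3'⟩ := a3
  obtain ⟨a4, a4'⟩ := a4
  -- the parities
  have hp : p % 2 = 0 := by
    by_contra hp
    have hp1 : p = 1 ∨ p = -1 := by omega
    have hq1 : q = 1 ∨ q = -1 := by
      rcases hp1 with rfl | rfl <;> omega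
    have e1 : p ^ 2 = 1 := by rcases hp1 with rfl | rfl <;> norm_num
    have e2 : q ^ 2 = 1 := by rcases hq1 with rfl | rfl <;> norm_num
    have e3 : r ^ 2 + w ^ 2 ≤ 0 := by linarith
    have e4 : r ^ 2 = 0 := by nlinarith [sq_nonneg r, sq_nonneg w]
    have e5 : w ^ 2 = 0 := by nlinarith [sq_nonneg r, sq_nonneg w]
    have e6 : r = 0 := pow_eq_zero_iff two_ne_zero |>.mp e4
    have e7 : w = 0 := pow_eq_zero_iff two_ne_zero |>.mp e5
    subst e6 e7
    rcases hp1 with rfl | rfl <;> omega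
  have hp0 : p = 0 := by omega
  subst hp0
  constructor
  · omega
  · have hc : r % 2 = w % 2 := by omega
    by_cases hr : r % 2 = 0
    · left
      have : r = 0 := by omega
      have : w = 0 := by omega
      subst_vars
      omega
    · right
      omega

theorem sgn_c1 {s d e w : ℤ} (hs : s = 1 ∨ s = -1) (h : (8 : ℤ) ∣ d - e - 4 * w) :
    (8 : ℤ) ∣ s * d - s * e - 4 * w := by
  rcases hs with rfl | rfl <;> omega

theorem sgn_c2 {s d e : ℤ} (hs : s = 1 ∨ s = -1) (h : (8 : ℤ) ∣ d + e - 2 * s) :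
    (8 : ℤ) ∣ s * d + s * e - 2 := by
  rcases hs with rfl | rfl <;> omega

theorem sgn_sq {s : ℤ} (hs : s = 1 ∨ s = -1) : s * s = 1 := by
  rcases hs with rfl | rfl <;> norm_num

theorem sgn_ne {s d : ℤ} (hs : s = 1 ∨ s = -1) (hd : 0 < d) : s * d ≠ 0 := by
  rcases hs with rfl | rfl <;> omega

theorem sgn_ne' {s d e : ℤ} (hs : s = 1 ∨ s = -1) (hd : d ≠ e) : s * d ≠ s * e := by
  rcases hs with rfl | rfl <;> omega

variable [Fintype (IrrCharacter G)] {n1 n2 ww dd ee : IrrCharacter G → ℤ}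

/-- The class multiplication constants. -/
theorem frob (h : Emb ι t) (w : G) :
    (Nat.card {p : G × G // IsConj t p.1 ∧ IsConj t p.2 ∧ p.1 * p.2 = w} : ℂ) * 2304 =
      (Nat.card G : ℂ) * ∑ χ : IrrCharacter G, (χ : G → ℂ) t * (χ : G → ℂ) t * conj ((χ : G → ℂ) w) / (χ : G → ℂ) 1 := by
  have h1 := Cfsg.Agent.Lib.Char.ClassProd.card_product_eq t t w
  have h2 := Cfsg.Agent.Lib.Char.ClassSum.card_class_mul_card_centralizer t
  have h3 := h.card_centralizer (w := z) (k := 1) (pow_one z)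
  rw [cent_z, h.hz] at h3
  rw [h3] at h2
  have h4 : (Nat.card {x : G // IsConj t x} : ℂ) * 48 = (Nat.card G : ℂ) := by exact_mod_cast h2
  have hN : (Nat.card G : ℂ) ≠ 0 := Nat.cast_ne_zero.mpr Nat.card_pos.ne'
  rw [h1]
  rw [← h4] at hN ⊢
  field_simp
  ring

/-- The normalized square of the value at `t`. -/
noncomputable def bt (dd ee : IrrCharacter G → ℤ) (χ : IrrCharacter G) : ℝ := (ee χ : ℝ) * ee χ / dd χ

theorem frob_a (h : Emb ι t) (V : Val ι t n1 n2 ww dd ee) :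
    ∑ χ, bt dd ee χ * (((n1 χ - n2 χ : ℤ)) : ℝ) = 0 := by
  have h1 := frob h (ι a)
  rw [h.count_a] at h1
  have hN : (Nat.card G : ℂ) ≠ 0 := Nat.cast_ne_zero.mpr Nat.card_pos.ne'
  simp only [Nat.cast_zero, zero_mul] at h1
  have h2 := (mul_eq_zero.mp h1.symm).resolve_left hN
  have h3 : ∑ χ : IrrCharacter G, (((bt dd ee χ * (((n1 χ - n2 χ : ℤ)) : ℝ) : ℝ) : ℂ) +
      Complex.I * sq2 * ((- (bt dd ee χ * (ww χ : ℝ)) : ℝ) : ℂ)) = ((0 : ℝ) : ℂ) := by
    rw [Complex.ofReal_zero, ← h2]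
    refine Finset.sum_congr rfl fun χ _ => ?_
    rw [V.vt χ, V.v1 χ, V.va χ, conj_plus, bt]
    push_cast
    ring
  exact re_of_sum h3

theorem frob_a2 (h : Emb ι t) (V : Val ι t n1 n2 ww dd ee) :
    (Nat.card G : ℝ) * ∑ χ, bt dd ee χ * (((n1 χ + n2 χ : ℤ)) : ℝ) =
      (Nat.card {p : G × G // IsConj t p.1 ∧ IsConj t p.2 ∧ p.1 * p.2 = ι (a ^ 2)} : ℝ) * 2304 := by
  have h1 := frob h (ι (a ^ 2))
  have h2 : ∑ χ : IrrCharacter G, (χ : G → ℂ) t * (χ : G → ℂ) t * conj ((χ : G → ℂ) (ι (a ^ 2))) / (χ : G → ℂ) 1 =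
      ((∑ χ, bt dd ee χ * (((n1 χ + n2 χ : ℤ)) : ℝ) : ℝ) : ℂ) := by
    push_cast
    refine Finset.sum_congr rfl fun χ _ => ?_
    rw [V.vt χ, V.v1 χ, V.va2 χ, bt]
    simp only [map_add, map_intCast]
    push_cast
    ring
  rw [h2] at h1
  have h3 : (((Nat.card {p : G × G // IsConj t p.1 ∧ IsConj t p.2 ∧ p.1 * p.2 = ι (a ^ 2)} : ℝ) * 2304 : ℝ) : ℂ) =
      (((Nat.card G : ℝ) * ∑ χ, bt dd ee χ * (((n1 χ + n2 χ : ℤ)) : ℝ) : ℝ) : ℂ) := by
    push_cast
    push_cast at h1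
    exact h1
  exact (Complex.ofReal_injective h3).symm

set_option maxHeartbeats 4000000 in
/-- **The order of the group.** -/
theorem order_eq (h : Emb ι t)
    (hk : ∀ χ : IrrCharacter G, χ ≠ oneI G → (χ : G → ℂ) t ≠ (χ : G → ℂ) 1) :
    Nat.card G = 5616 ∨ Nat.card G = 7920 := by
  classical
  obtain ⟨n1, n2, ww, dd, ee, V⟩ := exists_val h
  -- the principal character
  have ho1 : dd (oneI G) = 1 := by
    have := V.v1 (oneI G)
    rw [oneI_apply] at this
    exact_mod_cast this.symm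
  have hot : ee (oneI G) = 1 := by
    have := V.vt (oneI G)
    rw [oneI_apply] at this
    exact_mod_cast this.symm
  have hoa2 : n1 (oneI G) + n2 (oneI G) = 1 := by
    have := V.va2 (oneI G)
    rw [oneI_apply] at this
    exact_mod_cast this.symm
  have hoa : n1 (oneI G) - n2 (oneI G) = 1 ∧ ww (oneI G) = 0 := by
    have h1 := V.va (oneI G)
    rw [oneI_apply] at h1
    have h2 := congrArg Complex.re h1
    have h3 := congrArg Complex.im h1
    simp [sq2] at h2 h3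
    exact ⟨by exact_mod_cast h2.symm, h3⟩
  have hn1o : n1 (oneI G) = 1 := by omega
  have hn2o : n2 (oneI G) = 0 := by omega
  have hwo : ww (oneI G) = 0 := hoa.2
  obtain ⟨s1, s2, s12, sw⟩ := sums h V
  obtain ⟨lam, del, mu, nu, d1, d2, d3, d4, d5, d6, d7, d8, d9, d10, hsl, hl2, hsd, hd2, hm1, hsm, hn1, hsn, H1, H2⟩ :=
    gram hn1o hn2o s1 s2 s12
  -- sums against the vectors
  have sumI1 : ∀ F : IrrCharacter G → ℤ, ∑ x, F x * n1 x = F (oneI G) + (F lam * n1 lam + F del * n1 del) := by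
    intro F
    rw [sum_three (a := oneI G) (b := lam) (c := del) d1 d2 d5
      (fun x h1 h2 h3 => by rw [H1 x h1 h2 h3, mul_zero]), hn1o, mul_one]
  have sumI2 : ∀ F : IrrCharacter G → ℤ, ∑ x, F x * n2 x = F del * n2 del + (F mu * n2 mu + F nu * n2 nu) := by
    intro F
    rw [sum_three (a := del) (b := mu) (c := nu) d8 d9 d10
      (fun x h1 h2 h3 => by rw [H2 x h1 h2 h3, mul_zero])]
  have sumR1 : ∀ F : IrrCharacter G → ℝ, ∑ x, F x * (n1 x : ℝ) =
      F (oneI G) + (F lam * (n1 lam : ℝ) + F del * (n1 del : ℝ)) := by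
    intro F
    rw [sum_three (a := oneI G) (b := lam) (c := del) d1 d2 d5
      (fun x h1 h2 h3 => by rw [H1 x h1 h2 h3]; simp), hn1o]
    simp
  have sumR2 : ∀ F : IrrCharacter G → ℝ, ∑ x, F x * (n2 x : ℝ) =
      F del * (n2 del : ℝ) + (F mu * (n2 mu : ℝ) + F nu * (n2 nu : ℝ)) := by
    intro F
    rw [sum_three (a := del) (b := mu) (c := nu) d8 d9 d10
      (fun x h1 h2 h3 => by rw [H2 x h1 h2 h3]; simp)]
  -- columns
  have hc1 := Vals.Emb.not_conj h (g := 1) (by simp)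
  have hct := Vals.Emb.not_conj h (g := t) (by rw [pow_two, h.t_sq])
  obtain ⟨c11, c12⟩ := col_rel V V.v1 hc1.1 hc1.2.1
  obtain ⟨ct1, ct2⟩ := col_rel V V.vt hct.1 hct.2.1
  rw [sumI1] at c11 ct1
  rw [sumI2] at c12 ct2
  rw [ho1] at c11
  rw [hot] at ct1
  rw [hd2] at c12 ct2
  -- the parameters
  obtain ⟨sl, esl⟩ : ∃ s, s = n1 lam := ⟨_, rfl⟩
  obtain ⟨sd, esd⟩ : ∃ s, s = n1 del := ⟨_, rfl⟩
  obtain ⟨sm, esm⟩ : ∃ s, s = n2 mu := ⟨_, rfl⟩
  obtain ⟨sn, esn⟩ : ∃ s, s = n2 nu := ⟨_, rfl⟩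
  rw [← esl] at hsl c11 ct1
  rw [← esd] at hsd c11 ct1 c12 ct2 hd2
  rw [← esm] at hsm c12 ct2
  rw [← esn] at hsn c12 ct2
  obtain ⟨l, el⟩ : ∃ l, l = sl * dd lam := ⟨_, rfl⟩
  obtain ⟨v, ev⟩ : ∃ v, v = sl * ee lam := ⟨_, rfl⟩
  obtain ⟨m, em⟩ : ∃ m, m = sm * dd mu := ⟨_, rfl⟩
  obtain ⟨mt, emt⟩ : ∃ m, m = sm * ee mu := ⟨_, rfl⟩
  obtain ⟨n, en⟩ : ∃ m, m = sn * dd nu := ⟨_, rfl⟩
  obtain ⟨nt, ent⟩ : ∃ m, m = sn * ee nu := ⟨_, rfl⟩
  obtain ⟨D, eD⟩ : ∃ m, m = sd * dd del := ⟨_, rfl⟩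
  obtain ⟨Dt, eDt⟩ : ∃ m, m = sd * ee del := ⟨_, rfl⟩
  have r1 : D = -(1 + l) := by rw [eD, el]; linear_combination c11
  have r2 : Dt = -(1 + v) := by rw [eDt, ev]; linear_combination ct1
  have r3 : m + n = l + 1 := by
    rw [em, en]
    have : D + (m + n) = 0 := by rw [eD, em, en]; linear_combination c12
    rw [em, en] at this
    omega
  have r4 : mt + nt = v + 1 := by
    rw [emt, ent]
    have : Dt + (mt + nt) = 0 := by rw [eDt, emt, ent]; linear_combination ct2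
    rw [emt, ent] at this
    omega
  -- non-vanishing
  have hl0 : l ≠ 0 := by rw [el]; exact sgn_ne hsl (V.pos lam)
  have hl1 : 1 + l ≠ 0 := by
    have : D ≠ 0 := by rw [eD]; exact sgn_ne hsd (V.pos del)
    intro h0
    apply this
    rw [r1, h0]; norm_num
  have hm0 : m ≠ 0 := by rw [em]; exact sgn_ne hsm (V.pos mu)
  have hn0 : n ≠ 0 := by rw [en]; exact sgn_ne hsn (V.pos nu)
  -- the kernels
  have hker : ∀ χ : IrrCharacter G, χ ≠ oneI G → ee χ ≠ dd χ := by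
    intro χ hχ he
    apply hk χ hχ
    rw [V.vt, V.v1, he]
  have hlv : l ≠ v := by
    rw [el, ev]
    exact sgn_ne' hsl (hker lam d1.symm).symm
  have hmmt : m ≠ mt := by
    rw [em, emt]
    exact sgn_ne' hsm (hker mu d3.symm).symm
  have hnnt : n ≠ nt := by
    rw [en, ent]
    exact sgn_ne' hsn (hker nu d4.symm).symm
  -- Frobenius
  have fa := frob_a h V
  have fa2 := frob_a2 h V
  have hbeta : ∀ {s : ℤ} {χ : IrrCharacter G}, (s = 1 ∨ s = -1) →
      bt dd ee χ * (s : ℝ) = (((s * ee χ : ℤ) : ℝ)) ^ 2 / ((s * dd χ : ℤ) : ℝ) := by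
    intro s χ hs
    rw [bt]
    exact beta_sign hs
  have hbo : bt dd ee (oneI G) = 1 := by
    rw [bt, ho1, hot]
    norm_num
  have S1 := sumR1 (bt dd ee)
  have S2 := sumR2 (bt dd ee)
  rw [hbo, ← esl, ← esd, hbeta hsl, hbeta hsd, ← el, ← ev, ← eD, ← eDt, r1, r2] at S1
  rw [hd2, ← esm, ← esn, hbeta hsd, hbeta hsm, hbeta hsn, ← em, ← emt, ← en, ← ent, ← eD, ← eDt, r1, r2] at S2
  have e3 : ∑ χ, bt dd ee χ * (((n1 χ - n2 χ : ℤ)) : ℝ) =
      ∑ χ, bt dd ee χ * (n1 χ : ℝ) - ∑ χ, bt dd ee χ * (n2 χ : ℝ) := by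
    rw [← Finset.sum_sub_distrib]
    refine Finset.sum_congr rfl fun χ _ => ?_
    push_cast
    ring
  have e4 : ∑ χ, bt dd ee χ * (((n1 χ + n2 χ : ℤ)) : ℝ) =
      ∑ χ, bt dd ee χ * (n1 χ : ℝ) + ∑ χ, bt dd ee χ * (n2 χ : ℝ) := by
    rw [← Finset.sum_add_distrib]
    refine Finset.sum_congr rfl fun χ _ => ?_
    push_cast
    ring
  rw [e3] at fa
  rw [e4] at fa2
  have E1 : (1 : ℝ) + (v : ℝ) ^ 2 / l = (mt : ℝ) ^ 2 / m + (nt : ℝ) ^ 2 / n := by
    rw [S1, S2] at fa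
    linarith
  have E2 : (Nat.card G : ℝ) * (2 * (1 + (v : ℝ) ^ 2 / l + (1 + (v : ℝ)) ^ 2 / (-(1 + (l : ℝ))))) =
      (Nat.card {p : G × G // IsConj t p.1 ∧ IsConj t p.2 ∧ p.1 * p.2 = ι (a ^ 2)} : ℝ) * 2304 := by
    rw [← fa2]
    congr 1
    have e5 : ∑ χ, bt dd ee χ * (n2 χ : ℝ) = ∑ χ, bt dd ee χ * (n1 χ : ℝ) := by linarith
    rw [e5, S1]
    push_cast
    rw [neg_sq]
    ring
  obtain ⟨A1, A2⟩ := alg (l := l) (v := v) (m := m) (n := n) (mt := mt) (nt := nt)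
    (by exact_mod_cast hl0) (by exact_mod_cast hl1) (by exact_mod_cast hm0) (by exact_mod_cast hn0)
    (by exact_mod_cast r3) (by exact_mod_cast r4) E1 E2
  have hQ : m * n * (l - v) ^ 2 = l * (mt * n - nt * m) ^ 2 := by exact_mod_cast A1
  have hNpos : (0 : ℝ) < (Nat.card G : ℝ) := Nat.cast_pos.mpr Nat.card_pos
  have hN : (Nat.card G : ℤ) * (l - v) ^ 2 = 4608 * (l * (l + 1)) := by
    rcases h.count_a2 with h0 | h4
    · exfalso
      rw [h0] at A2
      have hne : ((l : ℝ) - v) ≠ 0 := by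
        rw [sub_ne_zero]
        exact_mod_cast hlv
      have : (2 * (Nat.card G : ℝ) * ((l : ℝ) - v) ^ 2) ≠ 0 := by positivity
      apply this
      rw [A2]
      simp
    · rw [h4] at A2
      have A3 : (((Nat.card G : ℤ) * (l - v) ^ 2 : ℤ) : ℝ) = ((4608 * (l * (l + 1)) : ℤ) : ℝ) := by
        push_cast
        push_cast at A2
        linear_combination (1 / 2 : ℝ) * A2
      exact_mod_cast A3
  -- the orthogonality relations among the degree and value at `t`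
  have Sdd : ∑ χ, dd χ * dd χ = (Nat.card G : ℤ) := by
    have h1 := Cfsg.Agent.Lib.Char.Complete.sum_deg_sq_eq_card (G := G)
    have h2 : ((∑ χ, dd χ * dd χ : ℤ) : ℂ) = (((Nat.card G : ℤ)) : ℂ) := by
      push_cast
      rw [← h1]
      refine Finset.sum_congr rfl fun χ _ => ?_
      rw [V.v1 χ]
      ring
    exact_mod_cast h2
  have Sct : Nat.card (Subgroup.centralizer ({t} : Set G)) = 48 := by
    have h3 := h.card_centralizer (w := z) (k := 1) (pow_one z)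
    rw [cent_z, h.hz] at h3
    exact h3
  have See : ∑ χ, ee χ * ee χ = 48 := by
    have h1 := orth_self (G := G) t
    rw [Sct] at h1
    have h2 : ((∑ χ, ee χ * ee χ : ℤ) : ℂ) = ((48 : ℕ) : ℂ) := by
      rw [← h1]
      push_cast
      refine Finset.sum_congr rfl fun χ _ => ?_
      rw [V.vt χ]
      simp
    exact_mod_cast h2
  have Sde : ∑ χ, dd χ * ee χ = 0 := by
    have hnc : ¬ IsConj (1 : G) t := by
      intro hc
      exact h.t_ne (isConj_one_right.mp hc)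
    have h1 := orth_ne hnc
    have h2 : ((∑ χ, dd χ * ee χ : ℤ) : ℂ) = 0 := by
      rw [← h1]
      push_cast
      refine Finset.sum_congr rfl fun χ _ => ?_
      rw [V.v1 χ, V.vt χ]
      simp
    exact_mod_cast h2
  have Sww := sw
  rw [sum_five (fun χ => dd χ * dd χ) d1 d2 d3 d4 d5 d6 d7 d8 d9 d10] at Sdd
  rw [sum_five (fun χ => ee χ * ee χ) d1 d2 d3 d4 d5 d6 d7 d8 d9 d10] at See
  rw [sum_five (fun χ => dd χ * ee χ) d1 d2 d3 d4 d5 d6 d7 d8 d9 d10] at Sde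
  rw [sum_five (fun χ => ww χ * ww χ) d1 d2 d3 d4 d5 d6 d7 d8 d9 d10] at Sww
  obtain ⟨R, hR⟩ : ∃ R, R = Finset.univ \ ({oneI G, lam, del, mu, nu} : Finset (IrrCharacter G)) := ⟨_, rfl⟩
  rw [← hR] at Sdd See Sde Sww
  simp only [ho1, hot, hwo] at Sdd See Sde Sww
  have hCS := Finset.sum_mul_sq_le_sq_mul_sq R dd ee
  have nA : 0 ≤ ∑ χ ∈ R, dd χ ^ 2 := Finset.sum_nonneg fun χ _ => sq_nonneg _
  have nB : 0 ≤ ∑ χ ∈ R, ee χ ^ 2 := Finset.sum_nonneg fun χ _ => sq_nonneg _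
  have nW : 0 ≤ ∑ χ ∈ R, ww χ * ww χ := Finset.sum_nonneg fun χ _ => mul_self_nonneg _
  have qA : ∑ χ ∈ R, dd χ ^ 2 = ∑ χ ∈ R, dd χ * dd χ := Finset.sum_congr rfl fun χ _ => pow_two _
  have qB : ∑ χ ∈ R, ee χ ^ 2 = ∑ χ ∈ R, ee χ * ee χ := Finset.sum_congr rfl fun χ _ => pow_two _
  rw [qA, qB] at hCS
  rw [qA] at nA
  rw [qB] at nB
  -- rewriting in terms of the signed parameters
  have t1 : dd lam * dd lam = l * l := by rw [el]; linear_combination (-(dd lam * dd lam)) * sgn_sq hsl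
  have t2 : dd del * dd del = (l + 1) * (l + 1) := by
    have : dd del * dd del = D * D := by rw [eD]; linear_combination (-(dd del * dd del)) * sgn_sq hsd
    rw [this, r1]; ring
  have t3 : dd mu * dd mu = m * m := by rw [em]; linear_combination (-(dd mu * dd mu)) * sgn_sq hsm
  have t4 : dd nu * dd nu = n * n := by rw [en]; linear_combination (-(dd nu * dd nu)) * sgn_sq hsn
  have t5 : ee lam * ee lam = v * v := by rw [ev]; linear_combination (-(ee lam * ee lam)) * sgn_sq hsl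
  have t6 : ee del * ee del = (v + 1) * (v + 1) := by
    have : ee del * ee del = Dt * Dt := by rw [eDt]; linear_combination (-(ee del * ee del)) * sgn_sq hsd
    rw [this, r2]; ring
  have t7 : ee mu * ee mu = mt * mt := by rw [emt]; linear_combination (-(ee mu * ee mu)) * sgn_sq hsm
  have t8 : ee nu * ee nu = nt * nt := by rw [ent]; linear_combination (-(ee nu * ee nu)) * sgn_sq hsn
  have t9 : dd lam * ee lam = l * v := by
    rw [el, ev]; linear_combination (-(dd lam * ee lam)) * sgn_sq hsl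
  have t10 : dd del * ee del = (l + 1) * (v + 1) := by
    have : dd del * ee del = D * Dt := by rw [eD, eDt]; linear_combination (-(dd del * ee del)) * sgn_sq hsd
    rw [this, r1, r2]; ring
  have t11 : dd mu * ee mu = m * mt := by
    rw [em, emt]; linear_combination (-(dd mu * ee mu)) * sgn_sq hsm
  have t12 : dd nu * ee nu = n * nt := by
    rw [en, ent]; linear_combination (-(dd nu * ee nu)) * sgn_sq hsn
  rw [t1, t2, t3, t4] at Sdd
  rw [t5, t6, t7, t8] at See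
  rw [t9, t10, t11, t12] at Sde
  -- the congruences
  have k1 := sgn_c1 hsl (V.c1 lam)
  rw [← el, ← ev] at k1
  have k2 := sgn_c1 hsd (V.c1 del)
  rw [← eD, ← eDt, r1, r2] at k2
  have k3 := sgn_c1 hsm (V.c1 mu)
  rw [← em, ← emt] at k3
  have k4 := sgn_c1 hsn (V.c1 nu)
  rw [← en, ← ent] at k4
  have k5 := V.c2 lam
  rw [← esl, hl2] at k5
  have k5' := sgn_c2 hsl (d := dd lam) (e := ee lam) (by omega)
  rw [← el, ← ev] at k5'
  have k6 := V.c2 mu
  rw [hm1, ← esm] at k6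
  have k6' := sgn_c2 hsm (d := dd mu) (e := ee mu) (by omega)
  rw [← em, ← emt] at k6'
  have k7 := V.c2 nu
  rw [hn1, ← esn] at k7
  have k7' := sgn_c2 hsn (d := dd nu) (e := ee nu) (by omega)
  rw [← en, ← ent] at k7'
  obtain ⟨p1, p2⟩ := parity (g := l - v) (x := m - mt) (y := n - nt) (p := ww lam) (q := ww del) (r := ww mu)
    (w := ww nu) k1 (by
      have e : -(l - v) - 4 * ww del = -(1 + l) - -(1 + v) - 4 * ww del := by ring
      rw [e]
      exact k2) k3 k4 (by omega) (by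
      linarith)
  have h48 : (48 : ℤ) ∣ (Nat.card G : ℤ) := by
    have h1 := Subgroup.card_subgroup_dvd_card (Subgroup.centralizer ({t} : Set G))
    rw [Sct] at h1
    exact_mod_cast h1
  have hfin := Arith.main (N := (Nat.card G : ℤ)) (l := l) (v := v) (m := m) (n := n) (mt := mt) (nt := nt)
    p1 k5' r3 r4 p2 k6' k7' hlv hmmt hnnt hN hQ h48 (by linarith) (by linarith) (by
      have e1 : (Nat.card G : ℤ) - (1 + l ^ 2 + (l + 1) ^ 2 + m ^ 2 + n ^ 2) = ∑ χ ∈ R, dd χ * dd χ := by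
        rw [← Sdd]; ring
      have e2 : 48 - (1 + v ^ 2 + (v + 1) ^ 2 + mt ^ 2 + nt ^ 2) = ∑ χ ∈ R, ee χ * ee χ := by
        rw [← See]; ring
      have e3 : (1 + l * v + (l + 1) * (v + 1) + m * mt + n * nt) = - ∑ χ ∈ R, dd χ * ee χ := by
        linear_combination Sde
      rw [e1, e2, e3, neg_sq]
      exact hCS)
  rcases hfin with h1 | h1
  · left
    exact_mod_cast h1
  · right
    exact_mod_cast h1

/-- A nontrivial irreducible character of a simple group is faithful. -/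
theorem ne_of_simple [IsSimpleGroup G] {t : G} (ht : t ≠ 1) (χ : IrrCharacter G) (hχ : χ ≠ oneI G) :
    (χ : G → ℂ) t ≠ (χ : G → ℂ) 1 := by
  intro h1
  have hc := Cfsg.Agent.Lib.Char.Basic.isCharacter_of_isIrrCharacter χ.2
  have hn := Cfsg.Agent.Lib.Char.Degree.charKer_normal hc
  rcases hn.eq_bot_or_eq_top with h2 | h2
  · have : t ∈ Cfsg.Agent.Lib.Char.Degree.charKer hc := h1
    rw [h2, Subgroup.mem_bot] at this
    exact ht this
  · have hall : ∀ g : G, (χ : G → ℂ) g = (χ : G → ℂ) 1 := by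
      intro g
      have : g ∈ Cfsg.Agent.Lib.Char.Degree.charKer hc := by
        rw [h2]
        exact Subgroup.mem_top g
      exact this
    have h3 := Cfsg.Agent.Lib.Char.Ortho.classInner_eq_zero_of_isIrr_of_ne χ.2 (oneI G).2
      (fun h => hχ (Subtype.ext h))
    rw [classInner] at h3
    have hN : (Nat.card G : ℂ) ≠ 0 := Nat.cast_ne_zero.mpr Nat.card_pos.ne'
    have h4 := (mul_eq_zero.mp h3).resolve_left (inv_ne_zero hN)
    simp only [oneI_apply, map_one, mul_one, hall, Finset.sum_const, Finset.card_univ, nsmul_eq_mul] at h4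
    have h5 := (mul_eq_zero.mp h4).resolve_left (by
      rw [← Nat.card_eq_fintype_card]
      exact hN)
    exact Cfsg.Agent.Lib.Char.Complete.irr_one_ne_zero χ.2 h5

/-- The embedding of `GL₂(3)` from an isomorphism with an involution centralizer. -/
theorem emb_of_equiv {t : G} (ht : orderOf t = 2)
    (e : Subgroup.centralizer ({t} : Set G) ≃* Gam) :
    Emb ((Subgroup.centralizer ({t} : Set G)).subtype.comp e.symm.toMonoidHom) t := by
  have htt : t ∈ Subgroup.centralizer ({t} : Set G) := by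
    rw [Subgroup.mem_centralizer_singleton_iff]
  have ht1 : t ≠ 1 := by
    rintro rfl
    simp at ht
  refine ⟨?_, ?_, ?_⟩
  · intro x y hxy
    exact e.symm.injective (Subtype.ext hxy)
  · have hcen : ∀ y : Gam, e ⟨t, htt⟩ * y = y * e ⟨t, htt⟩ := by
      intro y
      have h1 : (⟨t, htt⟩ : Subgroup.centralizer ({t} : Set G)) * e.symm y = e.symm y * ⟨t, htt⟩ := by
        apply Subtype.ext
        have := (e.symm y).2
        rw [Subgroup.mem_centralizer_singleton_iff] at this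
        exact this.symm
      have h2 := congrArg e h1
      simpa using h2
    rcases center_eq _ hcen with h1 | h1
    · exfalso
      have h2 : (⟨t, htt⟩ : Subgroup.centralizer ({t} : Set G)) = 1 := by
        apply e.injective
        rw [h1, map_one]
      exact ht1 (congrArg Subtype.val h2)
    · have h2 : e.symm z = ⟨t, htt⟩ := by
        rw [← h1]
        exact e.symm_apply_apply _
      change ((e.symm z : Subgroup.centralizer ({t} : Set G)) : G) = t
      rw [h2]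
  · intro g hg
    have hg' : g ∈ Subgroup.centralizer ({t} : Set G) := by
      rw [Subgroup.mem_centralizer_singleton_iff]
      exact hg
    refine ⟨e ⟨g, hg'⟩, ?_⟩
    change ((e.symm (e ⟨g, hg'⟩) : Subgroup.centralizer ({t} : Set G)) : G) = g
    rw [e.symm_apply_apply]

end Cfsg.Agent.Lib.Gl23.Final
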