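import Mathlib
import Cfsg.Agent.Lib.Gl23.Final
import Cfsg.Agent.Lib.Gl23.Arith2

/-!
# The character table data of a group with involution centralizer `GL₂(3)`
-/

set_option autoImplicit false
set_option linter.unusedSectionVars false
set_option linter.style.haveILetI false
set_option maxRecDepth 100000

namespace Cfsg.Agent.Lib.Gl23.Table

open Cfsg Cfsg.Agent.Lib.Gl23.Model Cfsg.Agent.Lib.Gl23.Local Cfsg.Agent.Lib.Gl23.Mult
open Cfsg.Agent.Lib.Gl23.Vals Cfsg.Agent.Lib.Gl23.Gram Cfsg.Agent.Lib.Gl23.Final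
open Cfsg.Agent.Lib.Blocks.Third (oneI oneI_apply)
open scoped ComplexConjugate

universe u

variable {G : Type u} [Group G] [Fintype G] {ι : Gam →* G} {t : G}
variable [Fintype (IrrCharacter G)] {n1 n2 ww dd ee : IrrCharacter G → ℤ}

/-- The shape of the table in the case of order `5616`. -/
structure Tab (n1 n2 dd ee : IrrCharacter G → ℤ) (lam del mu nu : IrrCharacter G) : Prop where
  d1 : oneI G ≠ lam
  d2 : oneI G ≠ del
  d3 : oneI G ≠ mu
  d4 : oneI G ≠ nu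
  d5 : lam ≠ del
  d6 : lam ≠ mu
  d7 : lam ≠ nu
  d8 : del ≠ mu
  d9 : del ≠ nu
  d10 : mu ≠ nu
  ho1 : dd (oneI G) = 1
  hot : ee (oneI G) = 1
  hn1o : n1 (oneI G) = 1
  hn2o : n2 (oneI G) = 0
  hsl : n1 lam = 1 ∨ n1 lam = -1
  hsd : n1 del = 1 ∨ n1 del = -1
  hsm : n2 mu = 1 ∨ n2 mu = -1
  hsn : n2 nu = 1 ∨ n2 nu = -1
  hd2 : n2 del = n1 del
  H1 : ∀ x, x ≠ oneI G → x ≠ lam → x ≠ del → n1 x = 0
  H2 : ∀ x, x ≠ del → x ≠ mu → x ≠ nu → n2 x = 0
  el : n1 lam * dd lam = -27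
  ev : n1 lam * ee lam = -3
  eD : n1 del * dd del = 26
  eDt : n1 del * ee del = 2
  em : n2 mu * dd mu = 13
  emt : n2 mu * ee mu = -3
  en : n2 nu * dd nu = -39
  ent : n2 nu * ee nu = 1

set_option maxHeartbeats 4000000 in
/-- **The character table data.** -/
theorem table (h : Emb ι t)
    (hk : ∀ χ : IrrCharacter G, χ ≠ oneI G → (χ : G → ℂ) t ≠ (χ : G → ℂ) 1) :
    Nat.card G = 7920 ∨ (Nat.card G = 5616 ∧ ∃ (n1 n2 ww dd ee : IrrCharacter G → ℤ) (lam del mu nu : IrrCharacter G),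
      Val ι t n1 n2 ww dd ee ∧ Tab n1 n2 dd ee lam del mu nu) := by
  classical
  obtain ⟨n1, n2, ww, dd, ee, V⟩ := exists_val h
  -- the principal character
  have ho1 : dd (oneI G) = 1 := by
    have := V.v1 (oneI G)
    rw [oneI_apply] at this
    exact_mod_cast this.symm
  have hot : ee (oneI G) = 1 := by
    have := V.vt (oneI G)
    rw [oneI_apply] at this
    exact_mod_cast this.symm
  have hoa2 : n1 (oneI G) + n2 (oneI G) = 1 := by
    have := V.va2 (oneI G)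
    rw [oneI_apply] at this
    exact_mod_cast this.symm
  have hoa : n1 (oneI G) - n2 (oneI G) = 1 ∧ ww (oneI G) = 0 := by
    have h1 := V.va (oneI G)
    rw [oneI_apply] at h1
    have h2 := congrArg Complex.re h1
    have h3 := congrArg Complex.im h1
    simp [sq2] at h2 h3
    exact ⟨by exact_mod_cast h2.symm, h3⟩
  have hn1o : n1 (oneI G) = 1 := by omega
  have hn2o : n2 (oneI G) = 0 := by omega
  have hwo : ww (oneI G) = 0 := hoa.2
  obtain ⟨s1, s2, s12, sw⟩ := sums h V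
  obtain ⟨lam, del, mu, nu, d1, d2, d3, d4, d5, d6, d7, d8, d9, d10, hsl, hl2, hsd, hd2, hm1, hsm, hn1, hsn, H1, H2⟩ :=
    gram hn1o hn2o s1 s2 s12
  -- sums against the vectors
  have sumI1 : ∀ F : IrrCharacter G → ℤ, ∑ x, F x * n1 x = F (oneI G) + (F lam * n1 lam + F del * n1 del) := by
    intro F
    rw [sum_three (a := oneI G) (b := lam) (c := del) d1 d2 d5
      (fun x h1 h2 h3 => by rw [H1 x h1 h2 h3, mul_zero]), hn1o, mul_one]
  have sumI2 : ∀ F : IrrCharacter G → ℤ, ∑ x, F x * n2 x = F del * n2 del + (F mu * n2 mu + F nu * n2 nu) := by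
    intro F
    rw [sum_three (a := del) (b := mu) (c := nu) d8 d9 d10
      (fun x h1 h2 h3 => by rw [H2 x h1 h2 h3, mul_zero])]
  have sumR1 : ∀ F : IrrCharacter G → ℝ, ∑ x, F x * (n1 x : ℝ) =
      F (oneI G) + (F lam * (n1 lam : ℝ) + F del * (n1 del : ℝ)) := by
    intro F
    rw [sum_three (a := oneI G) (b := lam) (c := del) d1 d2 d5
      (fun x h1 h2 h3 => by rw [H1 x h1 h2 h3]; simp), hn1o]
    simp
  have sumR2 : ∀ F : IrrCharacter G → ℝ, ∑ x, F x * (n2 x : ℝ) =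
      F del * (n2 del : ℝ) + (F mu * (n2 mu : ℝ) + F nu * (n2 nu : ℝ)) := by
    intro F
    rw [sum_three (a := del) (b := mu) (c := nu) d8 d9 d10
      (fun x h1 h2 h3 => by rw [H2 x h1 h2 h3]; simp)]
  -- columns
  have hc1 := Vals.Emb.not_conj h (g := 1) (by simp)
  have hct := Vals.Emb.not_conj h (g := t) (by rw [pow_two, h.t_sq])
  obtain ⟨c11, c12⟩ := col_rel V V.v1 hc1.1 hc1.2.1
  obtain ⟨ct1, ct2⟩ := col_rel V V.vt hct.1 hct.2.1
  rw [sumI1] at c11 ct1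
  rw [sumI2] at c12 ct2
  rw [ho1] at c11
  rw [hot] at ct1
  rw [hd2] at c12 ct2
  -- the parameters
  obtain ⟨sl, esl⟩ : ∃ s, s = n1 lam := ⟨_, rfl⟩
  obtain ⟨sd, esd⟩ : ∃ s, s = n1 del := ⟨_, rfl⟩
  obtain ⟨sm, esm⟩ : ∃ s, s = n2 mu := ⟨_, rfl⟩
  obtain ⟨sn, esn⟩ : ∃ s, s = n2 nu := ⟨_, rfl⟩
  rw [← esl] at hsl c11 ct1
  rw [← esd] at hsd c11 ct1 c12 ct2 hd2
  rw [← esm] at hsm c12 ct2
  rw [← esn] at hsn c12 ct2
  obtain ⟨l, el⟩ : ∃ l, l = sl * dd lam := ⟨_, rfl⟩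
  obtain ⟨v, ev⟩ : ∃ v, v = sl * ee lam := ⟨_, rfl⟩
  obtain ⟨m, em⟩ : ∃ m, m = sm * dd mu := ⟨_, rfl⟩
  obtain ⟨mt, emt⟩ : ∃ m, m = sm * ee mu := ⟨_, rfl⟩
  obtain ⟨n, en⟩ : ∃ m, m = sn * dd nu := ⟨_, rfl⟩
  obtain ⟨nt, ent⟩ : ∃ m, m = sn * ee nu := ⟨_, rfl⟩
  obtain ⟨D, eD⟩ : ∃ m, m = sd * dd del := ⟨_, rfl⟩
  obtain ⟨Dt, eDt⟩ : ∃ m, m = sd * ee del := ⟨_, rfl⟩
  have r1 : D = -(1 + l) := by rw [eD, el]; linear_combination c11
  have r2 : Dt = -(1 + v) := by rw [eDt, ev]; linear_combination ct1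
  have r3 : m + n = l + 1 := by
    rw [em, en]
    have : D + (m + n) = 0 := by rw [eD, em, en]; linear_combination c12
    rw [em, en] at this
    omega
  have r4 : mt + nt = v + 1 := by
    rw [emt, ent]
    have : Dt + (mt + nt) = 0 := by rw [eDt, emt, ent]; linear_combination ct2
    rw [emt, ent] at this
    omega
  -- non-vanishing
  have hl0 : l ≠ 0 := by rw [el]; exact sgn_ne hsl (V.pos lam)
  have hl1 : 1 + l ≠ 0 := by
    have : D ≠ 0 := by rw [eD]; exact sgn_ne hsd (V.pos del)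
    intro h0
    apply this
    rw [r1, h0]; norm_num
  have hm0 : m ≠ 0 := by rw [em]; exact sgn_ne hsm (V.pos mu)
  have hn0 : n ≠ 0 := by rw [en]; exact sgn_ne hsn (V.pos nu)
  -- the kernels
  have hker : ∀ χ : IrrCharacter G, χ ≠ oneI G → ee χ ≠ dd χ := by
    intro χ hχ he
    apply hk χ hχ
    rw [V.vt, V.v1, he]
  have hlv : l ≠ v := by
    rw [el, ev]
    exact sgn_ne' hsl (hker lam d1.symm).symm
  have hmmt : m ≠ mt := by
    rw [em, emt]
    exact sgn_ne' hsm (hker mu d3.symm).symm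
  have hnnt : n ≠ nt := by
    rw [en, ent]
    exact sgn_ne' hsn (hker nu d4.symm).symm
  -- Frobenius
  have fa := frob_a h V
  have fa2 := frob_a2 h V
  have hbeta : ∀ {s : ℤ} {χ : IrrCharacter G}, (s = 1 ∨ s = -1) →
      bt dd ee χ * (s : ℝ) = (((s * ee χ : ℤ) : ℝ)) ^ 2 / ((s * dd χ : ℤ) : ℝ) := by
    intro s χ hs
    rw [bt]
    exact beta_sign hs
  have hbo : bt dd ee (oneI G) = 1 := by
    rw [bt, ho1, hot]
    norm_num
  have S1 := sumR1 (bt dd ee)
  have S2 := sumR2 (bt dd ee)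
  rw [hbo, ← esl, ← esd, hbeta hsl, hbeta hsd, ← el, ← ev, ← eD, ← eDt, r1, r2] at S1
  rw [hd2, ← esm, ← esn, hbeta hsd, hbeta hsm, hbeta hsn, ← em, ← emt, ← en, ← ent, ← eD, ← eDt, r1, r2] at S2
  have e3 : ∑ χ, bt dd ee χ * (((n1 χ - n2 χ : ℤ)) : ℝ) =
      ∑ χ, bt dd ee χ * (n1 χ : ℝ) - ∑ χ, bt dd ee χ * (n2 χ : ℝ) := by
    rw [← Finset.sum_sub_distrib]
    refine Finset.sum_congr rfl fun χ _ => ?_
    push_cast
    ring
  have e4 : ∑ χ, bt dd ee χ * (((n1 χ + n2 χ : ℤ)) : ℝ) =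
      ∑ χ, bt dd ee χ * (n1 χ : ℝ) + ∑ χ, bt dd ee χ * (n2 χ : ℝ) := by
    rw [← Finset.sum_add_distrib]
    refine Finset.sum_congr rfl fun χ _ => ?_
    push_cast
    ring
  rw [e3] at fa
  rw [e4] at fa2
  have E1 : (1 : ℝ) + (v : ℝ) ^ 2 / l = (mt : ℝ) ^ 2 / m + (nt : ℝ) ^ 2 / n := by
    rw [S1, S2] at fa
    linarith
  have E2 : (Nat.card G : ℝ) * (2 * (1 + (v : ℝ) ^ 2 / l + (1 + (v : ℝ)) ^ 2 / (-(1 + (l : ℝ))))) =
      (Nat.card {p : G × G // IsConj t p.1 ∧ IsConj t p.2 ∧ p.1 * p.2 = ι (a ^ 2)} : ℝ) * 2304 := by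
    rw [← fa2]
    congr 1
    have e5 : ∑ χ, bt dd ee χ * (n2 χ : ℝ) = ∑ χ, bt dd ee χ * (n1 χ : ℝ) := by linarith
    rw [e5, S1]
    push_cast
    rw [neg_sq]
    ring
  obtain ⟨A1, A2⟩ := alg (l := l) (v := v) (m := m) (n := n) (mt := mt) (nt := nt)
    (by exact_mod_cast hl0) (by exact_mod_cast hl1) (by exact_mod_cast hm0) (by exact_mod_cast hn0)
    (by exact_mod_cast r3) (by exact_mod_cast r4) E1 E2
  have hQ : m * n * (l - v) ^ 2 = l * (mt * n - nt * m) ^ 2 := by exact_mod_cast A1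
  have hNpos : (0 : ℝ) < (Nat.card G : ℝ) := Nat.cast_pos.mpr Nat.card_pos
  have hN : (Nat.card G : ℤ) * (l - v) ^ 2 = 4608 * (l * (l + 1)) := by
    rcases h.count_a2 with h0 | h4
    · exfalso
      rw [h0] at A2
      have hne : ((l : ℝ) - v) ≠ 0 := by
        rw [sub_ne_zero]
        exact_mod_cast hlv
      have : (2 * (Nat.card G : ℝ) * ((l : ℝ) - v) ^ 2) ≠ 0 := by positivity
      apply this
      rw [A2]
      simp
    · rw [h4] at A2
      have A3 : (((Nat.card G : ℤ) * (l - v) ^ 2 : ℤ) : ℝ) = ((4608 * (l * (l + 1)) : ℤ) : ℝ) := by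
        push_cast
        push_cast at A2
        linear_combination (1 / 2 : ℝ) * A2
      exact_mod_cast A3
  -- the orthogonality relations among the degree and value at `t`
  have Sdd : ∑ χ, dd χ * dd χ = (Nat.card G : ℤ) := by
    have h1 := Cfsg.Agent.Lib.Char.Complete.sum_deg_sq_eq_card (G := G)
    have h2 : ((∑ χ, dd χ * dd χ : ℤ) : ℂ) = (((Nat.card G : ℤ)) : ℂ) := by
      push_cast
      rw [← h1]
      refine Finset.sum_congr rfl fun χ _ => ?_
      rw [V.v1 χ]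
      ring
    exact_mod_cast h2
  have Sct : Nat.card (Subgroup.centralizer ({t} : Set G)) = 48 := by
    have h3 := h.card_centralizer (w := z) (k := 1) (pow_one z)
    rw [cent_z, h.hz] at h3
    exact h3
  have See : ∑ χ, ee χ * ee χ = 48 := by
    have h1 := orth_self (G := G) t
    rw [Sct] at h1
    have h2 : ((∑ χ, ee χ * ee χ : ℤ) : ℂ) = ((48 : ℕ) : ℂ) := by
      rw [← h1]
      push_cast
      refine Finset.sum_congr rfl fun χ _ => ?_
      rw [V.vt χ]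
      simp
    exact_mod_cast h2
  have Sde : ∑ χ, dd χ * ee χ = 0 := by
    have hnc : ¬ IsConj (1 : G) t := by
      intro hc
      exact h.t_ne (isConj_one_right.mp hc)
    have h1 := orth_ne hnc
    have h2 : ((∑ χ, dd χ * ee χ : ℤ) : ℂ) = 0 := by
      rw [← h1]
      push_cast
      refine Finset.sum_congr rfl fun χ _ => ?_
      rw [V.v1 χ, V.vt χ]
      simp
    exact_mod_cast h2
  have Sww := sw
  rw [sum_five (fun χ => dd χ * dd χ) d1 d2 d3 d4 d5 d6 d7 d8 d9 d10] at Sdd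
  rw [sum_five (fun χ => ee χ * ee χ) d1 d2 d3 d4 d5 d6 d7 d8 d9 d10] at See
  rw [sum_five (fun χ => dd χ * ee χ) d1 d2 d3 d4 d5 d6 d7 d8 d9 d10] at Sde
  rw [sum_five (fun χ => ww χ * ww χ) d1 d2 d3 d4 d5 d6 d7 d8 d9 d10] at Sww
  obtain ⟨R, hR⟩ : ∃ R, R = Finset.univ \ ({oneI G, lam, del, mu, nu} : Finset (IrrCharacter G)) := ⟨_, rfl⟩
  rw [← hR] at Sdd See Sde Sww
  simp only [ho1, hot, hwo] at Sdd See Sde Sww
  have hCS := Finset.sum_mul_sq_le_sq_mul_sq R dd ee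
  have nA : 0 ≤ ∑ χ ∈ R, dd χ ^ 2 := Finset.sum_nonneg fun χ _ => sq_nonneg _
  have nB : 0 ≤ ∑ χ ∈ R, ee χ ^ 2 := Finset.sum_nonneg fun χ _ => sq_nonneg _
  have nW : 0 ≤ ∑ χ ∈ R, ww χ * ww χ := Finset.sum_nonneg fun χ _ => mul_self_nonneg _
  have qA : ∑ χ ∈ R, dd χ ^ 2 = ∑ χ ∈ R, dd χ * dd χ := Finset.sum_congr rfl fun χ _ => pow_two _
  have qB : ∑ χ ∈ R, ee χ ^ 2 = ∑ χ ∈ R, ee χ * ee χ := Finset.sum_congr rfl fun χ _ => pow_two _
  rw [qA, qB] at hCS
  rw [qA] at nA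
  rw [qB] at nB
  -- rewriting in terms of the signed parameters
  have t1 : dd lam * dd lam = l * l := by rw [el]; linear_combination (-(dd lam * dd lam)) * sgn_sq hsl
  have t2 : dd del * dd del = (l + 1) * (l + 1) := by
    have : dd del * dd del = D * D := by rw [eD]; linear_combination (-(dd del * dd del)) * sgn_sq hsd
    rw [this, r1]; ring
  have t3 : dd mu * dd mu = m * m := by rw [em]; linear_combination (-(dd mu * dd mu)) * sgn_sq hsm
  have t4 : dd nu * dd nu = n * n := by rw [en]; linear_combination (-(dd nu * dd nu)) * sgn_sq hsn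
  have t5 : ee lam * ee lam = v * v := by rw [ev]; linear_combination (-(ee lam * ee lam)) * sgn_sq hsl
  have t6 : ee del * ee del = (v + 1) * (v + 1) := by
    have : ee del * ee del = Dt * Dt := by rw [eDt]; linear_combination (-(ee del * ee del)) * sgn_sq hsd
    rw [this, r2]; ring
  have t7 : ee mu * ee mu = mt * mt := by rw [emt]; linear_combination (-(ee mu * ee mu)) * sgn_sq hsm
  have t8 : ee nu * ee nu = nt * nt := by rw [ent]; linear_combination (-(ee nu * ee nu)) * sgn_sq hsn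
  have t9 : dd lam * ee lam = l * v := by
    rw [el, ev]; linear_combination (-(dd lam * ee lam)) * sgn_sq hsl
  have t10 : dd del * ee del = (l + 1) * (v + 1) := by
    have : dd del * ee del = D * Dt := by rw [eD, eDt]; linear_combination (-(dd del * ee del)) * sgn_sq hsd
    rw [this, r1, r2]; ring
  have t11 : dd mu * ee mu = m * mt := by
    rw [em, emt]; linear_combination (-(dd mu * ee mu)) * sgn_sq hsm
  have t12 : dd nu * ee nu = n * nt := by
    rw [en, ent]; linear_combination (-(dd nu * ee nu)) * sgn_sq hsn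
  rw [t1, t2, t3, t4] at Sdd
  rw [t5, t6, t7, t8] at See
  rw [t9, t10, t11, t12] at Sde
  -- the congruences
  have k1 := sgn_c1 hsl (V.c1 lam)
  rw [← el, ← ev] at k1
  have k2 := sgn_c1 hsd (V.c1 del)
  rw [← eD, ← eDt, r1, r2] at k2
  have k3 := sgn_c1 hsm (V.c1 mu)
  rw [← em, ← emt] at k3
  have k4 := sgn_c1 hsn (V.c1 nu)
  rw [← en, ← ent] at k4
  have k5 := V.c2 lam
  rw [← esl, hl2] at k5
  have k5' := sgn_c2 hsl (d := dd lam) (e := ee lam) (by omega)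
  rw [← el, ← ev] at k5'
  have k6 := V.c2 mu
  rw [hm1, ← esm] at k6
  have k6' := sgn_c2 hsm (d := dd mu) (e := ee mu) (by omega)
  rw [← em, ← emt] at k6'
  have k7 := V.c2 nu
  rw [hn1, ← esn] at k7
  have k7' := sgn_c2 hsn (d := dd nu) (e := ee nu) (by omega)
  rw [← en, ← ent] at k7'
  obtain ⟨p1, p2⟩ := parity (g := l - v) (x := m - mt) (y := n - nt) (p := ww lam) (q := ww del) (r := ww mu)
    (w := ww nu) k1 (by
      have e : -(l - v) - 4 * ww del = -(1 + l) - -(1 + v) - 4 * ww del := by ring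
      rw [e]
      exact k2) k3 k4 (by omega) (by
      linarith)
  have h48 : (48 : ℤ) ∣ (Nat.card G : ℤ) := by
    have h1 := Subgroup.card_subgroup_dvd_card (Subgroup.centralizer ({t} : Set G))
    rw [Sct] at h1
    exact_mod_cast h1
  have hfin := Arith2.main (N := (Nat.card G : ℤ)) (l := l) (v := v) (m := m) (n := n) (mt := mt) (nt := nt)
    p1 k5' r3 r4 p2 k6' k7' hlv hmmt hnnt hN hQ h48 (by linarith) (by linarith) (by
      have e1 : (Nat.card G : ℤ) - (1 + l ^ 2 + (l + 1) ^ 2 + m ^ 2 + n ^ 2) = ∑ χ ∈ R, dd χ * dd χ := by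
        rw [← Sdd]; ring
      have e2 : 48 - (1 + v ^ 2 + (v + 1) ^ 2 + mt ^ 2 + nt ^ 2) = ∑ χ ∈ R, ee χ * ee χ := by
        rw [← See]; ring
      have e3 : (1 + l * v + (l + 1) * (v + 1) + m * mt + n * nt) = - ∑ χ ∈ R, dd χ * ee χ := by
        linear_combination Sde
      rw [e1, e2, e3, neg_sq]
      exact hCS)
  rcases hfin with ⟨h1, h2, h3, h4⟩ | h1
  · right
    refine ⟨by exact_mod_cast h1, n1, n2, ww, dd, ee, ?_⟩
    have q1 : n1 lam * dd lam = -27 := by rw [← esl, ← el, h2]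
    have q2 : n1 lam * ee lam = -3 := by rw [← esl, ← ev, h3]
    have q3 : n1 del * dd del = 26 := by rw [← esd, ← eD, r1, h2]; norm_num
    have q4 : n1 del * ee del = 2 := by rw [← esd, ← eDt, r2, h3]; norm_num
    have qmu1 : n2 mu * dd mu = m := by rw [← esm, em]
    have qmu2 : n2 mu * ee mu = mt := by rw [← esm, emt]
    have qnu1 : n2 nu * dd nu = n := by rw [← esn, en]
    have qnu2 : n2 nu * ee nu = nt := by rw [← esn, ent]
    rcases h4 with ⟨h5, h6⟩ | ⟨h5, h6⟩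
    · have h7 : n = -39 := by omega
      have h8 : nt = 1 := by omega
      exact ⟨lam, del, mu, nu, V, d1, d2, d3, d4, d5, d6, d7, d8, d9, d10, ho1, hot, hn1o, hn2o,
        esl ▸ hsl, esd ▸ hsd, esm ▸ hsm, esn ▸ hsn, esd ▸ hd2, H1, H2, q1, q2, q3, q4,
        by rw [qmu1, h5], by rw [qmu2, h6], by rw [qnu1, h7], by rw [qnu2, h8]⟩
    · have h7 : n = 13 := by omega
      have h8 : nt = -3 := by omega
      exact ⟨lam, del, nu, mu, V, d1, d2, d4, d3, d5, d7, d6, d9, d8, d10.symm, ho1, hot, hn1o, hn2o,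
        esl ▸ hsl, esd ▸ hsd, esn ▸ hsn, esm ▸ hsm, esd ▸ hd2, H1,
        fun x a1 a2 a3 => H2 x a1 a3 a2, q1, q2, q3, q4,
        by rw [qnu1, h7], by rw [qnu2, h8], by rw [qmu1, h5], by rw [qmu2, h6]⟩
  · left
    exact_mod_cast h1

end Cfsg.Agent.Lib.Gl23.Table
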