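import Mathlib
import Cfsg.Agent.Lib.Gl23.Table
import Cfsg.Agent.Lib.Gl23.Loc0
import Cfsg.Agent.Lib.Nine.Basic

/-!
# The centralizer of an element of order three does not have order `18`
-/

set_option autoImplicit false
set_option linter.unusedSectionVars false
set_option linter.style.haveILetI false
set_option maxRecDepth 100000

namespace Cfsg.Agent.Lib.Gl23.Cols

open Cfsg Cfsg.Agent.Lib.Gl23.Model Cfsg.Agent.Lib.Gl23.Local Cfsg.Agent.Lib.Gl23.Mult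
open Cfsg.Agent.Lib.Gl23.Vals Cfsg.Agent.Lib.Gl23.Gram Cfsg.Agent.Lib.Gl23.Final
open Cfsg.Agent.Lib.Gl23.Table Cfsg.Agent.Lib.Gl23.Loc0
open Cfsg.Agent.Lib.Blocks.Third (oneI oneI_apply)
open Cfsg.Agent.Lib.Nine.Basic
open scoped ComplexConjugate

theorem bd2 {x y : ℤ} (h : x * x + y ≤ 5) (hy : 0 ≤ y) : x ≤ 2 ∧ -2 ≤ x := by
  constructor <;> nlinarith

theorem bd4 {x y : ℤ} (h : x * x + y ≤ 17) (hy : 0 ≤ y) : x ≤ 4 ∧ -4 ≤ x := by
  constructor <;> nlinarith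

/-- The arithmetic excluding a centralizer of order `18`. -/
theorem core {L1 D1 M1 N1 L2 D2 M2 N2 r1 r2 S Rd : ℤ}
    (c1 : 1 + L1 + D1 = 0) (c2 : D1 + M1 + N1 = 0) (c3 : 1 + L2 + D2 = 0) (c4 : D2 + M2 + N2 = 0)
    (t1 : (3 : ℤ) ∣ L1 + 27) (t2 : (3 : ℤ) ∣ M1 - 13) (t3 : (3 : ℤ) ∣ N1 + 39) (t4 : (3 : ℤ) ∣ L2 + 3)
    (t5 : (3 : ℤ) ∣ M2 + 3) (t6 : (3 : ℤ) ∣ N2 - 1)
    (p1 : (2 : ℤ) ∣ L1 - L2) (p2 : (2 : ℤ) ∣ M1 - M2) (p3 : (2 : ℤ) ∣ N1 - N2)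
    (s1 : 1 + L1 * L1 + D1 * D1 + M1 * M1 + N1 * N1 + r1 = 18)
    (s2 : 1 + L2 * L2 + D2 * D2 + M2 * M2 + N2 * N2 + r2 = 6) (hr1 : 0 ≤ r1) (hr2 : 0 ≤ r2)
    (s3 : 1 - 27 * L1 + 26 * D1 + 13 * M1 - 39 * N1 + S = 0) (hRd : Rd = 2520) (cs : S ^ 2 ≤ Rd * r1) : False := by
  have n1 := mul_self_nonneg L2
  have n2 := mul_self_nonneg D2
  have n3 := mul_self_nonneg M2
  have n4 := mul_self_nonneg N2
  have n5 := mul_self_nonneg L1
  have n6 := mul_self_nonneg D1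
  have n7 := mul_self_nonneg M1
  have n8 := mul_self_nonneg N1
  have q1 := bd2 (x := L2) (y := D2 * D2 + M2 * M2 + N2 * N2 + r2) (by linarith) (by linarith)
  have q2 := bd2 (x := M2) (y := D2 * D2 + L2 * L2 + N2 * N2 + r2) (by linarith) (by linarith)
  have q3 := bd2 (x := N2) (y := D2 * D2 + L2 * L2 + M2 * M2 + r2) (by linarith) (by linarith)
  have e1 : L2 = 0 := by omega
  have e2 : M2 = 0 := by omega
  have e3 : N2 = 1 := by omega
  have e4 : D2 = -1 := by omega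
  subst e1 e2 e3 e4
  have q4 := bd4 (x := L1) (y := D1 * D1 + M1 * M1 + N1 * N1 + r1) (by linarith) (by linarith)
  have q5 := bd4 (x := M1) (y := D1 * D1 + L1 * L1 + N1 * N1 + r1) (by linarith) (by linarith)
  have q6 := bd4 (x := N1) (y := D1 * D1 + L1 * L1 + M1 * M1 + r1) (by linarith) (by linarith)
  have e5 : L1 = 0 := by omega
  have e6 : D1 = -1 := by omega
  subst e5 e6
  have e7 : (M1 = -2 ∧ N1 = 3) ∨ (M1 = 4 ∧ N1 = -3) := by omega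
  rcases e7 with ⟨rfl, rfl⟩ | ⟨rfl, rfl⟩
  · have e8 : r1 = 3 := by linarith
    have e9 : S = 168 := by linarith
    subst e8 e9 hRd
    norm_num at cs
  · norm_num at s1
    omega

universe u

variable {G : Type u} [Group G] [Fintype G] {ι : Gam →* G} {t : G}
variable [Fintype (IrrCharacter G)] {n1 n2 ww dd ee : IrrCharacter G → ℤ} {lam del mu nu : IrrCharacter G}

theorem sgn_mul {s : ℤ} (hs : s = 1 ∨ s = -1) (x y : ℤ) : x * y = (s * x) * (s * y) := by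
  rcases hs with rfl | rfl <;> ring

theorem sgn_dvd {s c x y : ℤ} (hs : s = 1 ∨ s = -1) (h : c ∣ x - y) : c ∣ s * x - s * y := by
  have : s * x - s * y = s * (x - y) := by ring
  rw [this]
  exact h.mul_left s

/-- **The centralizer of a transvection does not have order `18`.** -/
theorem card_ne_18 (h : Emb ι t) (V : Val ι t n1 n2 ww dd ee) (T : Tab n1 n2 dd ee lam del mu nu)
    (hN : Nat.card G = 5616) : Nat.card (Subgroup.centralizer ({ι u0} : Set G)) ≠ 18 := by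
  intro h18
  classical
  have hch := fun χ : IrrCharacter G => Cfsg.Agent.Lib.Char.Basic.isCharacter_of_isIrrCharacter χ.2
  have hu6 : (ι u0) ^ 6 = 1 := by rw [← map_pow, u0_pow6, map_one]
  have hw6 : (ι (z * u0)) ^ 6 = 1 := by rw [← map_pow, zu0_six, map_one]
  have hureal : ∀ χ : IrrCharacter G, (χ : G → ℂ) (ι u0)⁻¹ = (χ : G → ℂ) (ι u0) := by
    intro χ
    rw [← map_inv]
    exact (isClass χ (isConj_map ι b_u0)).symm
  have hwreal : ∀ χ : IrrCharacter G, (χ : G → ℂ) (ι (z * u0))⁻¹ = (χ : G → ℂ) (ι (z * u0)) := by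
    intro χ
    rw [← map_inv]
    exact (isClass χ (isConj_map ι b_zu0)).symm
  choose f₁ hf₁ using fun χ : IrrCharacter G => exists_int_of_pow_six (hch χ) hu6 (hureal χ)
  choose f₂ hf₂ using fun χ : IrrCharacter G => exists_int_of_pow_six (hch χ) hw6 (hwreal χ)
  -- congruences
  have k1 : ∀ χ, (3 : ℤ) ∣ f₁ χ - dd χ := by
    intro χ
    refine int_three_congr (hch χ) (ι u0) (hf₁ χ) ?_
    rw [← map_pow, u0_cube, map_one]
    exact V.v1 χ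
  have k2 : ∀ χ, (3 : ℤ) ∣ f₂ χ - ee χ := by
    intro χ
    refine int_three_congr (hch χ) (ι (z * u0)) (hf₂ χ) ?_
    rw [← map_pow, zu0_cube, h.hz]
    exact V.vt χ
  have k3 : ∀ χ, (2 : ℤ) ∣ f₂ χ - f₁ χ := by
    intro χ
    refine int_two_congr (hch χ) (ι (z * u0)) (hf₂ χ) ?_
    rw [← map_pow, zu0_sq, show u0 ^ 2 = u0⁻¹ by decide +kernel, map_inv, hureal χ]
    exact hf₁ χ
  -- the relations
  have ha6 : ∀ c : Gam, c ^ 6 ≠ 1 → (ι c) ^ 6 ≠ 1 := by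
    intro c hc h1
    apply hc
    apply h.inj
    rw [map_pow, h1, map_one]
  obtain ⟨r1, r2⟩ := col_rel V hf₁ (not_conj_of_pow hu6 (ha6 _ (by decide +kernel)))
    (not_conj_of_pow hu6 (ha6 _ (by decide +kernel)))
  obtain ⟨r3, r4⟩ := col_rel V hf₂ (not_conj_of_pow hw6 (ha6 _ (by decide +kernel)))
    (not_conj_of_pow hw6 (ha6 _ (by decide +kernel)))
  have sumI1 : ∀ F : IrrCharacter G → ℤ, ∑ x, F x * n1 x = F (oneI G) + (F lam * n1 lam + F del * n1 del) := by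
    intro F
    rw [sum_three (a := oneI G) (b := lam) (c := del) T.d1 T.d2 T.d5
      (fun x h1 h2 h3 => by rw [T.H1 x h1 h2 h3, mul_zero]), T.hn1o, mul_one]
  have sumI2 : ∀ F : IrrCharacter G → ℤ, ∑ x, F x * n2 x = F del * n2 del + (F mu * n2 mu + F nu * n2 nu) := by
    intro F
    rw [sum_three (a := del) (b := mu) (c := nu) T.d8 T.d9 T.d10
      (fun x h1 h2 h3 => by rw [T.H2 x h1 h2 h3, mul_zero])]
  rw [sumI1] at r1 r3
  rw [sumI2, T.hd2] at r2 r4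
  have o1 : ∀ (f : IrrCharacter G → ℤ) {g : G}, (∀ χ : IrrCharacter G, (χ : G → ℂ) g = f χ) → f (oneI G) = 1 := by
    intro f g hf
    have := hf (oneI G)
    rw [oneI_apply] at this
    exact_mod_cast this.symm
  rw [o1 f₁ hf₁] at r1
  rw [o1 f₂ hf₂] at r3
  -- the column sums
  have S1 : ∑ χ, f₁ χ * f₁ χ = 18 := by
    have h1 := orth_self (G := G) (ι u0)
    rw [h18] at h1
    have h2 : ((∑ χ, f₁ χ * f₁ χ : ℤ) : ℂ) = ((18 : ℕ) : ℂ) := by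
      rw [← h1]
      push_cast
      refine Finset.sum_congr rfl fun χ _ => ?_
      rw [hf₁ χ]
      simp
    exact_mod_cast h2
  have S2 : ∑ χ, f₂ χ * f₂ χ = 6 := by
    have h1 := orth_self (G := G) (ι (z * u0))
    rw [h.card_centralizer zu0_cube, cent_zu0] at h1
    have h2 : ((∑ χ, f₂ χ * f₂ χ : ℤ) : ℂ) = ((6 : ℕ) : ℂ) := by
      rw [← h1]
      push_cast
      refine Finset.sum_congr rfl fun χ _ => ?_
      rw [hf₂ χ]
      simp
    exact_mod_cast h2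
  have S3 : ∑ χ, dd χ * f₁ χ = 0 := by
    have hne : ι u0 ≠ 1 := by
      intro h1
      exact u0_ne (h.inj (h1.trans (map_one ι).symm))
    have hnc : ¬ IsConj (1 : G) (ι u0) := by
      intro hc
      exact hne (isConj_one_right.mp hc)
    have h1 := orth_ne hnc
    have h2 : ((∑ χ, dd χ * f₁ χ : ℤ) : ℂ) = 0 := by
      rw [← h1]
      push_cast
      refine Finset.sum_congr rfl fun χ _ => ?_
      rw [V.v1 χ, hf₁ χ]
      simp
    exact_mod_cast h2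
  have S4 : ∑ χ, dd χ * dd χ = 5616 := by
    have h1 := Cfsg.Agent.Lib.Char.Complete.sum_deg_sq_eq_card (G := G)
    rw [hN] at h1
    have h2 : ((∑ χ, dd χ * dd χ : ℤ) : ℂ) = ((5616 : ℕ) : ℂ) := by
      push_cast
      rw [show ((5616 : ℂ)) = ((5616 : ℕ) : ℂ) by norm_num, ← h1]
      refine Finset.sum_congr rfl fun χ _ => ?_
      rw [V.v1 χ]
      ring
    exact_mod_cast h2
  rw [sum_five (fun χ => f₁ χ * f₁ χ) T.d1 T.d2 T.d3 T.d4 T.d5 T.d6 T.d7 T.d8 T.d9 T.d10] at S1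
  rw [sum_five (fun χ => f₂ χ * f₂ χ) T.d1 T.d2 T.d3 T.d4 T.d5 T.d6 T.d7 T.d8 T.d9 T.d10] at S2
  rw [sum_five (fun χ => dd χ * f₁ χ) T.d1 T.d2 T.d3 T.d4 T.d5 T.d6 T.d7 T.d8 T.d9 T.d10] at S3
  rw [sum_five (fun χ => dd χ * dd χ) T.d1 T.d2 T.d3 T.d4 T.d5 T.d6 T.d7 T.d8 T.d9 T.d10] at S4
  obtain ⟨R, hR⟩ : ∃ R, R = Finset.univ \ ({oneI G, lam, del, mu, nu} : Finset (IrrCharacter G)) := ⟨_, rfl⟩
  rw [← hR] at S1 S2 S3 S4
  simp only [T.ho1, o1 f₁ hf₁, o1 f₂ hf₂] at S1 S2 S3 S4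
  have hCS := Finset.sum_mul_sq_le_sq_mul_sq R dd f₁
  have qA : ∑ χ ∈ R, dd χ ^ 2 = ∑ χ ∈ R, dd χ * dd χ := Finset.sum_congr rfl fun χ _ => pow_two _
  have qB : ∑ χ ∈ R, f₁ χ ^ 2 = ∑ χ ∈ R, f₁ χ * f₁ χ := Finset.sum_congr rfl fun χ _ => pow_two _
  rw [qA, qB] at hCS
  have nB : 0 ≤ ∑ χ ∈ R, f₁ χ * f₁ χ := Finset.sum_nonneg fun χ _ => mul_self_nonneg _
  have nC : 0 ≤ ∑ χ ∈ R, f₂ χ * f₂ χ := Finset.sum_nonneg fun χ _ => mul_self_nonneg _
  -- rewriting in the signed values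
  rw [sgn_mul T.hsl (f₁ lam) (f₁ lam), sgn_mul T.hsd (f₁ del) (f₁ del), sgn_mul T.hsm (f₁ mu) (f₁ mu),
    sgn_mul T.hsn (f₁ nu) (f₁ nu)] at S1
  rw [sgn_mul T.hsl (f₂ lam) (f₂ lam), sgn_mul T.hsd (f₂ del) (f₂ del), sgn_mul T.hsm (f₂ mu) (f₂ mu),
    sgn_mul T.hsn (f₂ nu) (f₂ nu)] at S2
  rw [sgn_mul T.hsl (dd lam) (f₁ lam), sgn_mul T.hsd (dd del) (f₁ del), sgn_mul T.hsm (dd mu) (f₁ mu),
    sgn_mul T.hsn (dd nu) (f₁ nu), T.el, T.eD, T.em, T.en] at S3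
  rw [sgn_mul T.hsl (dd lam) (dd lam), sgn_mul T.hsd (dd del) (dd del), sgn_mul T.hsm (dd mu) (dd mu),
    sgn_mul T.hsn (dd nu) (dd nu), T.el, T.eD, T.em, T.en] at S4
  refine core (L1 := n1 lam * f₁ lam) (D1 := n1 del * f₁ del) (M1 := n2 mu * f₁ mu) (N1 := n2 nu * f₁ nu)
    (L2 := n1 lam * f₂ lam) (D2 := n1 del * f₂ del) (M2 := n2 mu * f₂ mu) (N2 := n2 nu * f₂ nu)
    (r1 := ∑ χ ∈ R, f₁ χ * f₁ χ) (r2 := ∑ χ ∈ R, f₂ χ * f₂ χ) (S := ∑ χ ∈ R, dd χ * f₁ χ)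
    (Rd := ∑ χ ∈ R, dd χ * dd χ) ?_ ?_ ?_ ?_ ?_ ?_ ?_ ?_ ?_ ?_ ?_ ?_ ?_ ?_ ?_ nB nC ?_ ?_ hCS
  · linear_combination r1
  · linear_combination r2
  · linear_combination r3
  · linear_combination r4
  · have := sgn_dvd T.hsl (k1 lam)
    rw [T.el] at this
    simpa using this
  · have := sgn_dvd T.hsm (k1 mu)
    rw [T.em] at this
    simpa using this
  · have := sgn_dvd T.hsn (k1 nu)
    rw [T.en] at this
    simpa using this
  · have := sgn_dvd T.hsl (k2 lam)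
    rw [T.ev] at this
    simpa using this
  · have := sgn_dvd T.hsm (k2 mu)
    rw [T.emt] at this
    simpa using this
  · have := sgn_dvd T.hsn (k2 nu)
    rw [T.ent] at this
    simpa using this
  · have := sgn_dvd T.hsl (k3 lam)
    exact (dvd_sub_comm).mp this
  · have := sgn_dvd T.hsm (k3 mu)
    exact (dvd_sub_comm).mp this
  · have := sgn_dvd T.hsn (k3 nu)
    exact (dvd_sub_comm).mp this
  · linear_combination S1
  · linear_combination S2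
  · linear_combination S3
  · linarith

end Cfsg.Agent.Lib.Gl23.Cols
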