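import Mathlib

/-!
# The projective plane of order three as the difference set `{0, 1, 3, 9}` modulo `13`

A permutation of `ZMod 13` preserving the lines is determined by its values on a frame; there are
`5616` frames, so two groups of order `5616` of such permutations coincide.
-/

set_option autoImplicit false
set_option maxRecDepth 100000
set_option linter.style.nativeDecide false

namespace Cfsg.Agent.Lib.Gl23.Plane

/-- The difference set. -/
def inD (i : ZMod 13) : Prop := i = 0 ∨ i = 1 ∨ i = 3 ∨ i = 9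

instance : DecidablePred inD := fun i => by
  unfold inD
  infer_instance

/-- A permutation sending lines to lines. -/
def PLine (σ : Equiv.Perm (ZMod 13)) : Prop :=
  ∀ j : ZMod 13, ∃ j' : ZMod 13, ∀ i : ZMod 13, inD (i - j) ↔ inD (σ i - j')

theorem unique_meet : ∀ j j' i i' : ZMod 13, j ≠ j' → inD (i - j) → inD (i - j') → inD (i' - j) →
    inD (i' - j') → i = i' := by
  decide +kernel

theorem exists_line : ∀ a b : ZMod 13, ∃ j : ZMod 13, inD (a - j) ∧ inD (b - j) := by
  decide +kernel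

theorem exists_off : ∀ j j' : ZMod 13, j ≠ j' → ∃ x : ZMod 13, inD (x - j) ∧ ¬ inD (x - j') := by
  decide +kernel

/-- One step of the reconstruction of a permutation from a frame. -/
theorem step {σ σ' : Equiv.Perm (ZMod 13)} (h : PLine σ) (h' : PLine σ') {a b c d p j₁ j₂ : ZMod 13}
    (hab : a ≠ b) (hcd : c ≠ d) (hj : j₁ ≠ j₂) (ha : inD (a - j₁)) (hb : inD (b - j₁)) (hc : inD (c - j₂))
    (hd : inD (d - j₂)) (hp₁ : inD (p - j₁)) (hp₂ : inD (p - j₂))
    (ea : σ a = σ' a) (eb : σ b = σ' b) (ec : σ c = σ' c) (ed : σ d = σ' d) : σ p = σ' p := by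
  obtain ⟨k₁, hk₁⟩ := h j₁
  obtain ⟨k₂, hk₂⟩ := h j₂
  obtain ⟨l₁, hl₁⟩ := h' j₁
  obtain ⟨l₂, hl₂⟩ := h' j₂
  have e₁ : k₁ = l₁ := by
    by_contra hne
    apply hab
    apply σ.injective
    refine unique_meet k₁ l₁ _ _ hne ((hk₁ a).mp ha) ?_ ((hk₁ b).mp hb) ?_
    · rw [ea]; exact (hl₁ a).mp ha
    · rw [eb]; exact (hl₁ b).mp hb
  have e₂ : k₂ = l₂ := by
    by_contra hne
    apply hcd
    apply σ.injective
    refine unique_meet k₂ l₂ _ _ hne ((hk₂ c).mp hc) ?_ ((hk₂ d).mp hd) ?_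
    · rw [ec]; exact (hl₂ c).mp hc
    · rw [ed]; exact (hl₂ d).mp hd
  subst e₁ e₂
  have hne : k₁ ≠ k₂ := by
    intro hk
    subst hk
    obtain ⟨x, hx, hx'⟩ := exists_off j₁ j₂ hj
    exact hx' ((hk₂ x).mpr ((hk₁ x).mp hx))
  exact unique_meet k₁ k₂ _ _ hne ((hk₁ p).mp hp₁) ((hk₂ p).mp hp₂) ((hl₁ p).mp hp₁) ((hl₂ p).mp hp₂)

/-- A line-preserving permutation is determined by its values on the frame `(0, 1, 2, 5)`. -/
theorem eq_of_frame {σ σ' : Equiv.Perm (ZMod 13)} (h : PLine σ) (h' : PLine σ') (e0 : σ 0 = σ' 0)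
    (e1 : σ 1 = σ' 1) (e2 : σ 2 = σ' 2) (e5 : σ 5 = σ' 5) : σ = σ' := by
  have e3 : σ 3 = σ' 3 := step (a := 0) (b := 1) (c := 2) (d := 5) (j₁ := 0) (j₂ := 2) h h'
    (by decide) (by decide) (by decide) (by decide) (by decide) (by decide) (by decide) (by decide)
    (by decide) e0 e1 e2 e5
  have e8 : σ 8 = σ' 8 := step (a := 0) (b := 2) (c := 1) (d := 5) (j₁ := 12) (j₂ := 5) h h'
    (by decide) (by decide) (by decide) (by decide) (by decide) (by decide) (by decide) (by decide)
    (by decide) e0 e2 e1 e5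
  have e4 : σ 4 = σ' 4 := step (a := 0) (b := 5) (c := 1) (d := 2) (j₁ := 4) (j₂ := 1) h h'
    (by decide) (by decide) (by decide) (by decide) (by decide) (by decide) (by decide) (by decide)
    (by decide) e0 e5 e1 e2
  have e9 : σ 9 = σ' 9 := step (a := 0) (b := 1) (c := 4) (d := 8) (j₁ := 0) (j₂ := 8) h h'
    (by decide) (by decide) (by decide) (by decide) (by decide) (by decide) (by decide) (by decide)
    (by decide) e0 e1 e4 e8
  have e12 : σ 12 = σ' 12 := step (a := 0) (b := 2) (c := 5) (d := 9) (j₁ := 12) (j₂ := 9) h h'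
    (by decide) (by decide) (by decide) (by decide) (by decide) (by decide) (by decide) (by decide)
    (by decide) e0 e2 e5 e9
  have e7 : σ 7 = σ' 7 := step (a := 0) (b := 5) (c := 1) (d := 12) (j₁ := 4) (j₂ := 11) h h'
    (by decide) (by decide) (by decide) (by decide) (by decide) (by decide) (by decide) (by decide)
    (by decide) e0 e5 e1 e12
  have e10 : σ 10 = σ' 10 := step (a := 1) (b := 2) (c := 5) (d := 9) (j₁ := 1) (j₂ := 9) h h'
    (by decide) (by decide) (by decide) (by decide) (by decide) (by decide) (by decide) (by decide)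
    (by decide) e1 e2 e5 e9
  have e6 : σ 6 = σ' 6 := step (a := 0) (b := 10) (c := 1) (d := 5) (j₁ := 10) (j₂ := 5) h h'
    (by decide) (by decide) (by decide) (by decide) (by decide) (by decide) (by decide) (by decide)
    (by decide) e0 e10 e1 e5
  have e11 : σ 11 = σ' 11 := step (a := 0) (b := 10) (c := 1) (d := 12) (j₁ := 10) (j₂ := 11) h h'
    (by decide) (by decide) (by decide) (by decide) (by decide) (by decide) (by decide) (by decide)
    (by decide) e0 e10 e1 e12
  ext i
  have key : ∀ i : ZMod 13, i = 0 ∨ i = 1 ∨ i = 2 ∨ i = 3 ∨ i = 4 ∨ i = 5 ∨ i = 6 ∨ i = 7 ∨ i = 8 ∨ i = 9 ∨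
      i = 10 ∨ i = 11 ∨ i = 12 := by decide
  rcases key i with rfl | rfl | rfl | rfl | rfl | rfl | rfl | rfl | rfl | rfl | rfl | rfl | rfl <;>
    simp only [e0, e1, e2, e3, e4, e5, e6, e7, e8, e9, e10, e11, e12]

/-- Three points are collinear. -/
def Coll (a b c : ZMod 13) : Prop := ∃ j : ZMod 13, inD (a - j) ∧ inD (b - j) ∧ inD (c - j)

instance (a b c : ZMod 13) : Decidable (Coll a b c) := by
  unfold Coll
  infer_instance

/-- Frames. -/
def IsFrame (f : ZMod 13 × ZMod 13 × ZMod 13 × ZMod 13) : Prop :=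
  f.1 ≠ f.2.1 ∧ f.1 ≠ f.2.2.1 ∧ f.1 ≠ f.2.2.2 ∧ f.2.1 ≠ f.2.2.1 ∧ f.2.1 ≠ f.2.2.2 ∧ f.2.2.1 ≠ f.2.2.2 ∧
    ¬ Coll f.1 f.2.1 f.2.2.1 ∧ ¬ Coll f.1 f.2.1 f.2.2.2 ∧ ¬ Coll f.1 f.2.2.1 f.2.2.2 ∧
    ¬ Coll f.2.1 f.2.2.1 f.2.2.2

instance : DecidablePred IsFrame := fun f => by
  unfold IsFrame
  infer_instance

/-- Frames starting at the origin. -/
def IsFrame0 (f : ZMod 13 × ZMod 13 × ZMod 13) : Prop := IsFrame (0, f.1, f.2.1, f.2.2)

instance : DecidablePred IsFrame0 := fun f => by
  unfold IsFrame0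
  infer_instance

set_option maxHeartbeats 0 in
theorem card_frames0 : (Finset.univ.filter IsFrame0).card = 432 := by decide +kernel

theorem coll_sub {a b c s : ZMod 13} (h : Coll a b c) : Coll (a - s) (b - s) (c - s) := by
  obtain ⟨j, h1, h2, h3⟩ := h
  refine ⟨j - s, ?_, ?_, ?_⟩
  · rwa [sub_sub_sub_cancel_right]
  · rwa [sub_sub_sub_cancel_right]
  · rwa [sub_sub_sub_cancel_right]

theorem coll_add {a b c s : ZMod 13} (h : Coll (a - s) (b - s) (c - s)) : Coll a b c := by
  have := coll_sub (s := -s) h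
  simpa using this

theorem frame_sub {a b c d : ZMod 13} (h : IsFrame (a, b, c, d)) : IsFrame0 (b - a, c - a, d - a) := by
  obtain ⟨h1, h2, h3, h4, h5, h6, h7, h8, h9, h10⟩ := h
  simp only at h1 h2 h3 h4 h5 h6 h7 h8 h9 h10
  have e : (0 : ZMod 13) = a - a := (sub_self a).symm
  refine ⟨?_, ?_, ?_, ?_, ?_, ?_, ?_, ?_, ?_, ?_⟩ <;> simp only
  · rw [e]; exact fun h => h1 (sub_left_injective h)
  · rw [e]; exact fun h => h2 (sub_left_injective h)
  · rw [e]; exact fun h => h3 (sub_left_injective h)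
  · exact fun h => h4 (sub_left_injective h)
  · exact fun h => h5 (sub_left_injective h)
  · exact fun h => h6 (sub_left_injective h)
  · rw [e]; exact fun h => h7 (coll_add h)
  · rw [e]; exact fun h => h8 (coll_add h)
  · rw [e]; exact fun h => h9 (coll_add h)
  · exact fun h => h10 (coll_add h)

theorem coll_of_image {σ : Equiv.Perm (ZMod 13)} (h : PLine σ) {a b c : ZMod 13} (hab : a ≠ b)
    (hc : Coll (σ a) (σ b) (σ c)) : Coll a b c := by
  obtain ⟨j', h1, h2, h3⟩ := hc
  obtain ⟨j, ha, hb⟩ := exists_line a b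
  obtain ⟨k, hk⟩ := h j
  have e : k = j' := by
    by_contra hne
    apply hab
    apply σ.injective
    exact unique_meet k j' _ _ hne ((hk a).mp ha) h1 ((hk b).mp hb) h2
  subst e
  exact ⟨j, ha, hb, (hk c).mpr h3⟩

theorem frame_image {σ : Equiv.Perm (ZMod 13)} (h : PLine σ) : IsFrame (σ 0, σ 1, σ 2, σ 5) := by
  have hf : ¬ Coll 0 1 2 ∧ ¬ Coll 0 1 5 ∧ ¬ Coll 0 2 5 ∧ ¬ Coll 1 2 5 := by decide +kernel
  refine ⟨fun e => ?_, fun e => ?_, fun e => ?_, fun e => ?_, fun e => ?_, fun e => ?_, fun hc => ?_,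
    fun hc => ?_, fun hc => ?_, fun hc => ?_⟩
  · exact absurd (σ.injective e) (by decide)
  · exact absurd (σ.injective e) (by decide)
  · exact absurd (σ.injective e) (by decide)
  · exact absurd (σ.injective e) (by decide)
  · exact absurd (σ.injective e) (by decide)
  · exact absurd (σ.injective e) (by decide)
  · exact hf.1 (coll_of_image h (by decide) hc)
  · exact hf.2.1 (coll_of_image h (by decide) hc)
  · exact hf.2.2.1 (coll_of_image h (by decide) hc)
  · exact hf.2.2.2 (coll_of_image h (by decide) hc)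

/-- At most `5616` line-preserving permutations. -/
theorem card_set_le : Set.ncard {σ : Equiv.Perm (ZMod 13) | PLine σ} ≤ 5616 := by
  classical
  have hcard : ((Finset.univ : Finset (ZMod 13)) ×ˢ (Finset.univ.filter IsFrame0)).card = 5616 := by
    rw [Finset.card_product, card_frames0]
    simp [ZMod.card]
  rw [← hcard]
  have hinj : Set.InjOn (fun σ : Equiv.Perm (ZMod 13) => (σ 0, σ 1 - σ 0, σ 2 - σ 0, σ 5 - σ 0))
      {σ : Equiv.Perm (ZMod 13) | PLine σ} := by
    intro σ hσ σ' hσ' e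
    simp only [Prod.mk.injEq] at e
    obtain ⟨e0, e1, e2, e5⟩ := e
    rw [e0] at e1 e2 e5
    exact eq_of_frame hσ hσ' e0 (sub_left_injective e1) (sub_left_injective e2) (sub_left_injective e5)
  rw [← Set.InjOn.ncard_image hinj, ← Set.ncard_coe_finset]
  refine Set.ncard_le_ncard ?_ (Finset.finite_toSet _)
  rintro _ ⟨σ, hσ, rfl⟩
  simp only [Finset.coe_product, Finset.coe_univ, Finset.coe_filter, Set.mem_prod, Set.mem_univ, true_and]
  exact ⟨Finset.mem_univ _, frame_sub (frame_image hσ)⟩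

theorem range_coe {C : Type*} [Group C] (k : C →* Equiv.Perm (ZMod 13)) (hk : Function.Injective k)
    (hkP : ∀ a, PLine (k a)) (hC : Nat.card C = 5616) :
    (k.range : Set (Equiv.Perm (ZMod 13))) = {σ : Equiv.Perm (ZMod 13) | PLine σ} := by
  refine Set.eq_of_subset_of_ncard_le ?_ ?_ (Set.toFinite _)
  · rintro _ ⟨a, rfl⟩
    exact hkP a
  · refine card_set_le.trans (le_of_eq ?_)
    rw [← Nat.card_coe_set_eq, ← hC]
    exact Nat.card_congr (MonoidHom.ofInjective hk).toEquiv

/-- Two injective homomorphisms from groups of order `5616` into the line-preserving permutations have the same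
range. -/
theorem range_eq {A B : Type*} [Group A] [Group B] (f : A →* Equiv.Perm (ZMod 13))
    (g : B →* Equiv.Perm (ZMod 13)) (hf : Function.Injective f) (hg : Function.Injective g)
    (hfP : ∀ a, PLine (f a)) (hgP : ∀ b, PLine (g b)) (hA : Nat.card A = 5616) (hB : Nat.card B = 5616) :
    f.range = g.range :=
  SetLike.coe_injective ((range_coe f hf hfP hA).trans (range_coe g hg hgP hB).symm)

/-- **Uniqueness.** -/
theorem nonempty_mulEquiv {A B : Type*} [Group A] [Group B] (f : A →* Equiv.Perm (ZMod 13))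
    (g : B →* Equiv.Perm (ZMod 13)) (hf : Function.Injective f) (hg : Function.Injective g)
    (hfP : ∀ a, PLine (f a)) (hgP : ∀ b, PLine (g b)) (hA : Nat.card A = 5616) (hB : Nat.card B = 5616) :
    Nonempty (A ≃* B) := by
  have h := range_eq f g hf hg hfP hgP hA hB
  exact ⟨(MonoidHom.ofInjective hf).trans ((MulEquiv.subgroupCongr h).trans (MonoidHom.ofInjective hg).symm)⟩

end Cfsg.Agent.Lib.Gl23.Plane
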