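import Mathlib
import Cfsg.Agent.Lib.Gl23.Plane

/-!
# The plane from two subgroups of index `13` and a multiplier
-/

set_option autoImplicit false
set_option maxRecDepth 100000
set_option linter.unusedSectionVars false
set_option linter.style.haveILetI false

namespace Cfsg.Agent.Lib.Gl23.Cosets

open Cfsg.Agent.Lib.Gl23.Plane
open MulAction

universe u

/-- The orbit of a label under multiplication by `3`. -/
def cls : ZMod 13 → Fin 5 := ![0, 1, 2, 1, 3, 2, 2, 4, 4, 1, 3, 4, 3]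

/-- A representative of an orbit. -/
def rep : Fin 5 → ZMod 13 := ![0, 1, 2, 4, 7]

theorem cls_check : ∀ B : Fin 5 → Bool, (Finset.univ.filter (fun i : ZMod 13 => B (cls i) = true)).card = 4 →
    ∃ k : ZMod 13, k ≠ 0 ∧ ∀ i : ZMod 13, B (cls (k * i)) = true ↔ inD i := by
  decide +kernel

/-- A set of size `4` invariant under multiplication by `3` is a multiple of the difference set. -/
theorem exists_k {D : Finset (ZMod 13)} (hc : D.card = 4) (hD : ∀ i, i ∈ D ↔ 3 * i ∈ D) :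
    ∃ k : ZMod 13, k ≠ 0 ∧ ∀ i : ZMod 13, k * i ∈ D ↔ inD i := by
  have hr : ∀ i : ZMod 13, rep (cls i) ∈ D ↔ i ∈ D := by
    have h1 : (1 : ZMod 13) ∈ D ↔ 3 ∈ D := hD 1
    have h3 : (3 : ZMod 13) ∈ D ↔ 9 ∈ D := hD 3
    have h2 : (2 : ZMod 13) ∈ D ↔ 6 ∈ D := hD 2
    have h6 : (6 : ZMod 13) ∈ D ↔ 5 ∈ D := by
      have := hD 6
      rwa [show (3 : ZMod 13) * 6 = 5 by decide] at this
    have h4 : (4 : ZMod 13) ∈ D ↔ 12 ∈ D := hD 4
    have h12 : (12 : ZMod 13) ∈ D ↔ 10 ∈ D := by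
      have := hD 12
      rwa [show (3 : ZMod 13) * 12 = 10 by decide] at this
    have h7 : (7 : ZMod 13) ∈ D ↔ 8 ∈ D := by
      have := hD 7
      rwa [show (3 : ZMod 13) * 7 = 8 by decide] at this
    have h8 : (8 : ZMod 13) ∈ D ↔ 11 ∈ D := by
      have := hD 8
      rwa [show (3 : ZMod 13) * 8 = 11 by decide] at this
    have key : ∀ i : ZMod 13, i = 0 ∨ i = 1 ∨ i = 2 ∨ i = 3 ∨ i = 4 ∨ i = 5 ∨ i = 6 ∨ i = 7 ∨ i = 8 ∨ i = 9 ∨
      i = 10 ∨ i = 11 ∨ i = 12 := by decide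
    intro i
    rcases key i with rfl | rfl | rfl | rfl | rfl | rfl | rfl | rfl | rfl | rfl | rfl | rfl | rfl
    · rw [show rep (cls 0) = 0 by decide]
    · rw [show rep (cls 1) = 1 by decide]
    · rw [show rep (cls 2) = 2 by decide]
    · rw [show rep (cls 3) = 1 by decide]; exact h1
    · rw [show rep (cls 4) = 4 by decide]
    · rw [show rep (cls 5) = 2 by decide]; exact h2.trans h6
    · rw [show rep (cls 6) = 2 by decide]; exact h2
    · rw [show rep (cls 7) = 7 by decide]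
    · rw [show rep (cls 8) = 7 by decide]; exact h7
    · rw [show rep (cls 9) = 1 by decide]; exact h1.trans h3
    · rw [show rep (cls 10) = 4 by decide]; exact h4.trans h12
    · rw [show rep (cls 11) = 7 by decide]; exact h7.trans h8
    · rw [show rep (cls 12) = 4 by decide]; exact h4
  classical
  let B : Fin 5 → Bool := fun c => decide (rep c ∈ D)
  have hB : ∀ i : ZMod 13, B (cls i) = true ↔ i ∈ D := by
    intro i
    simp only [B, decide_eq_true_eq]
    exact hr i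
  have hfil : Finset.univ.filter (fun i : ZMod 13 => B (cls i) = true) = D := by
    ext i
    simp [hB i]
  obtain ⟨k, hk, hki⟩ := cls_check B (by rw [hfil]; exact hc)
  exact ⟨k, hk, fun i => (hB _).symm.trans (hki i)⟩

variable {G : Type u} [Group G] [Finite G]

/-- The incidence relation. -/
def Inc (P₁ P₂ : Subgroup G) (a : G ⧸ P₁) (c : G ⧸ P₂) : Prop :=
  ∃ g : G, (QuotientGroup.mk g : G ⧸ P₁) = a ∧ (QuotientGroup.mk g : G ⧸ P₂) = c

variable {P₁ P₂ : Subgroup G}

theorem inc_smul (h : G) {a : G ⧸ P₁} {c : G ⧸ P₂} (hI : Inc P₁ P₂ a c) : Inc P₁ P₂ (h • a) (h • c) := by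
  obtain ⟨g, rfl, rfl⟩ := hI
  exact ⟨h * g, rfl, rfl⟩

theorem inc_smul_iff (h : G) {a : G ⧸ P₁} {c : G ⧸ P₂} : Inc P₁ P₂ (h • a) (h • c) ↔ Inc P₁ P₂ a c := by
  constructor
  · intro hI
    have := inc_smul h⁻¹ hI
    simpa using this
  · exact inc_smul h

/-- The number of points on a line. -/
theorem card_points_one (h1 : Nat.card P₂ = 432) (h2 : Nat.card (P₁ ⊓ P₂ : Subgroup G) = 108) :
    Nat.card {a : G ⧸ P₁ // Inc P₁ P₂ a (QuotientGroup.mk 1)} = 4 := by
  classical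
  letI : Fintype G := Fintype.ofFinite G
  letI : Fintype P₂ := Fintype.ofFinite _
  let o : G ⧸ P₁ := QuotientGroup.mk 1
  letI : Fintype (orbit P₂ o) := Fintype.ofFinite _
  letI : Fintype (stabilizer P₂ o) := Fintype.ofFinite _
  have h3 := card_orbit_mul_card_stabilizer_eq_card_group P₂ o
  have e1 : Nat.card {a : G ⧸ P₁ // Inc P₁ P₂ a (QuotientGroup.mk 1)} = Nat.card (orbit P₂ o) := by
    refine Nat.card_congr (Equiv.subtypeEquivRight fun a => ?_)
    constructor
    · rintro ⟨g, rfl, hg⟩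
      have hg' : g ∈ P₂ := by
        have := QuotientGroup.eq.mp hg
        simpa using this
      refine ⟨⟨g, hg'⟩, ?_⟩
      change ((g * 1 : G) : G ⧸ P₁) = _
      rw [mul_one]
    · rintro ⟨p, rfl⟩
      refine ⟨p, ?_, ?_⟩
      · change _ = ((p * 1 : G) : G ⧸ P₁)
        rw [mul_one]
      · refine QuotientGroup.eq.mpr ?_
        simp
  have e2 : Nat.card (stabilizer P₂ o) = Nat.card (P₁ ⊓ P₂ : Subgroup G) := by
    refine Nat.card_congr (Equiv.ofBijective
      (fun p => ⟨p.1.1, ?_, p.1.2⟩) ⟨?_, ?_⟩)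
    · have h4 : ((p.1.1 * 1 : G) : G ⧸ P₁) = (1 : G) := p.2
      have := QuotientGroup.eq.mp h4
      simpa using this
    · intro p q h
      apply Subtype.ext
      apply Subtype.ext
      exact congrArg (fun z : (P₁ ⊓ P₂ : Subgroup G) => (z : G)) h
    · rintro ⟨g, hg1, hg2⟩
      refine ⟨⟨⟨g, hg2⟩, ?_⟩, rfl⟩
      change ((g * 1 : G) : G ⧸ P₁) = (1 : G)
      refine QuotientGroup.eq.mpr ?_
      simpa using hg1
  rw [e1]
  rw [← Nat.card_eq_fintype_card, ← Nat.card_eq_fintype_card, ← Nat.card_eq_fintype_card, e2, h1, h2] at h3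
  omega

/-- The number of points on a line. -/
theorem card_points (h1 : Nat.card P₂ = 432) (h2 : Nat.card (P₁ ⊓ P₂ : Subgroup G) = 108) (c : G ⧸ P₂) :
    Nat.card {a : G ⧸ P₁ // Inc P₁ P₂ a c} = 4 := by
  obtain ⟨g, rfl⟩ := QuotientGroup.mk_surjective c
  rw [← card_points_one h1 h2]
  have hc : (QuotientGroup.mk g : G ⧸ P₂) = g • (QuotientGroup.mk 1 : G ⧸ P₂) := by
    change _ = ((g * 1 : G) : G ⧸ P₂)
    rw [mul_one]
  refine Nat.card_congr ⟨fun a => ⟨g⁻¹ • a.1, ?_⟩, fun a => ⟨g • a.1, ?_⟩, ?_, ?_⟩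
  · have h3 : Inc P₁ P₂ a.1 (g • (QuotientGroup.mk 1 : G ⧸ P₂)) := hc ▸ a.2
    have h4 := inc_smul g⁻¹ h3
    rwa [inv_smul_smul] at h4
  · have h3 := inc_smul g a.2
    rwa [← hc] at h3
  · intro a
    simp
  · intro a
    simp

theorem card_quot {P : Subgroup G} (hN : Nat.card G = 5616) (h : Nat.card P = 432) : Nat.card (G ⧸ P) = 13 := by
  have h1 := Subgroup.card_mul_index P
  rw [h, hN] at h1
  rw [← Subgroup.index_eq_card]
  omega

theorem exists_fixed {P : Subgroup G} (hN : Nat.card G = 5616) (h : Nat.card P = 432) {y : G} (hy : orderOf y = 3) :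
    ∃ p : G ⧸ P, y • p = p := by
  haveI : Fact (Nat.Prime 3) := ⟨Nat.prime_three⟩
  have hp : IsPGroup 3 (Subgroup.zpowers y) := by
    apply IsPGroup.of_card (n := 1)
    rw [Nat.card_zpowers, hy]
    rfl
  have hf := hp.nonempty_fixed_point_of_prime_not_dvd_card (G ⧸ P) (by
    rw [card_quot hN h]
    norm_num)
  obtain ⟨p, hp⟩ := hf
  exact ⟨p, hp ⟨y, Subgroup.mem_zpowers y⟩⟩

/-- A power of `x` indexed by `ZMod 13`. -/
def pw (x : G) (i : ZMod 13) : G := x ^ i.val

theorem pow_mod13 {x : G} (hx : orderOf x = 13) (n : ℕ) : x ^ (n % 13) = x ^ n := by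
  have := pow_mod_orderOf x n
  rwa [hx] at this

theorem pw_add {x : G} (hx : orderOf x = 13) (i j : ZMod 13) : pw x (i + j) = pw x i * pw x j := by
  rw [pw, pw, pw, ZMod.val_add, ← pow_add, pow_mod13 hx]

theorem pw_mul_nat {x : G} (hx : orderOf x = 13) (n : ℕ) (i : ZMod 13) : pw x ((n : ZMod 13) * i) = (x ^ n) ^ i.val := by
  rw [pw, ZMod.val_mul, ZMod.val_natCast, ← pow_mul, pow_mod13 hx, ← pow_mod13 hx (n % 13 * i.val),
    ← pow_mod13 hx (n * i.val)]
  congr 1
  rw [Nat.mul_mod, Nat.mod_mod, ← Nat.mul_mod]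

theorem pw_injective {x : G} (hx : orderOf x = 13) : Function.Injective (pw x) := by
  intro i j h
  have h1 : i.val % orderOf x = j.val % orderOf x := pow_inj_mod.mp h
  rw [hx] at h1
  have hi := ZMod.val_lt i
  have hj := ZMod.val_lt j
  rw [Nat.mod_eq_of_lt hi, Nat.mod_eq_of_lt hj] at h1
  exact ZMod.val_injective _ h1

theorem smul_pw_injective {P : Subgroup G} (h : Nat.card P = 432) {x : G} (hx : orderOf x = 13) (p : G ⧸ P) :
    Function.Injective (fun i : ZMod 13 => pw x i • p) := by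
  intro i j hij
  obtain ⟨g, rfl⟩ := QuotientGroup.mk_surjective p
  have h1 : ((pw x i * g : G) : G ⧸ P) = ((pw x j * g : G) : G ⧸ P) := hij
  have h2 := QuotientGroup.eq.mp h1.symm
  by_contra hne
  -- the element `c`
  have hc : g⁻¹ * ((pw x j)⁻¹ * pw x i) * g ∈ P := by
    have e : (pw x j * g)⁻¹ * (pw x i * g) = g⁻¹ * ((pw x j)⁻¹ * pw x i) * g := by group
    rwa [e] at h2
  have hsub : (pw x j)⁻¹ * pw x i = pw x (i - j) := by
    have := pw_add hx j (i - j)
    rw [add_sub_cancel] at this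
    rw [this]
    group
  rw [hsub] at hc
  have hk : pw x (i - j) ≠ 1 := by
    intro h0
    apply hne
    have h3 : pw x (i - j) = pw x 0 := by rw [h0, pw]; simp
    have h4 := pw_injective hx h3
    exact sub_eq_zero.mp h4
  have hq : Nat.Prime 13 := by norm_num
  have hord : orderOf (g⁻¹ * pw x (i - j) * g) = 13 := by
    have h5 : orderOf (pw x (i - j)) = 13 := by
      have hx13 : x ^ 13 = 1 := hx ▸ pow_orderOf_eq_one x
      have h6 : pw x (i - j) ^ 13 = 1 := by
        rw [pw, ← pow_mul, mul_comm, pow_mul, hx13, one_pow]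
      haveI : Fact (Nat.Prime 13) := ⟨hq⟩
      exact orderOf_eq_prime h6 hk
    have h7 : g⁻¹ * pw x (i - j) * g = (MulAut.conj g⁻¹) (pw x (i - j)) := by
      simp
    rw [h7, MulEquiv.orderOf_eq, h5]
  have hd := orderOf_dvd_natCard (⟨_, hc⟩ : P)
  rw [Subgroup.orderOf_mk, hord, h] at hd
  norm_num at hd

/-- The labelling of the cosets. -/
noncomputable def lbl {P : Subgroup G} (hN : Nat.card G = 5616) (h : Nat.card P = 432) {x : G} (hx : orderOf x = 13)
    (p : G ⧸ P) : ZMod 13 ≃ G ⧸ P :=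
  Equiv.ofBijective (fun i : ZMod 13 => pw x i • p) <| by
    haveI : Fintype (G ⧸ P) := Fintype.ofFinite _
    refine (Fintype.bijective_iff_injective_and_card _).mpr ⟨smul_pw_injective h hx p, ?_⟩
    rw [ZMod.card, ← Nat.card_eq_fintype_card, card_quot hN h]

theorem lbl_apply {P : Subgroup G} (hN : Nat.card G = 5616) (h : Nat.card P = 432) {x : G} (hx : orderOf x = 13)
    (p : G ⧸ P) (i : ZMod 13) : lbl hN h hx p i = pw x i • p := rfl

/-- **The plane.** -/
theorem exists_hom [IsSimpleGroup G] (hN : Nat.card G = 5616) (h1 : Nat.card P₁ = 432) (h2 : Nat.card P₂ = 432)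
    (h12 : Nat.card (P₁ ⊓ P₂ : Subgroup G) = 108) {x y : G} (hx : orderOf x = 13) (hy : orderOf y = 3)
    (hr : y * x * y⁻¹ = x ^ 3 ∨ y * x * y⁻¹ = x ^ 9) :
    ∃ f : G →* Equiv.Perm (ZMod 13), Function.Injective f ∧ ∀ g, PLine (f g) := by
  classical
  obtain ⟨p₀, hp₀⟩ := exists_fixed hN h1 hy
  obtain ⟨l₀, hl₀⟩ := exists_fixed hN h2 hy
  -- the multiplier
  obtain ⟨r, hr1, hr2⟩ : ∃ r : ℕ, (r = 3 ∨ r = 9) ∧ y * x * y⁻¹ = x ^ r := by
    rcases hr with hr | hr
    · exact ⟨3, Or.inl rfl, hr⟩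
    · exact ⟨9, Or.inr rfl, hr⟩
  have hpw : ∀ i : ZMod 13, y * pw x i * y⁻¹ = pw x ((r : ZMod 13) * i) := by
    intro i
    rw [pw_mul_nat hx, ← hr2, pw, conj_pow]
  have hsm : ∀ (i : ZMod 13) {P : Subgroup G} (a : G ⧸ P), y • a = a →
      y • (pw x i • a) = pw x ((r : ZMod 13) * i) • a := by
    intro i P a ha
    calc y • (pw x i • a) = (y * pw x i * y⁻¹) • (y • a) := by simp [mul_smul]
      _ = _ := by rw [hpw, ha]
  -- the difference set
  let D : Finset (ZMod 13) := Finset.univ.filter (fun i => Inc P₁ P₂ (pw x i • p₀) l₀)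
  have hmem : ∀ i, i ∈ D ↔ Inc P₁ P₂ (pw x i • p₀) l₀ := by
    intro i
    simp [D]
  have hc : D.card = 4 := by
    rw [← card_points (P₁ := P₁) h2 h12 l₀, ← Nat.card_eq_finsetCard]
    refine Nat.card_congr ?_
    exact Equiv.subtypeEquiv (lbl hN h1 hx p₀) (fun i => hmem i)
  have hD0 : ∀ i, i ∈ D ↔ (r : ZMod 13) * i ∈ D := by
    intro i
    rw [hmem, hmem, ← hsm i p₀ hp₀]
    have := inc_smul_iff (P₁ := P₁) (P₂ := P₂) y (a := pw x i • p₀) (c := l₀)
    rw [hl₀] at this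
    exact this.symm
  have hD3 : ∀ i, i ∈ D ↔ 3 * i ∈ D := by
    intro i
    rcases hr1 with rfl | rfl
    · exact hD0 i
    · refine (hD0 i).trans ?_
      refine (hD0 _).trans ?_
      have e : ((9 : ℕ) : ZMod 13) * (((9 : ℕ) : ZMod 13) * i) = 3 * i := by
        revert i
        decide
      rw [e]
  obtain ⟨k, hk0, hk⟩ := exists_k hc hD3
  haveI : Fact (Nat.Prime 13) := ⟨by norm_num⟩
  let mk : ZMod 13 ≃ ZMod 13 := Equiv.mulLeft₀ k hk0
  let μ₁ : ZMod 13 ≃ G ⧸ P₁ := mk.trans (lbl hN h1 hx p₀)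
  let μ₂ : ZMod 13 ≃ G ⧸ P₂ := mk.trans (lbl hN h2 hx l₀)
  have hμ₁ : ∀ i, μ₁ i = pw x (k * i) • p₀ := fun i => rfl
  have hμ₂ : ∀ i, μ₂ i = pw x (k * i) • l₀ := fun i => rfl
  have key : ∀ i j, Inc P₁ P₂ (μ₁ i) (μ₂ j) ↔ inD (i - j) := by
    intro i j
    have e : k * i = k * j + k * (i - j) := by ring
    rw [hμ₁, hμ₂, e, pw_add hx, mul_smul, inc_smul_iff, ← hk, hmem]
  let f : G →* Equiv.Perm (ZMod 13) :=
    (μ₁.symm.permCongrHom.toMonoidHom).comp (MulAction.toPermHom G (G ⧸ P₁))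
  have hf : ∀ g i, μ₁ (f g i) = g • μ₁ i := by
    intro g i
    change μ₁ (μ₁.symm (g • μ₁.symm.symm i)) = _
    rw [Equiv.apply_symm_apply]
    rfl
  refine ⟨f, ?_, ?_⟩
  · rw [injective_iff_map_eq_one]
    intro g hg
    by_contra hg1
    have hn : f.ker = ⊥ ∨ f.ker = ⊤ := (MonoidHom.normal_ker f).eq_bot_or_eq_top
    rcases hn with hn | hn
    · apply hg1
      have : g ∈ f.ker := hg
      rwa [hn, Subgroup.mem_bot] at this
    · have hall : ∀ a : G, a ∈ P₁ := by
        intro a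
        have h3 : a ∈ f.ker := by rw [hn]; trivial
        have h4 : f a = 1 := h3
        have h5 : ∀ i, a • μ₁ i = μ₁ i := by
          intro i
          rw [← hf, h4]
          rfl
        have h6 : a • (QuotientGroup.mk 1 : G ⧸ P₁) = QuotientGroup.mk 1 := by
          have h7 := h5 (μ₁.symm (QuotientGroup.mk 1))
          rwa [Equiv.apply_symm_apply] at h7
        have h8 : ((a * 1 : G) : G ⧸ P₁) = (1 : G) := h6
        have := QuotientGroup.eq.mp h8
        simpa using this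
      have h3 : P₁ = ⊤ := by
        rw [eq_top_iff]
        intro a _
        exact hall a
      rw [h3, Subgroup.card_top, hN] at h1
      omega
  · intro g j
    refine ⟨μ₂.symm (g • μ₂ j), fun i => ?_⟩
    rw [← key, ← key, hf, Equiv.apply_symm_apply, inc_smul_iff]

end Cfsg.Agent.Lib.Gl23.Cosets
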