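import Mathlib
import Cfsg.Agent.Lib.Gl23.Model

/-!
# Decidable facts about the Sylow `2`-subgroup of `GL₂(3)`
-/

set_option autoImplicit false
set_option linter.unusedSectionVars false
set_option linter.style.haveILetI false
set_option maxRecDepth 100000

namespace Cfsg.Agent.Lib.Gl23.Simp0

open Cfsg.Agent.Lib.Gl23.Model

/-- The Sylow `2`-subgroup of the model: the normalizer of `⟨a²⟩`. -/
def inS (c : Gam) : Prop := c * a ^ 2 = a ^ 2 * c ∨ c * a ^ 2 = a ^ 6 * c

instance : DecidablePred inS := fun c => by unfold inS; infer_instance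

/-- The monomial matrices. -/
def inD (c : Gam) : Prop :=
  (c.1 0 1 = 0 ∧ c.1 1 0 = 0) ∨ (c.1 0 0 = 0 ∧ c.1 1 1 = 0)

instance : DecidablePred inD := fun c => by unfold inD; infer_instance

def inK (c : Gam) : Prop := c * a = a * c

instance : DecidablePred inK := fun c => by unfold inK; infer_instance

theorem inS_mul : ∀ x y : Gam, inS x → inS y → inS (x * y) := by decide +kernel
theorem inS_inv : ∀ x : Gam, inS x → inS x⁻¹ := by decide +kernel
theorem inS_one : inS 1 := by decide +kernel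
theorem inD_mul : ∀ x y : Gam, inD x → inD y → inD (x * y) := by decide +kernel
theorem inD_inv : ∀ x : Gam, inD x → inD x⁻¹ := by decide +kernel
theorem inD_one : inD 1 := by decide +kernel

def S0 : Subgroup Gam where
  carrier := {c | inS c}
  mul_mem' := fun {x y} hx hy => inS_mul x y hx hy
  one_mem' := inS_one
  inv_mem' := fun {x} hx => inS_inv x hx

def D0 : Subgroup Gam where
  carrier := {c | inD c}
  mul_mem' := fun {x y} hx hy => inD_mul x y hx hy
  one_mem' := inD_one
  inv_mem' := fun {x} hx => inD_inv x hx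

def K0 : Subgroup Gam := Subgroup.centralizer ({a} : Set Gam)

theorem mem_K0 {c : Gam} : c ∈ K0 ↔ inK c := by
  rw [K0, Subgroup.mem_centralizer_singleton_iff]
  rw [inK]

theorem card_S0 : Nat.card S0 = 16 := by
  have e : Nat.card S0 = Nat.card {c : Gam // inS c} := rfl
  rw [e, Nat.card_eq_fintype_card, Fintype.card_subtype]
  decide +kernel

theorem card_D0 : Nat.card D0 = 8 := by
  have e : Nat.card D0 = Nat.card {c : Gam // inD c} := rfl
  rw [e, Nat.card_eq_fintype_card, Fintype.card_subtype]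
  decide +kernel

theorem card_K0 : Nat.card K0 = 8 := by
  have e : Nat.card K0 = Nat.card {c : Gam // inK c} := by
    refine Nat.card_congr (Equiv.subtypeEquivRight fun c => mem_K0)
  rw [e, Nat.card_eq_fintype_card, Fintype.card_subtype]
  decide +kernel

theorem K_le_S : ∀ c : Gam, inK c → inS c := by decide +kernel
theorem D_le_S : ∀ c : Gam, inD c → inS c := by decide +kernel
theorem a_inS : inS a := by decide +kernel
theorem b_inS : inS b := by decide +kernel
theorem a_inK : inK a := by decide +kernel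
theorem pow4_S : ∀ c : Gam, inS c → c ^ 4 = 1 ∨ c ^ 4 = z := by decide +kernel
theorem norm_S : ∀ c : Gam, inS (c * a * c⁻¹) → inS (c * b * c⁻¹) → inS c := by decide +kernel
theorem K_inv : ∀ c : Gam, inK c → c * c = 1 → c = 1 ∨ c = z := by decide +kernel
theorem S_not_D : ∀ c : Gam, inS c → ¬ inD c → ∃ d : Gam, inD d ∧ c * d = a := by decide +kernel
theorem D_list : ∀ c : Gam, inD c → c = 1 ∨ c = a ^ 2 ∨ c = a ^ 4 ∨ c = a ^ 6 ∨ c = b ∨ c = a ^ 2 * b ∨ c = a ^ 4 * b ∨
    c = a ^ 6 * b := by decide +kernel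
theorem S_list : ∀ c : Gam, inS c → ∃ i : Fin 8, c = a ^ i.val ∨ c = a ^ i.val * b := by decide +kernel
theorem b_Y : b ∈ Y := by decide +kernel
theorem S_invol : ∀ c : Gam, inS c → c * c = 1 → c ≠ 1 → c = z ∨ ∃ h : Gam, h * b * h⁻¹ = c := by decide +kernel
theorem odd_trivial : ∀ c : Gam, c ≠ 1 → (∃ m : Fin 8, c ^ m.val ≠ 1 ∧ c ^ m.val * c ^ m.val = 1) ∨
    ∃ h : Gam, ∃ m : Fin 8, (h * c * h⁻¹ * c) ^ m.val ≠ 1 ∧ (h * c * h⁻¹ * c) ^ m.val * (h * c * h⁻¹ * c) ^ m.val = 1 := by
  decide +kernel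

end Cfsg.Agent.Lib.Gl23.Simp0
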