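import Mathlib
import Cfsg.Agent.Lib.Gl23.Local
import Cfsg.Agent.Lib.Gl23.Simp0
import Cfsg.Agent.Lib.LocalStruct.ThompsonIdx

/-!
# Simplicity of a group with an involution centralizer `GL₂(3)` and no subgroup of index two
-/

set_option autoImplicit false
set_option linter.unusedSectionVars false
set_option linter.style.haveILetI false
set_option maxRecDepth 100000

namespace Cfsg.Agent.Lib.Gl23.Simp

open Cfsg.Agent.Lib.Gl23.Model Cfsg.Agent.Lib.Gl23.Local Cfsg.Agent.Lib.Gl23.Simp0
open Cfsg.Agent.Lib.LocalStruct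

universe u

variable {G : Type u} [Group G] [Finite G] {ι : Gam →* G} {t : G}

/-- The Sylow subgroup. -/
def Sg (ι : Gam →* G) : Subgroup G := S0.map ι
def Kg (ι : Gam →* G) : Subgroup G := K0.map ι
def Dg (ι : Gam →* G) : Subgroup G := D0.map ι

theorem card_Sg (h : Emb ι t) : Nat.card (Sg ι) = 16 := by
  rw [Sg, Subgroup.card_map_of_injective h.inj, card_S0]

theorem card_Kg (h : Emb ι t) : Nat.card (Kg ι) = 8 := by
  rw [Kg, Subgroup.card_map_of_injective h.inj, card_K0]

theorem card_Dg (h : Emb ι t) : Nat.card (Dg ι) = 8 := by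
  rw [Dg, Subgroup.card_map_of_injective h.inj, card_D0]

theorem Kg_le : Kg ι ≤ Sg ι := by
  apply Subgroup.map_mono
  intro c hc
  exact K_le_S c (mem_K0.mp hc)

theorem Dg_le : Dg ι ≤ Sg ι := by
  apply Subgroup.map_mono
  intro c hc
  exact D_le_S c hc

theorem relIndex_of_card {H K : Subgroup G} (hKH : K ≤ H) (hc : Nat.card H = 2 * Nat.card K) : K.relIndex H = 2 := by
  have h1 := Subgroup.relIndex_mul_index hKH
  have h2 := K.card_mul_index
  have h3 := H.card_mul_index
  have h4 : 0 < H.index := Nat.pos_of_ne_zero (Subgroup.index_ne_zero_of_finite)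
  have h5 : 0 < Nat.card K := Nat.card_pos
  rw [← h1, hc] at *
  have h6 : Nat.card K * (K.relIndex H * H.index) = Nat.card K * (2 * H.index) := by
    rw [h2, ← h3]
    ring
  have h7 := Nat.eq_of_mul_eq_mul_left h5 h6
  exact Nat.eq_of_mul_eq_mul_right h4 h7

theorem fix_imp (h : Emb ι t) {g : G} (hg : ∀ s ∈ Sg ι, g * s * g⁻¹ ∈ Sg ι) : g ∈ Sg ι := by
  obtain ⟨σ, hσ, e1⟩ := hg (ι a) ⟨a, a_inS, rfl⟩
  obtain ⟨τ, hτ, e2⟩ := hg (ι b) ⟨b, b_inS, rfl⟩
  have e3 : ι (σ ^ 4) = g * t * g⁻¹ := by
    rw [map_pow, e1, conj_pow, h.pow_eq a4]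
  have hgt : g * t * g⁻¹ = t := by
    rcases pow4_S σ hσ with h4 | h4
    · exfalso
      rw [h4, map_one] at e3
      apply h.t_ne
      have : t = g⁻¹ * (g * t * g⁻¹) * g := by group
      rw [this, ← e3]
      group
    · rw [h4, h.hz] at e3
      exact e3.symm
  have hc : g * t = t * g := by
    calc g * t = g * t * g⁻¹ * g := by group
      _ = t * g := by rw [hgt]
  obtain ⟨γ, rfl⟩ := h.cent g hc
  refine ⟨γ, norm_S γ ?_ ?_, rfl⟩
  · have : γ * a * γ⁻¹ = σ := h.inj (by rw [map_mul, map_mul, map_inv, e1])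
    rw [this]
    exact hσ
  · have : γ * b * γ⁻¹ = τ := h.inj (by rw [map_mul, map_mul, map_inv, e2])
    rw [this]
    exact hτ

theorem normalizer_Sg (h : Emb ι t) {g : G} (hg : g ∈ Subgroup.normalizer (Sg ι : Set G)) : g ∈ Sg ι := by
  rw [Subgroup.mem_normalizer_iff] at hg
  exact fix_imp h fun s hs => (hg s).mp hs

theorem isPGroup_Sg (h : Emb ι t) : IsPGroup 2 (Sg ι) := by
  haveI : Fact (Nat.Prime 2) := ⟨Nat.prime_two⟩
  exact IsPGroup.of_card (n := 4) (by rw [card_Sg h]; norm_num)

/-- The subgroup has odd index. -/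
theorem odd_index (h : Emb ι t) : ¬ 2 ∣ (Sg ι).index := by
  haveI : Fact (Nat.Prime 2) := ⟨Nat.prime_two⟩
  have h1 := Sylow.card_normalizer_modEq_card (p := 2) (n := 4) (H := Sg ι) (by rw [card_Sg h]; norm_num)
  have h2 : Subgroup.normalizer (Sg ι : Set G) = Sg ι :=
    le_antisymm (fun g hg => normalizer_Sg h hg) Subgroup.le_normalizer
  rw [h2, card_Sg h] at h1
  have h3 := (Sg ι).card_mul_index
  rw [card_Sg h] at h3
  rw [← h3] at h1
  intro ⟨k, hk⟩
  rw [hk] at h1
  norm_num [Nat.ModEq] at h1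
  omega

/-- `t` is conjugate to the reflection. -/
theorem t_conj_b (hG : ∀ (f : G →* ℤˣ) (g : G), f g = 1) (h : Emb ι t) : IsConj t (ι b) := by
  have hb2 : (ι b) ^ 2 = 1 := by
    rw [← map_pow, show b ^ 2 = 1 by decide +kernel, map_one]
  obtain ⟨g, hg, -⟩ := ThompsonIdx.exists_conj_mem hG (H := Sg ι) (K := Kg ι) (odd_index h) Kg_le
    (relIndex_of_card Kg_le (by rw [card_Sg h, card_Kg h])) (x := ι b) 1 (by simpa using hb2)
    (by
      intro k hk1 hk2 g' _
      have hk : k = 2 := by
        have := (Nat.dvd_prime Nat.prime_two).mp (by simpa using hk2)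
        omega
      subst hk
      rw [hb2]
      simp only [mul_one, inv_mul_cancel]
      exact one_mem _)
    ⊥ IsPGroup.of_bot (fun p hp => by
      rw [Subgroup.mem_bot.mp hp]
      group)
  obtain ⟨c, hc, e⟩ := hg
  have hcc : c * c = 1 := by
    apply h.inj
    rw [map_mul, map_one, e]
    have : g⁻¹ * ι b * g * (g⁻¹ * ι b * g) = g⁻¹ * ((ι b) * (ι b)) * g := by group
    rw [this, ← pow_two, hb2]
    group
  have hcne : c ≠ 1 := by
    rintro rfl
    rw [map_one] at e
    have h1 : ι b = g * (g⁻¹ * ι b * g) * g⁻¹ := by group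
    rw [← e] at h1
    simp only [mul_one, mul_inv_cancel] at h1
    have := h.inj (h1.trans (map_one ι).symm)
    revert this
    decide +kernel
  rcases K_inv c (mem_K0.mp hc) hcc with rfl | rfl
  · exact absurd rfl hcne
  · rw [h.hz] at e
    refine isConj_iff.mpr ⟨g, ?_⟩
    rw [e]
    group

/-- A normal subgroup containing `t` is everything. -/
theorem normal_eq_top (hG : ∀ (f : G →* ℤˣ) (g : G), f g = 1) (h : Emb ι t) (N : Subgroup G) [hN : N.Normal]
    (htN : t ∈ N) : N = ⊤ := by
  have hconj : ∀ {x y : G}, IsConj x y → x ∈ N → y ∈ N := by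
    intro x y hxy hx
    obtain ⟨c, rfl⟩ := isConj_iff.mp hxy
    exact hN.conj_mem x hx c
  have hb : ι b ∈ N := hconj (t_conj_b hG h) htN
  have hY : ∀ c ∈ Y, ι c ∈ N := by
    intro c hc
    obtain ⟨u, hu⟩ := Y_conj c hc
    exact hconj (isConj_map ι hu) hb
  have ha2 : ι (a ^ 2) ∈ N := by
    have h1 := hY _ (Y_mul b b_Y)
    have h2 := N.mul_mem hb h1
    rw [← map_mul] at h2
    simpa using h2
  have hap : ∀ i : ℕ, ι (a ^ (2 * i)) ∈ N := by
    intro i
    rw [pow_mul, map_pow]
    exact N.pow_mem ha2 i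
  have hDN : ∀ c : Gam, inD c → ι c ∈ N := by
    intro c hc
    have hab : ∀ i : ℕ, ι (a ^ (2 * i) * b) ∈ N := by
      intro i
      rw [map_mul]
      exact N.mul_mem (hap i) hb
    rcases D_list c hc with rfl | rfl | rfl | rfl | rfl | rfl | rfl | rfl
    · rw [map_one]
      exact one_mem _
    · exact hap 1
    · exact hap 2
    · exact hap 3
    · exact hb
    · exact hab 1
    · exact hab 2
    · exact hab 3
  have hA : ι a ∈ N := by
    by_contra hA
    have hSD : ∀ c : Gam, inS c → ι c ∈ N → inD c := by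
      intro c hc hcN
      by_contra hd
      obtain ⟨d, hd1, hd2⟩ := S_not_D c hc hd
      apply hA
      rw [← hd2, map_mul]
      exact N.mul_mem hcN (hDN d hd1)
    have ha8 : (ι a) ^ (2 ^ 3) = 1 := by
      rw [← map_pow]
      rw [show a ^ (2 ^ 3) = 1 by decide +kernel, map_one]
    obtain ⟨g, hg, -⟩ := ThompsonIdx.exists_conj_mem hG (H := Sg ι) (K := Dg ι) (odd_index h) Dg_le
      (relIndex_of_card Dg_le (by rw [card_Sg h, card_Dg h])) (x := ι a) 3 ha8
      (by
        intro k hk1 hk2 g' hg'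
        have hk : 2 ∣ k := by
          obtain ⟨i, -, rfl⟩ := (Nat.dvd_prime_pow Nat.prime_two).mp hk2
          cases i with
          | zero => exact absurd (by simp) hk1
          | succ i => exact ⟨2 ^ i, by ring⟩
        obtain ⟨i, rfl⟩ := hk
        obtain ⟨c, hc, e⟩ := hg'
        refine ⟨c, hSD c hc ?_, e⟩
        rw [e, ← map_pow]
        have := hN.conj_mem _ (hap i) g'⁻¹
        simpa using this)
      ⊥ IsPGroup.of_bot (fun p hp => by
        rw [Subgroup.mem_bot.mp hp]
        group)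
    obtain ⟨c, hc, e⟩ := hg
    apply hA
    have h1 := hN.conj_mem _ (hDN c hc) g
    rw [e] at h1
    have h2 : g * (g⁻¹ * ι a * g) * g⁻¹ = ι a := by group
    rwa [h2] at h1
  have hSN : Sg ι ≤ N := by
    rintro _ ⟨c, hc, rfl⟩
    obtain ⟨i, rfl | rfl⟩ := S_list c hc
    · rw [map_pow]
      exact N.pow_mem hA _
    · rw [map_mul, map_pow]
      exact N.mul_mem (N.pow_mem hA _) hb
  haveI : Fact (Nat.Prime 2) := ⟨Nat.prime_two⟩
  have hF := Sylow.normalizer_sup_eq_top' (N := N) ((isPGroup_Sg h).toSylow (odd_index h)) (by simpa using hSN)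
  have hF' : Subgroup.normalizer (Sg ι : Set G) ⊔ N = ⊤ := hF
  clear hF
  have h1 : Subgroup.normalizer (Sg ι : Set G) ≤ N := fun g hg => hSN (normalizer_Sg h hg)
  rw [sup_eq_right.mpr h1] at hF'
  exact hF'

/-- All involutions are conjugate to `t`. -/
theorem involution_conj (hG : ∀ (f : G →* ℤˣ) (g : G), f g = 1) (h : Emb ι t) {s : G} (hs : orderOf s = 2) : IsConj t s := by
  haveI : Fact (Nat.Prime 2) := ⟨Nat.prime_two⟩
  have hP : IsPGroup 2 (Subgroup.zpowers s) := IsPGroup.of_card (n := 1) (by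
    rw [Nat.card_zpowers, hs]; norm_num)
  obtain ⟨q, hq⟩ := IsPGroup.nonempty_fixed_point_of_prime_not_dvd_card hP (G ⧸ Sg ι) (odd_index h)
  obtain ⟨g, rfl⟩ := QuotientGroup.mk_surjective q
  have h1 := hq ⟨s, Subgroup.mem_zpowers s⟩
  have h2 : ((s * g : G) : G ⧸ Sg ι) = (g : G ⧸ Sg ι) := h1
  rw [QuotientGroup.eq] at h2
  have h3 : g⁻¹ * s * g ∈ Sg ι := by
    have e : (s * g)⁻¹ * g = (g⁻¹ * s * g)⁻¹ := by group
    rw [e] at h2
    exact (Sg ι).inv_mem_iff.mp h2
  obtain ⟨c, hc, e⟩ := h3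
  have hs2 : s * s = 1 := by
    rw [← pow_two, ← hs]
    exact pow_orderOf_eq_one s
  have hcc : c * c = 1 := by
    apply h.inj
    rw [map_mul, map_one, e]
    have : g⁻¹ * s * g * (g⁻¹ * s * g) = g⁻¹ * (s * s) * g := by group
    rw [this, hs2]
    group
  have hs1 : s ≠ 1 := by
    rintro rfl
    simp at hs
  have hcne : c ≠ 1 := by
    rintro rfl
    rw [map_one] at e
    apply hs1
    have h1 : s = g * (g⁻¹ * s * g) * g⁻¹ := by group
    rw [h1, ← e]
    group
  have hcs : IsConj (ι c) s := by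
    rw [e]
    refine isConj_iff.mpr ⟨g, ?_⟩
    group
  rcases S_invol c hc hcc hcne with rfl | ⟨u, hu⟩
  · rw [h.hz] at hcs
    exact hcs
  · exact (t_conj_b hG h).trans ((isConj_map ι hu).trans hcs)

/-- An odd normal subgroup is trivial. -/
theorem odd_normal (hG : ∀ (f : G →* ℤˣ) (g : G), f g = 1) (h : Emb ι t) (N : Subgroup G) [hN : N.Normal]
    (hodd : ¬ 2 ∣ Nat.card N) : N = ⊥ := by
  have hnoinv : ∀ x ∈ N, x * x = 1 → x = 1 := by
    intro x hx hxx
    by_contra hx1
    apply hodd
    have h1 : orderOf x = 2 := orderOf_eq_prime (by rw [pow_two, hxx]) hx1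
    have h2 := Subgroup.orderOf_dvd_natCard N hx
    rwa [h1] at h2
  -- `N` meets the centralizer of `t` trivially
  have hcen : ∀ x ∈ N, x * t = t * x → x = 1 := by
    intro x hx hxt
    obtain ⟨c, rfl⟩ := h.cent x hxt
    by_contra hc1
    have hc : c ≠ 1 := by
      rintro rfl
      exact hc1 (map_one ι)
    rcases odd_trivial c hc with ⟨m, hm1, hm2⟩ | ⟨u, m, hm1, hm2⟩
    · apply hm1
      apply h.inj
      rw [map_one]
      apply hnoinv
      · rw [map_pow]
        exact N.pow_mem hx _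
      · rw [← map_mul, hm2, map_one]
    · apply hm1
      apply h.inj
      rw [map_one]
      apply hnoinv
      · rw [map_pow, map_mul, map_mul, map_mul, map_inv]
        exact N.pow_mem (N.mul_mem (hN.conj_mem _ hx _) hx) _
      · rw [← map_mul, hm2, map_one]
  have htt : t * t = 1 := h.t_sq
  have htinv : t⁻¹ = t := h.t_inv
  -- `t` inverts `N`
  have hinv : ∀ x ∈ N, t * x * t⁻¹ = x⁻¹ := by
    let d : N → N := fun x => ⟨x⁻¹ * (t * x * t⁻¹), N.mul_mem (N.inv_mem x.2) (hN.conj_mem _ x.2 t)⟩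
    have hd : Function.Injective d := by
      intro x y hxy
      have h1 : (x : G)⁻¹ * (t * x * t⁻¹) = (y : G)⁻¹ * (t * y * t⁻¹) := congrArg Subtype.val hxy
      have h2 : ((y : G) * (x : G)⁻¹) * t = t * ((y : G) * (x : G)⁻¹) := by
        rw [htinv] at h1
        have h3 : t * (x : G) * t = x * ((y : G)⁻¹ * (t * y * t)) := by
          rw [← h1]
          group
        have h4 : (y : G) * (x : G)⁻¹ = t * ((y : G) * (x : G)⁻¹) * t := by
          have h5 : t * (x : G)⁻¹ * t = (t * x * t)⁻¹ := by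
            rw [mul_inv_rev, mul_inv_rev, htinv]
            group
          have h6 : t * ((y : G) * (x : G)⁻¹) * t = (t * y * t) * (t * (x : G)⁻¹ * t) := by
            have : t * ((y : G) * (x : G)⁻¹) * t = t * y * 1 * ((x : G)⁻¹ * t) := by group
            rw [this, ← htt]
            group
          rw [h6, h5, h3]
          group
        calc ((y : G) * (x : G)⁻¹) * t = t * ((y : G) * (x : G)⁻¹) * t * t := by rw [← h4]
          _ = t * ((y : G) * (x : G)⁻¹) * (t * t) := by group
          _ = t * ((y : G) * (x : G)⁻¹) := by rw [htt, mul_one]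
      have h3 := hcen _ (N.mul_mem y.2 (N.inv_mem x.2)) h2
      apply Subtype.ext
      exact (mul_inv_eq_one.mp h3).symm
    have hs : Function.Surjective d := Finite.surjective_of_injective hd
    intro x hx
    obtain ⟨y, hy⟩ := hs ⟨x, hx⟩
    have e : (y : G)⁻¹ * (t * y * t⁻¹) = x := congrArg Subtype.val hy
    rw [← e, htinv]
    have e2 : (y : G)⁻¹ * (t * y * t) = ((y : G)⁻¹ * t * y * t) := by group
    have e3 : t * ((y : G)⁻¹ * t * y * t) * t = t * (y : G)⁻¹ * t * y * (t * t) := by group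
    rw [e2, e3, htt, mul_one, mul_inv_rev, mul_inv_rev, mul_inv_rev, htinv, inv_inv]
    group
  -- every element acts as a sign
  let H : Subgroup G :=
    { carrier := {g | (∀ x ∈ N, g * x * g⁻¹ = x) ∨ (∀ x ∈ N, g * x * g⁻¹ = x⁻¹)}
      mul_mem' := by
        rintro g g' (hg | hg) (hg' | hg')
        · left
          intro x hx
          have : g * g' * x * (g * g')⁻¹ = g * (g' * x * g'⁻¹) * g⁻¹ := by group
          rw [this, hg' x hx, hg x hx]
        · right
          intro x hx
          have : g * g' * x * (g * g')⁻¹ = g * (g' * x * g'⁻¹) * g⁻¹ := by group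
          rw [this, hg' x hx, hg _ (N.inv_mem hx)]
        · right
          intro x hx
          have : g * g' * x * (g * g')⁻¹ = g * (g' * x * g'⁻¹) * g⁻¹ := by group
          rw [this, hg' x hx, hg x hx]
        · left
          intro x hx
          have : g * g' * x * (g * g')⁻¹ = g * (g' * x * g'⁻¹) * g⁻¹ := by group
          rw [this, hg' x hx, hg _ (N.inv_mem hx), inv_inv]
      one_mem' := by
        left
        intro x _
        group
      inv_mem' := by
        rintro g (hg | hg)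
        · left
          intro x hx
          have hy : g⁻¹ * x * g ∈ N := by
            have := hN.conj_mem x hx g⁻¹
            simpa using this
          have := hg _ hy
          have e : g * (g⁻¹ * x * g) * g⁻¹ = x := by group
          rw [e] at this
          rw [inv_inv]
          exact this.symm
        · right
          intro x hx
          have hy : g⁻¹ * x * g ∈ N := by
            have := hN.conj_mem x hx g⁻¹
            simpa using this
          have := hg _ hy
          have e : g * (g⁻¹ * x * g) * g⁻¹ = x := by group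
          rw [e] at this
          rw [inv_inv]
          exact inv_eq_iff_eq_inv.mp this.symm }
  haveI hHn : H.Normal := by
    refine ⟨?_⟩
    rintro g (hg | hg) c
    · left
      intro x hx
      have hy : c⁻¹ * x * c ∈ N := by
        have := hN.conj_mem x hx c⁻¹
        simpa using this
      have e : c * g * c⁻¹ * x * (c * g * c⁻¹)⁻¹ = c * (g * (c⁻¹ * x * c) * g⁻¹) * c⁻¹ := by group
      rw [e, hg _ hy]
      group
    · right
      intro x hx
      have hy : c⁻¹ * x * c ∈ N := by
        have := hN.conj_mem x hx c⁻¹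
        simpa using this
      have e : c * g * c⁻¹ * x * (c * g * c⁻¹)⁻¹ = c * (g * (c⁻¹ * x * c) * g⁻¹) * c⁻¹ := by group
      rw [e, hg _ hy]
      group
  have htH : t ∈ H := Or.inr hinv
  have hH := normal_eq_top hG h H htH
  have hall : ∀ g : G, (∀ x ∈ N, g * x * g⁻¹ = x) ∨ (∀ x ∈ N, g * x * g⁻¹ = x⁻¹) := by
    intro g
    have : g ∈ H := by
      rw [hH]
      exact Subgroup.mem_top g
    exact this
  rcases N.bot_or_exists_ne_one with hbot | ⟨x₀, hx₀, hx₀1⟩
  · exact hbot
  exfalso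
  have hne : x₀⁻¹ ≠ x₀ := by
    intro he
    apply hx₀1
    apply hnoinv x₀ hx₀
    calc x₀ * x₀ = x₀⁻¹ * x₀ := by rw [he]
      _ = 1 := inv_mul_cancel x₀
  classical
  let f : G →* ℤˣ := MonoidHom.mk' (fun g => if g * x₀ * g⁻¹ = x₀ then 1 else -1) (by
    intro g g'
    have e : g * g' * x₀ * (g * g')⁻¹ = g * (g' * x₀ * g'⁻¹) * g⁻¹ := by group
    have cases : ∀ g : G, g * x₀ * g⁻¹ = x₀ ∨ g * x₀ * g⁻¹ = x₀⁻¹ := fun g =>
      (hall g).imp (fun h => h x₀ hx₀) (fun h => h x₀ hx₀)
    have cinv : ∀ g : G, g * x₀⁻¹ * g⁻¹ = (g * x₀ * g⁻¹)⁻¹ := fun g => by group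
    have hne' : x₀ ≠ x₀⁻¹ := hne.symm
    rcases cases g with h1 | h1 <;> rcases cases g' with h2 | h2
    · simp only [e, h2, h1, if_true, mul_one]
    · simp only [e, h2, h1, if_true, cinv, hne, if_false, one_mul]
    · simp only [e, h2, h1, if_true, hne, if_false, mul_one]
    · simp only [e, h2, h1, cinv, inv_inv, hne, if_true, if_false]
      norm_num)
  have h1 := hG f t
  have h2 : t * x₀ * t⁻¹ = x₀ := by
    by_contra h3
    have h4 : f t = -1 := if_neg h3
    rw [h4] at h1
    exact absurd h1 (by decide)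
  rw [hinv x₀ hx₀] at h2
  exact hne h2

/-- The group is simple. -/
theorem isSimple (hG : ∀ (f : G →* ℤˣ) (g : G), f g = 1) (h : Emb ι t) : IsSimpleGroup G := by
  haveI : Nontrivial G := ⟨⟨t, 1, h.t_ne⟩⟩
  refine ⟨?_⟩
  intro N hN
  by_cases hN2 : 2 ∣ Nat.card N
  · right
    haveI : Fact (Nat.Prime 2) := ⟨Nat.prime_two⟩
    obtain ⟨x, hx⟩ := exists_prime_orderOf_dvd_card' 2 hN2
    have hx' : orderOf (x : G) = 2 := by rwa [Subgroup.orderOf_coe]
    have hc := involution_conj hG h hx'
    apply normal_eq_top hG h N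
    obtain ⟨c, hc⟩ := isConj_iff.mp hc.symm
    rw [← hc]
    exact hN.conj_mem _ x.2 c
  · left
    exact odd_normal hG h N hN2

end Cfsg.Agent.Lib.Gl23.Simp
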