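import Mathlib
import Cfsg.Agent.Lib.Gl23.Simp
import Cfsg.Agent.Lib.Gl23.Loc0

/-!
# Conjugate embeddings; the Sylow `13`-subgroups
-/

set_option autoImplicit false
set_option linter.unusedSectionVars false
set_option linter.style.haveILetI false
set_option maxRecDepth 100000

namespace Cfsg.Agent.Lib.Gl23.Loc1

open Cfsg.Agent.Lib.Gl23.Model Cfsg.Agent.Lib.Gl23.Local Cfsg.Agent.Lib.Gl23.Simp Cfsg.Agent.Lib.Gl23.Loc0

theorem mod_check : ∀ k : ℕ, k < 13 → k ^ 8 % 13 = 1 → k ^ 4 % 13 = 1 := by decide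

theorem mod_check3 : ∀ k : ℕ, k < 13 → k ^ 3 % 13 = 1 → k = 1 ∨ k = 3 ∨ k = 9 := by decide

theorem index_cases : ∀ i : ℕ, i ≤ 432 → i ∣ 432 → i % 13 = 1 → i = 1 ∨ i = 27 ∨ i = 144 := by decide

universe u

variable {G : Type u} [Group G] {ι : Gam →* G} {t : G}

/-- The conjugated embedding. -/
def conjHom (g : G) (ι : Gam →* G) : Gam →* G := (MulAut.conj g).toMonoidHom.comp ι

theorem conjHom_apply (g : G) (ι : Gam →* G) (c : Gam) : conjHom g ι c = g * ι c * g⁻¹ := rfl

theorem emb_conj (h : Emb ι t) (g : G) : Emb (conjHom g ι) (g * t * g⁻¹) := by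
  refine ⟨?_, ?_, ?_⟩
  · intro c c' hcc
    apply h.inj
    rw [conjHom_apply, conjHom_apply] at hcc
    have h1 : g⁻¹ * (g * ι c * g⁻¹) * g = g⁻¹ * (g * ι c' * g⁻¹) * g := by rw [hcc]
    simpa [mul_assoc] using h1
  · rw [conjHom_apply, h.hz]
  · intro x hx
    have h1 : (g⁻¹ * x * g) * t = t * (g⁻¹ * x * g) := by
      have h2 : g⁻¹ * (x * (g * t * g⁻¹)) * g = g⁻¹ * ((g * t * g⁻¹) * x) * g := by rw [hx]
      simpa [mul_assoc] using h2
    obtain ⟨c, hc⟩ := h.cent _ h1
    refine ⟨c, ?_⟩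
    rw [conjHom_apply, hc]
    group

theorem card_cent_t (h : Emb ι t) : Nat.card (Subgroup.centralizer ({t} : Set G)) = 48 := by
  have h3 := h.card_centralizer (w := z) (k := 1) (pow_one z)
  rw [cent_z, h.hz] at h3
  exact h3

theorem u_cube (ι : Gam →* G) : (ι u0) ^ 3 = 1 := by rw [← map_pow, u0_cube, map_one]

theorem u_ne (h : Emb ι t) : ι u0 ≠ 1 := fun h1 => u0_ne (h.inj (h1.trans (map_one ι).symm))

theorem comm_t_u (h : Emb ι t) : ι u0 * t = t * ι u0 := by
  rw [← h.hz, ← map_mul, ← map_mul, z_comm]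

theorem beta_u (ι : Gam →* G) : ι b * ι u0 * (ι b)⁻¹ = (ι u0)⁻¹ := by
  rw [← map_inv, ← map_mul, ← map_mul, b_u0, map_inv]

theorem beta_sq (ι : Gam →* G) : ι b * ι b = 1 := by rw [← map_mul, b_sq, map_one]

theorem beta_t (h : Emb ι t) : ι b * t = t * ι b := by
  rw [← h.hz, ← map_mul, ← map_mul, z_comm]

theorem beta_ne_t (h : Emb ι t) : ι b ≠ t := by
  rw [← h.hz]
  intro h1
  exact b_ne_z (h.inj h1)

theorem beta_ne (h : Emb ι t) : ι b ≠ 1 := fun h1 => b_ne (h.inj (h1.trans (map_one ι).symm))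

theorem t_b_sq (h : Emb ι t) : (t * ι b) * (t * ι b) = 1 := by
  rw [← h.hz, ← map_mul, ← map_mul, show (z * b) * (z * b) = 1 by decide +kernel, map_one]

theorem t_b_ne (h : Emb ι t) : t * ι b ≠ 1 := by
  rw [← h.hz, ← map_mul]
  intro h1
  have := h.inj (h1.trans (map_one ι).symm)
  revert this
  decide +kernel

theorem order_two {s : G} (h1 : s * s = 1) (h2 : s ≠ 1) : orderOf s = 2 :=
  orderOf_eq_prime (by rw [pow_two, h1]) h2

theorem t_order (h : Emb ι t) : orderOf t = 2 := order_two h.t_sq h.t_ne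

variable [Finite G] (hG : ∀ (f : G →* ℤˣ) (g : G), f g = 1)

include hG

/-- An embedding at every involution. -/
theorem exists_emb (h : Emb ι t) {s : G} (hs : orderOf s = 2) : ∃ g : G, s = g * t * g⁻¹ ∧ Emb (conjHom g ι) s := by
  obtain ⟨g, hg⟩ := isConj_iff.mp (involution_conj hG h hs)
  refine ⟨g, hg.symm, ?_⟩
  rw [← hg]
  exact emb_conj h g

/-- Elements of order three with an involution in their centralizer are conjugate to `u`. -/
theorem order3_isConj (h : Emb ι t) {s x : G} (hs : orderOf s = 2) (hxs : x * s = s * x) (hx3 : x ^ 3 = 1)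
    (hx1 : x ≠ 1) : IsConj (ι u0) x := by
  obtain ⟨g, -, h'⟩ := exists_emb hG h hs
  obtain ⟨c, rfl⟩ := h'.cent x hxs
  have hc3 : c ^ 3 = 1 := h'.inj (by rw [map_pow, hx3, map_one])
  have hc1 : c ≠ 1 := by
    rintro rfl
    exact hx1 (map_one _)
  obtain ⟨e, he⟩ := order3_conj c hc3 hc1
  have h1 : IsConj (conjHom g ι c) (conjHom g ι u0) := isConj_map _ he
  have h2 : IsConj (ι u0) (conjHom g ι u0) := by
    rw [conjHom_apply]
    exact isConj_iff.mpr ⟨g, rfl⟩
  exact h2.trans h1.symm

/-- A `3`-element commuting with an involution has order dividing three. -/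
theorem cube_of_comm (h : Emb ι t) {s x : G} (hs : orderOf s = 2) (hxs : x * s = s * x) (hx3 : x ^ 27 = 1) :
    x ^ 3 = 1 := by
  obtain ⟨g, -, h'⟩ := exists_emb hG h hs
  obtain ⟨c, rfl⟩ := h'.cent x hxs
  have hc3 : c ^ 27 = 1 := h'.inj (by rw [map_pow, hx3, map_one])
  rw [← map_pow, pow27 c hc3, map_one]

theorem card_cent_invol (h : Emb ι t) {s : G} (hs : orderOf s = 2) :
    Nat.card (Subgroup.centralizer ({s} : Set G)) = 48 := by
  obtain ⟨g, -, h'⟩ := exists_emb hG h hs
  exact card_cent_t h'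

/-- A subgroup of order `27` meets the centralizer of an involution in at most three elements. -/
theorem card_inf_dvd (h : Emb ι t) {s : G} (hs : orderOf s = 2) {Q : Subgroup G} (hQ : Nat.card Q = 27) :
    Nat.card (Q ⊓ Subgroup.centralizer ({s} : Set G) : Subgroup G) ∣ 3 := by
  have h1 := Subgroup.card_dvd_of_le (inf_le_left : Q ⊓ Subgroup.centralizer ({s} : Set G) ≤ Q)
  have h2 := Subgroup.card_dvd_of_le (inf_le_right : Q ⊓ Subgroup.centralizer ({s} : Set G) ≤ _)
  rw [hQ] at h1
  rw [card_cent_invol hG h hs] at h2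
  have := Nat.dvd_gcd h1 h2
  simpa using this

omit hG in
theorem conj_pow_iter {g x : G} {k : ℕ} (hk : g * x * g⁻¹ = x ^ k) (m : ℕ) : g ^ m * x * (g ^ m)⁻¹ = x ^ (k ^ m) := by
  induction m with
  | zero => simp
  | succ m ih =>
    have e : g ^ (m + 1) * x * (g ^ (m + 1))⁻¹ = g * (g ^ m * x * (g ^ m)⁻¹) * g⁻¹ := by
      rw [pow_succ']
      group
    rw [e, ih, ← conj_pow, hk, ← pow_mul, pow_succ']

omit hG in
theorem exists_pow_of_mem {x w : G} (hx : orderOf x = 13) (hw : w ∈ Subgroup.zpowers x) : ∃ k : ℕ, k < 13 ∧ w = x ^ k := by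
  have hfin : IsOfFinOrder x := isOfFinOrder_of_finite x
  obtain ⟨k, hk⟩ := (hfin.mem_powers_iff_mem_zpowers).mpr hw
  refine ⟨k % 13, Nat.mod_lt _ (by norm_num), ?_⟩
  rw [← hx, pow_mod_orderOf]
  exact hk.symm

/-- The Sylow `13`-normalizer. -/
theorem thirteen [IsSimpleGroup G] (hN : Nat.card G = 5616) (h : Emb ι t) {x : G} (hx : orderOf x = 13) :
    (∀ w : G, orderOf w = 3 → w * x ≠ x * w) ∧
      ∃ y : G, orderOf y = 3 ∧ (y * x * y⁻¹ = x ^ 3 ∨ y * x * y⁻¹ = x ^ 9) := by
  haveI : Fact (Nat.Prime 13) := ⟨by norm_num⟩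
  haveI : Fact (Nat.Prime 2) := ⟨Nat.prime_two⟩
  haveI : Fact (Nat.Prime 3) := ⟨Nat.prime_three⟩
  set P : Subgroup G := Subgroup.zpowers x with hPdef
  have hPc : Nat.card P = 13 := by rw [hPdef, Nat.card_zpowers, hx]
  have hPp : IsPGroup 13 P := IsPGroup.of_card (n := 1) (by rw [hPc]; norm_num)
  have hPi : P.index = 432 := by
    have := P.card_mul_index
    rw [hPc, hN] at this
    omega
  let S : Sylow 13 G := hPp.toSylow (by rw [hPi]; norm_num)
  have hSc : (S : Subgroup G) = P := rfl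
  let N := Subgroup.normalizer (P : Set G)
  have hind : N.index = Nat.card (Sylow 13 G) := (S.card_eq_index_normalizer).symm
  have hmod := card_sylow_modEq_one 13 G
  have hPN : P ≤ N := Subgroup.le_normalizer
  have hNc : Nat.card N * N.index = 5616 := by rw [N.card_mul_index, hN]
  have h13N : 13 ∣ Nat.card N := by
    have := Subgroup.card_dvd_of_le hPN
    rwa [hPc] at this
  obtain ⟨m, hm⟩ := h13N
  have hi432 : N.index ∣ 432 := ⟨m, by rw [hm] at hNc; nlinarith⟩
  have hi1 : N.index % 13 = 1 := by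
    rw [hind]
    exact hmod
  have hmemN : ∀ {g : G}, g ∈ N → ∃ k : ℕ, k < 13 ∧ g * x * g⁻¹ = x ^ k := by
    intro g hg
    have h1 := (Subgroup.mem_normalizer_iff.mp hg x).mp (Subgroup.mem_zpowers x)
    exact exists_pow_of_mem hx h1
  have hcN : ∀ {g : G}, g * x = x * g → g ∈ N := by
    intro g hg
    rw [Subgroup.mem_normalizer_iff]
    intro w
    have e : ∀ w : G, w ∈ Subgroup.zpowers x → g * w * g⁻¹ = w := by
      rintro _ ⟨k, rfl⟩
      have : Commute g x := hg
      have h2 : Commute g (x ^ k) := this.zpow_right k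
      change g * x ^ k * g⁻¹ = x ^ k
      rw [h2.eq]
      group
    constructor
    · intro hw
      rw [e w hw]
      exact hw
    · intro hw
      have e2 := e _ hw
      have h4 : g * w * g⁻¹ = w := mul_left_cancel (mul_right_cancel e2)
      rw [h4] at hw
      exact hw
  -- no central Sylow
  have hburn : ¬ (∀ g ∈ N, g * x = x * g) := by
    intro hall
    have hle : Subgroup.normalizer (S : Subgroup G).carrier ≤ Subgroup.centralizer (S : Subgroup G).carrier := by
      intro g hg
      rw [Subgroup.mem_centralizer_iff]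
      rintro _ ⟨k, rfl⟩
      have : Commute g x := hall g hg
      exact ((this.zpow_right k).eq).symm
    have hc := MonoidHom.ker_transferSylow_isComplement' S hle
    have hcard := hc.card_mul_card
    rw [hN] at hcard
    have hSc' : Nat.card (S : Subgroup G) = 13 := hPc
    rw [hSc'] at hcard
    have hnorm : (MonoidHom.transferSylow S hle).ker.Normal := MonoidHom.normal_ker _
    rcases hnorm.eq_bot_or_eq_top with hb | hb
    · rw [hb, Subgroup.card_bot] at hcard
      omega
    · rw [hb, Subgroup.card_top, hN] at hcard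
      omega
  have hw3 : Nat.card N = 39 → ∀ w : G, orderOf w = 3 → w * x ≠ x * w := by
    intro h39 w hw hwx
    apply hburn
    let C := Subgroup.centralizer ({x} : Set G)
    have hCN : C ≤ N := by
      intro g hg
      apply hcN
      rw [Subgroup.mem_centralizer_singleton_iff] at hg
      exact hg
    have h13 : 13 ∣ Nat.card C := by
      have := Subgroup.orderOf_dvd_natCard C (x := x) (by rw [Subgroup.mem_centralizer_singleton_iff])
      rwa [hx] at this
    have h3 : 3 ∣ Nat.card C := by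
      have := Subgroup.orderOf_dvd_natCard C (x := w) (by rw [Subgroup.mem_centralizer_singleton_iff]; exact hwx)
      rwa [hw] at this
    have h39' : 39 ∣ Nat.card C := by
      have : Nat.Coprime 13 3 := by norm_num
      have h := this.mul_dvd_of_dvd_of_dvd h13 h3
      simpa using h
    have hCeq : C = N := by
      apply Subgroup.eq_of_le_of_card_ge hCN
      rw [h39]
      exact Nat.le_of_dvd Nat.card_pos h39'
    intro g hg
    rw [← hCeq] at hg
    have := hg
    rw [Subgroup.mem_centralizer_singleton_iff] at this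
    exact this
  rcases index_cases _ (Nat.le_of_dvd (by norm_num) hi432) hi432 hi1 with hi | hi | hi
  · -- normal
    exfalso
    have hP : P.Normal := by
      have : N = ⊤ := Subgroup.index_eq_one.mp hi
      exact Subgroup.normalizer_eq_top_iff.mp this
    rcases hP.eq_bot_or_eq_top with hb | hb
    · rw [hb, Subgroup.card_bot] at hPc
      omega
    · rw [hb, Subgroup.card_top, hN] at hPc
      omega
  · -- index `27`
    exfalso
    have ha8 : (ι a) ^ 8 = 1 := by rw [← map_pow, a8, map_one]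
    have hP2 : IsPGroup 2 (Subgroup.zpowers (ι a)) := by
      intro g
      refine ⟨3, ?_⟩
      obtain ⟨g, k, rfl⟩ := g
      apply Subtype.ext
      change ((ι a) ^ k) ^ (2 ^ 3) = 1
      rw [show (2 : ℕ) ^ 3 = 8 by norm_num, ← zpow_natCast, ← zpow_mul, mul_comm, zpow_mul, zpow_natCast, ha8, one_zpow]
    obtain ⟨q, hq⟩ := IsPGroup.nonempty_fixed_point_of_prime_not_dvd_card hP2 (G ⧸ N)
      (by
        change ¬ 2 ∣ N.index
        rw [hi]
        norm_num)
    obtain ⟨g, rfl⟩ := QuotientGroup.mk_surjective q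
    have h1 := hq ⟨ι a, Subgroup.mem_zpowers _⟩
    have h2 : ((ι a * g : G) : G ⧸ N) = (g : G ⧸ N) := h1
    rw [QuotientGroup.eq] at h2
    have h3 : g⁻¹ * ι a * g ∈ N := by
      have e : (ι a * g)⁻¹ * g = (g⁻¹ * ι a * g)⁻¹ := by group
      rw [e] at h2
      exact N.inv_mem_iff.mp h2
    obtain ⟨k, hk, hkx⟩ := hmemN h3
    have h4 := conj_pow_iter hkx 8
    have e8 : (g⁻¹ * ι a * g) ^ 8 = 1 := by
      have e : g⁻¹ * ι a * g = g⁻¹ * ι a * g⁻¹⁻¹ := by simp
      rw [e, conj_pow, ha8]
      group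
    rw [e8] at h4
    simp only [one_mul, inv_one, mul_one] at h4
    have h5 : x ^ 1 = x ^ (k ^ 8) := by rw [pow_one]; exact h4
    have h6 := (pow_eq_pow_iff_modEq.mp h5)
    rw [hx] at h6
    have h7 : k ^ 8 % 13 = 1 := by
      have := h6.symm
      rw [Nat.ModEq] at this
      simpa using this
    have h8 := mod_check k hk h7
    have h9 := conj_pow_iter hkx 4
    have h10 : x ^ (k ^ 4) = x := by
      rw [← pow_mod_orderOf, hx, h8, pow_one]
    rw [h10] at h9
    have e4 : (g⁻¹ * ι a * g) ^ 4 = g⁻¹ * t * g := by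
      have e : g⁻¹ * ι a * g = g⁻¹ * ι a * g⁻¹⁻¹ := by simp
      rw [e, conj_pow, h.pow_eq a4]
      simp
    rw [e4] at h9
    have ht' : orderOf (g⁻¹ * t * g) = 2 := by
      apply order_two
      · have : g⁻¹ * t * g * (g⁻¹ * t * g) = g⁻¹ * (t * t) * g := by group
        rw [this, h.t_sq]
        group
      · intro h0
        apply h.t_ne
        have : t = g * (g⁻¹ * t * g) * g⁻¹ := by group
        rw [this, h0]
        group
    have hcomm : x ∈ Subgroup.centralizer ({g⁻¹ * t * g} : Set G) := by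
      rw [Subgroup.mem_centralizer_singleton_iff]
      calc x * (g⁻¹ * t * g) = (g⁻¹ * t * g) * x * (g⁻¹ * t * g)⁻¹ * (g⁻¹ * t * g) := by rw [h9]
        _ = (g⁻¹ * t * g) * x := by group
    have h11 := Subgroup.orderOf_dvd_natCard _ hcomm
    rw [hx, card_cent_invol hG h ht'] at h11
    omega
  · -- index `144`
    have h39 : Nat.card N = 39 := by
      rw [hi] at hNc
      omega
    have hw3' := hw3 h39
    refine ⟨hw3', ?_⟩
    have h3N : 3 ∣ Nat.card N := by rw [h39]; norm_num
    obtain ⟨y, hy⟩ := exists_prime_orderOf_dvd_card' 3 h3N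
    have hy' : orderOf (y : G) = 3 := by rwa [Subgroup.orderOf_coe]
    refine ⟨y, hy', ?_⟩
    obtain ⟨k, hk, hkx⟩ := hmemN y.2
    have h4 := conj_pow_iter hkx 3
    have hy3 : (y : G) ^ 3 = 1 := by rw [← hy']; exact pow_orderOf_eq_one _
    rw [hy3] at h4
    simp only [one_mul, inv_one, mul_one] at h4
    have h5 : x ^ 1 = x ^ (k ^ 3) := by rw [pow_one]; exact h4
    have h6 := (pow_eq_pow_iff_modEq.mp h5)
    rw [hx] at h6
    have h7 : k ^ 3 % 13 = 1 := by
      have := h6.symm
      rw [Nat.ModEq] at this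
      simpa using this
    rcases mod_check3 k hk h7 with rfl | rfl | rfl
    · exfalso
      apply hw3' _ hy'
      rw [pow_one] at hkx
      calc (y : G) * x = (y : G) * x * (y : G)⁻¹ * y := by group
        _ = x * y := by rw [hkx]
    · exact Or.inl hkx
    · exact Or.inr hkx

end Cfsg.Agent.Lib.Gl23.Loc1
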