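import Mathlib
import Cfsg.Agent.Lib.Gl23.Loc1
import Cfsg.Agent.Lib.Gl23.Cols

/-!
# The `3`-local structure: the subgroup of order `27` and two further root elements
-/

set_option autoImplicit false
set_option linter.unusedSectionVars false
set_option linter.style.haveILetI false
set_option maxRecDepth 100000

namespace Cfsg.Agent.Lib.Gl23.Loc2

open Cfsg Cfsg.Agent.Lib.Gl23.Model Cfsg.Agent.Lib.Gl23.Local Cfsg.Agent.Lib.Gl23.Simp Cfsg.Agent.Lib.Gl23.Loc0
open Cfsg.Agent.Lib.Gl23.Loc1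

universe u

variable {G : Type u} [Group G] [Finite G] {ι : Gam →* G} {t : G}

theorem card_R_cases : ∀ m : ℕ, m < 313 → (18 * m) ∣ 5616 → ¬ 4 ∣ 18 * m → ¬ 13 ∣ 18 * m → m = 1 ∨ m = 3 := by
  decide +kernel

/-- The centralizer of the transvection. -/
theorem card_R [IsSimpleGroup G] (hG : ∀ (f : G →* ℤˣ) (g : G), f g = 1) (hN : Nat.card G = 5616) (h : Emb ι t) :
    Nat.card (Subgroup.centralizer ({ι u0} : Set G)) = 54 := by
  classical
  haveI f2 : Fact (Nat.Prime 2) := ⟨Nat.prime_two⟩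
  haveI f3 : Fact (Nat.Prime 3) := ⟨Nat.prime_three⟩
  haveI f13 : Fact (Nat.Prime 13) := ⟨by norm_num⟩
  obtain ⟨u, hu⟩ : ∃ u, u = ι u0 := ⟨_, rfl⟩
  rw [← hu]
  obtain ⟨R, hR⟩ : ∃ R, R = Subgroup.centralizer ({u} : Set G) := ⟨_, rfl⟩
  rw [← hR]
  have hmemR : ∀ {x : G}, x ∈ R ↔ x * u = u * x := by
    intro x
    rw [hR, Subgroup.mem_centralizer_singleton_iff]
  have hu3 : u ^ 3 = 1 := hu ▸ u_cube ι
  have hu1 : u ≠ 1 := hu ▸ u_ne h
  have huo : orderOf u = 3 := orderOf_eq_prime hu3 hu1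
  have hdvd : Nat.card R ∣ 5616 := hN ▸ Subgroup.card_subgroup_dvd_card R
  have htR : t ∈ R := hmemR.mpr (by rw [hu]; exact (comm_t_u h).symm)
  have h2 : 2 ∣ Nat.card R := by
    have := Subgroup.orderOf_dvd_natCard R htR
    rwa [t_order h] at this
  have h4 : ¬ 4 ∣ Nat.card R := by
    intro h4
    let t' : R := ⟨t, htR⟩
    have ht'o : orderOf t' = 2 := by
      rw [← Subgroup.orderOf_coe]
      exact t_order h
    let H : Subgroup R := Subgroup.zpowers t'
    have hHc : Nat.card H = 2 ^ 1 := by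
      rw [Nat.card_zpowers, ht'o]
      norm_num
    obtain ⟨K, hKc, hHK⟩ := Sylow.exists_subgroup_card_pow_succ (p := 2) (n := 1) (H := H) (by simpa using h4) hHc
    have hcomm := IsPGroup.isMulCommutative_of_card_eq_prime_sq (G := K) (p := 2) hKc
    have hlt : H < K := by
      refine lt_of_le_of_ne hHK ?_
      intro e
      rw [e, hKc] at hHc
      norm_num at hHc
    obtain ⟨s, hsK, hsH⟩ := SetLike.exists_of_lt hlt
    have ht'K : t' ∈ K := hHK (Subgroup.mem_zpowers t')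
    have hst : (s : G) * t = t * s := by
      have e := hcomm.is_comm.comm ⟨s, hsK⟩ ⟨t', ht'K⟩
      have e2 := congrArg (fun x : K => ((x : R) : G)) e
      exact e2
    obtain ⟨c, hc⟩ := h.cent _ hst
    have hc1 : c * u0 = u0 * c := by
      apply h.inj
      rw [map_mul, map_mul, hc, ← hu]
      exact hmemR.mp s.2
    have hc4 : c ^ 4 = 1 := by
      apply h.inj
      rw [map_pow, hc, map_one]
      have e := pow_card_eq_one' (x := (⟨s, hsK⟩ : K))
      rw [hKc] at e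
      have e2 := congrArg (fun x : K => ((x : R) : G)) e
      simpa using e2
    rcases comm_two c hc1 hc4 with rfl | rfl
    · apply hsH
      have : s = 1 := by
        apply Subtype.ext
        rw [← hc, map_one]
        rfl
      rw [this]
      exact one_mem _
    · apply hsH
      have : s = t' := by
        apply Subtype.ext
        rw [← hc, h.hz]
      rw [this]
      exact Subgroup.mem_zpowers t'
  have h13 : ¬ 13 ∣ Nat.card R := by
    intro h13
    obtain ⟨x, hx⟩ := exists_prime_orderOf_dvd_card' 13 h13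
    have hx' : orderOf (x : G) = 13 := by rwa [Subgroup.orderOf_coe]
    exact (thirteen hG hN h hx').1 u huo (hmemR.mp x.2).symm
  have h9 : 9 ∣ Nat.card R := by
    let H : Subgroup G := Subgroup.zpowers u
    have hHc : Nat.card H = 3 ^ 1 := by
      rw [Nat.card_zpowers, huo]
      norm_num
    obtain ⟨K, hKc, hHK⟩ := Sylow.exists_subgroup_card_pow_succ (p := 3) (n := 1) (H := H)
      (by rw [hN]; norm_num) hHc
    have hcomm := IsPGroup.isMulCommutative_of_card_eq_prime_sq (G := K) (p := 3) hKc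
    have huK : u ∈ K := hHK (Subgroup.mem_zpowers u)
    have hKR : K ≤ R := by
      intro x hx
      apply hmemR.mpr
      have e := hcomm.is_comm.comm ⟨x, hx⟩ ⟨u, huK⟩
      exact congrArg (fun x : K => (x : G)) e
    have := Subgroup.card_dvd_of_le hKR
    rwa [hKc] at this
  have hne : Nat.card R ≠ 18 := by
    letI : Fintype G := Fintype.ofFinite G
    haveI := Cfsg.Agent.Lib.Char.Ortho.finite_irrCharacter (G := G)
    letI : Fintype (IrrCharacter G) := Fintype.ofFinite _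
    rcases Cfsg.Agent.Lib.Gl23.Table.table h (fun χ hχ => Cfsg.Agent.Lib.Gl23.Final.ne_of_simple h.t_ne χ hχ) with
      h7920 | ⟨-, n1, n2, ww, dd, ee, lam, del, mu, nu, V, T⟩
    · omega
    · rw [hR, hu]
      exact Cfsg.Agent.Lib.Gl23.Cols.card_ne_18 h V T hN
  have h18 : 18 ∣ Nat.card R := by
    have : Nat.Coprime 2 9 := by norm_num
    have h := this.mul_dvd_of_dvd_of_dvd h2 h9
    simpa using h
  obtain ⟨m, hm⟩ := h18
  rw [hm] at hdvd h4 h13 hne ⊢
  have hle := Nat.le_of_dvd (by norm_num) hdvd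
  rcases card_R_cases m (by omega) hdvd h4 h13 with rfl | rfl
  · omega
  · rfl

/-- A subgroup of order `27` in the centralizer of the transvection. -/
structure Root (ι : Gam →* G) (Q : Subgroup G) : Prop where
  card : Nat.card Q = 27
  mem : ∀ x : G, x ∈ Q ↔ x * ι u0 = ι u0 * x ∧ x ^ 27 = 1

theorem exists_root [IsSimpleGroup G] (hG : ∀ (f : G →* ℤˣ) (g : G), f g = 1) (hN : Nat.card G = 5616) (h : Emb ι t) :
    ∃ Q : Subgroup G, Root ι Q := by
  haveI f3 : Fact (Nat.Prime 3) := ⟨Nat.prime_three⟩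
  have hc := card_R hG hN h
  obtain ⟨R, hR⟩ : ∃ R, R = Subgroup.centralizer ({ι u0} : Set G) := ⟨_, rfl⟩
  rw [← hR] at hc
  have hmemR : ∀ {x : G}, x ∈ R ↔ x * ι u0 = ι u0 * x := by
    intro x
    rw [hR, Subgroup.mem_centralizer_singleton_iff]
  obtain ⟨K, hK⟩ := Sylow.exists_subgroup_card_pow_prime (G := R) 3 (n := 3) (by rw [hc]; norm_num)
  have hKc : Nat.card K = 27 := by rw [hK]; norm_num
  have hKi : K.index = 2 := by
    have := K.card_mul_index
    rw [hKc, hc] at this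
    omega
  refine ⟨K.map R.subtype, ?_, ?_⟩
  · rw [Subgroup.card_map_of_injective R.subtype_injective, hKc]
  · intro x
    constructor
    · rintro ⟨y, hy, rfl⟩
      refine ⟨hmemR.mp y.2, ?_⟩
      have e := pow_card_eq_one' (x := (⟨y, hy⟩ : K))
      rw [hKc] at e
      have e2 := congrArg (fun x : K => ((x : R) : G)) e
      simpa using e2
    · rintro ⟨h1, h2⟩
      let x' : R := ⟨x, hmemR.mpr h1⟩
      have e1 : x' ^ 2 ∈ K := Subgroup.sq_mem_of_index_two hKi x'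
      have e2 : x' ^ 27 = 1 := Subtype.ext (by simpa [x'] using h2)
      have e3 : x' = (x' ^ 2) ^ 14 := by
        rw [← pow_mul, show 2 * 14 = 27 + 1 by norm_num, pow_succ, e2, one_mul]
      have e4 : x' ∈ K := by
        rw [e3]
        exact K.pow_mem e1 14
      exact ⟨x', e4, rfl⟩

variable {Q : Subgroup G}

theorem Root.u_mem (hQ : Root ι Q) : ι u0 ∈ Q := by
  rw [hQ.mem]
  refine ⟨rfl, ?_⟩
  rw [show 27 = 3 * 9 by norm_num, pow_mul, u_cube, one_pow]

theorem Root.comm (hQ : Root ι Q) {x : G} (hx : x ∈ Q) : x * ι u0 = ι u0 * x := ((hQ.mem x).mp hx).1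

theorem Root.pow (hQ : Root ι Q) {x : G} (hx : x ∈ Q) : x ^ 27 = 1 := ((hQ.mem x).mp hx).2

theorem Root.conj_mem (hQ : Root ι Q) {g : G} (hg : g * ι u0 * g⁻¹ = ι u0 ∨ g * ι u0 * g⁻¹ = (ι u0)⁻¹) {x : G}
    (hx : x ∈ Q) : g * x * g⁻¹ ∈ Q := by
  rw [hQ.mem]
  refine ⟨?_, by rw [conj_pow, hQ.pow hx]; group⟩
  have h1 : (g * x * g⁻¹) * (g * ι u0 * g⁻¹) = (g * ι u0 * g⁻¹) * (g * x * g⁻¹) := by
    have e1 : (g * x * g⁻¹) * (g * ι u0 * g⁻¹) = g * (x * ι u0) * g⁻¹ := by group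
    have e2 : (g * ι u0 * g⁻¹) * (g * x * g⁻¹) = g * (ι u0 * x) * g⁻¹ := by group
    rw [e1, e2, hQ.comm hx]
  rcases hg with hg | hg
  · rwa [hg] at h1
  · rw [hg] at h1
    have h2 : Commute (g * x * g⁻¹) (ι u0)⁻¹ := h1
    exact (Commute.inv_right_iff.mp h2)

/-- A `3`-element commuting with `t` and in `Q` is a power of `u`. -/
theorem Root.cent_t (hQ : Root ι Q) (h : Emb ι t) {x : G} (hx : x ∈ Q) (hxt : x * t = t * x) :
    x = 1 ∨ x = ι u0 ∨ x = (ι u0) ^ 2 := by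
  obtain ⟨c, rfl⟩ := h.cent x hxt
  have hc1 : c * u0 = u0 * c := by
    apply h.inj
    rw [map_mul, map_mul, hQ.comm hx]
  have hc27 : c ^ 27 = 1 := h.inj (by rw [map_pow, hQ.pow hx, map_one])
  rcases comm_three c hc1 (pow27 c hc27) with rfl | rfl | rfl
  · left
    exact map_one ι
  · right
    left
    rfl
  · right
    right
    rw [map_pow]

/-- Elements of a group of order dividing three containing a non-trivial element of order three. -/
theorem eq_of_card {C : Subgroup G} {w : G} (hw : w ∈ C) (hw1 : w ≠ 1) (hw3 : w ^ 3 = 1) (hC : Nat.card C ∣ 3) :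
    ∀ x ∈ C, x = 1 ∨ x = w ∨ x = w ^ 2 := by
  have ho : orderOf w = 3 := orderOf_eq_prime hw3 hw1
  have hle : Subgroup.zpowers w ≤ C := by
    rw [Subgroup.zpowers_le]
    exact hw
  have he : Subgroup.zpowers w = C := by
    apply Subgroup.eq_of_le_of_card_ge hle
    rw [Nat.card_zpowers, ho]
    exact Nat.le_of_dvd (by norm_num) hC
  intro x hx
  rw [← he] at hx
  have hfin : IsOfFinOrder w := isOfFinOrder_of_finite w
  obtain ⟨k, rfl⟩ := (hfin.mem_powers_iff_mem_zpowers).mpr hx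
  have e : w ^ k = w ^ (k % 3) := by
    conv_lhs => rw [← Nat.div_add_mod k 3, pow_add, pow_mul, hw3, one_pow, one_mul]
  change w ^ k = 1 ∨ w ^ k = w ∨ w ^ k = w ^ 2
  rw [e]
  have hk : k % 3 = 0 ∨ k % 3 = 1 ∨ k % 3 = 2 := by omega
  rcases hk with hk | hk | hk <;> rw [hk] <;> simp

/-- A fixed-point-free involutory automorphism inverts. -/
theorem inverts_of_fpf {Q : Subgroup G} {τ : G} (hτ1 : τ * τ = 1) (hnorm : ∀ x ∈ Q, τ * x * τ⁻¹ ∈ Q)
    (hfpf : ∀ x ∈ Q, x * τ = τ * x → x = 1) : ∀ x ∈ Q, τ * x * τ⁻¹ = x⁻¹ := by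
  have hτinv : τ⁻¹ = τ := inv_eq_of_mul_eq_one_left hτ1
  let d : Q → Q := fun x => ⟨(x : G)⁻¹ * (τ * x * τ⁻¹), Q.mul_mem (Q.inv_mem x.2) (hnorm _ x.2)⟩
  have hd : Function.Injective d := by
    intro x y hxy
    have h1 : (x : G)⁻¹ * (τ * x * τ⁻¹) = (y : G)⁻¹ * (τ * y * τ⁻¹) := congrArg Subtype.val hxy
    have h3 : (y : G) * ((x : G)⁻¹ * (τ * x * τ⁻¹)) * τ * (x : G)⁻¹ = (y : G) * ((y : G)⁻¹ * (τ * y * τ⁻¹)) * τ * (x : G)⁻¹ := by
      rw [h1]
    have e1 : (y : G) * ((x : G)⁻¹ * (τ * x * τ⁻¹)) * τ * (x : G)⁻¹ = ((y : G) * (x : G)⁻¹) * τ := by group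
    have e2 : (y : G) * ((y : G)⁻¹ * (τ * y * τ⁻¹)) * τ * (x : G)⁻¹ = τ * ((y : G) * (x : G)⁻¹) := by group
    rw [e1, e2] at h3
    have h4 := hfpf _ (Q.mul_mem y.2 (Q.inv_mem x.2)) h3
    exact Subtype.ext (mul_inv_eq_one.mp h4).symm
  have hs : Function.Surjective d := Finite.surjective_of_injective hd
  intro x hx
  obtain ⟨y, hy⟩ := hs ⟨x, hx⟩
  have e : (y : G)⁻¹ * (τ * y * τ⁻¹) = x := congrArg Subtype.val hy
  rw [← e]
  have e1 : τ * ((y : G)⁻¹ * (τ * y * τ⁻¹)) * τ⁻¹ = τ * (y : G)⁻¹ * τ * y * (τ⁻¹ * τ⁻¹) := by group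
  have e2 : ((y : G)⁻¹ * (τ * y * τ⁻¹))⁻¹ = τ * (y : G)⁻¹ * τ⁻¹ * y := by group
  rw [e1, e2, hτinv, hτ1, mul_one]

/-- Counting through the fibres of a map. -/
theorem card_le_of_fibers {Q A : Subgroup G} {X : Type*} [Finite X] (f : Q → X)
    (hf : ∀ y y' : Q, f y = f y' → (y' : G)⁻¹ * y ∈ A) : Nat.card Q ≤ Nat.card A * Nat.card X := by
  classical
  let s : X → Q := fun x => if hx : ∃ y, f y = x then hx.choose else 1
  have hs : ∀ y : Q, f (s (f y)) = f y := by
    intro y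
    have hx : ∃ y', f y' = f y := ⟨y, rfl⟩
    simp only [s, dif_pos hx]
    exact hx.choose_spec
  let F : Q → A × X := fun y => (⟨(s (f y) : G)⁻¹ * y, hf y (s (f y)) (hs y).symm⟩, f y)
  have hF : Function.Injective F := by
    intro y y' e
    have e1 : f y = f y' := congrArg Prod.snd e
    have e2 : (s (f y) : G)⁻¹ * y = (s (f y') : G)⁻¹ * y' := congrArg (fun p => (p.1 : G)) e
    rw [e1] at e2
    exact Subtype.ext (mul_left_cancel e2)
  have := Nat.card_le_card_of_injective F hF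
  rwa [Nat.card_prod] at this

theorem mem_inf_cent {Q : Subgroup G} {s x : G} (hx : x ∈ Q) (hc : x * s = s * x) :
    x ∈ Q ⊓ Subgroup.centralizer ({s} : Set G) :=
  Subgroup.mem_inf.mpr ⟨hx, Subgroup.mem_centralizer_singleton_iff.mpr hc⟩

theorem u_sq_ne {x : G} (h3 : x ^ 3 = 1) (h1 : x ≠ 1) : x ^ 2 = x⁻¹ := by
  rw [eq_inv_iff_mul_eq_one, ← pow_succ, h3]

/-- The existence of a root element in the eigenspaces of the four-group. -/
theorem exists_w (hG : ∀ (f : G →* ℤˣ) (g : G), f g = 1) (h : Emb ι t) (hQ : Root ι Q) {τ : G}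
    (hτ1 : τ * τ = 1) (hτne : τ ≠ 1) (hτt : τ * t = t * τ) (hτu : τ * ι u0 * τ⁻¹ = (ι u0)⁻¹)
    (hτ'ne : t * τ ≠ 1) : ∃ w ∈ Q, w ≠ 1 ∧ w * τ = τ * w ∧ t * w * t⁻¹ = w⁻¹ ∧ w ^ 3 = 1 := by
  have hτo : orderOf τ = 2 := order_two hτ1 hτne
  have htt := h.t_sq
  have hτ'1 : (t * τ) * (t * τ) = 1 := by
    calc (t * τ) * (t * τ) = t * (τ * t) * τ := by group
      _ = t * (t * τ) * τ := by rw [hτt]
      _ = (t * t) * (τ * τ) := by group
      _ = 1 := by rw [htt, hτ1, one_mul]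
  have hτ'o : orderOf (t * τ) = 2 := order_two hτ'1 hτ'ne
  have hu1 := u_ne h
  have hu3 := u_cube ι
  have hQτ : ∀ x ∈ Q, τ * x * τ⁻¹ ∈ Q := fun x hx => hQ.conj_mem (Or.inr hτu) hx
  have htu : t * ι u0 * t⁻¹ = ι u0 := by
    rw [← comm_t_u h]
    group
  have hQt : ∀ x ∈ Q, t * x * t⁻¹ ∈ Q := fun x hx => hQ.conj_mem (Or.inl htu) hx
  have htinv := h.t_inv
  by_cases hex : ∃ w ∈ Q, w ≠ 1 ∧ w * τ = τ * w
  · obtain ⟨w, hwQ, hw1, hwτ⟩ := hex
    have hw3 := cube_of_comm hG h hτo hwτ (hQ.pow hwQ)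
    have hC := card_inf_dvd hG h hτo hQ.card
    have hwC : w ∈ Q ⊓ Subgroup.centralizer ({τ} : Set G) := mem_inf_cent hwQ hwτ
    have htwC : t * w * t⁻¹ ∈ Q ⊓ Subgroup.centralizer ({τ} : Set G) := by
      refine mem_inf_cent (hQt w hwQ) ?_
      have e1 : t * w * t⁻¹ * τ = t * (w * τ) * t⁻¹ := by
        rw [htinv]
        have e3 : t * w * t * τ = t * w * (t * τ) := by group
        rw [e3, ← hτt]
        group
      have e2 : τ * (t * w * t⁻¹) = t * (τ * w) * t⁻¹ := by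
        have : τ * (t * w * t⁻¹) = (τ * t) * w * t⁻¹ := by group
        rw [this, hτt]
        group
      rw [e1, e2, hwτ]
    refine ⟨w, hwQ, hw1, hwτ, ?_, hw3⟩
    rcases eq_of_card hwC hw1 hw3 hC _ htwC with h1 | h1 | h1
    · exfalso
      apply hw1
      have : w = t⁻¹ * (t * w * t⁻¹) * t := by group
      rw [this, h1]
      group
    · exfalso
      have hwt : w * t = t * w := by
        calc w * t = (t * w * t⁻¹) * t := by rw [h1]
          _ = t * w := by group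
      have hinvu : (ι u0) * (ι u0) = 1 → False := by
        intro h2
        apply hu1
        have : ι u0 = (ι u0) ^ 3 * ((ι u0) * (ι u0))⁻¹ := by group
        rw [this, hu3, h2]
        group
      rcases hQ.cent_t h hwQ hwt with h2 | h2 | h2
      · exact hw1 h2
      · rw [h2] at hwτ
        apply hinvu
        have e : τ * ι u0 * τ⁻¹ = ι u0 := by
          rw [← hwτ]
          group
        rw [hτu] at e
        have e3 : ι u0 * ι u0 = (ι u0)⁻¹ * ι u0 := by rw [e]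
        rw [e3, inv_mul_cancel]
      · rw [h2] at hwτ
        apply hinvu
        have e : τ * (ι u0) ^ 2 * τ⁻¹ = (ι u0) ^ 2 := by
          rw [← hwτ]
          group
        rw [← conj_pow, hτu, inv_pow, u_sq_ne hu3 hu1, inv_inv] at e
        have e3 : ι u0 * ι u0 = (ι u0)⁻¹ * ι u0 := by rw [← e]
        rw [e3, inv_mul_cancel]
    · rw [h1, u_sq_ne hw3 hw1]
  · exfalso
    push_neg at hex
    have hfpf : ∀ x ∈ Q, x * τ = τ * x → x = 1 := by
      intro x hx hxτ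
      by_contra hx1
      exact hex x hx hx1 hxτ
    have hinv := inverts_of_fpf hτ1 hQτ hfpf
    -- the map
    have hv : ∀ y : Q, (t * (y : G) * t⁻¹ * (y : G)⁻¹) ∈ Q ⊓ Subgroup.centralizer ({t * τ} : Set G) := by
      intro y
      have hm : t * (y : G) * t⁻¹ * (y : G)⁻¹ ∈ Q := Q.mul_mem (hQt _ y.2) (Q.inv_mem y.2)
      refine mem_inf_cent hm ?_
      obtain ⟨v, hve⟩ : ∃ v, v = t * (y : G) * t⁻¹ * (y : G)⁻¹ := ⟨_, rfl⟩
      rw [← hve] at hm ⊢
      have h1 : τ * v * τ⁻¹ = v⁻¹ := hinv v hm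
      have h2 : t * v * t⁻¹ = v⁻¹ := by
        rw [hve, htinv]
        have e1 : t * (t * (y : G) * t * (y : G)⁻¹) * t = (t * t) * ((y : G) * t * (y : G)⁻¹ * t) := by group
        have e2 : (t * (y : G) * t * (y : G)⁻¹)⁻¹ = (y : G) * t⁻¹ * (y : G)⁻¹ * t⁻¹ := by group
        rw [e1, e2, htt, htinv, one_mul]
      have h3 : (t * τ) * v * (t * τ)⁻¹ = v := by
        have e1 : (t * τ) * v * (t * τ)⁻¹ = t * (τ * v * τ⁻¹) * t⁻¹ := by group
        rw [e1, h1]
        have e2 : t * v⁻¹ * t⁻¹ = (t * v * t⁻¹)⁻¹ := by group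
        rw [e2, h2, inv_inv]
      calc v * (t * τ) = (t * τ) * v * (t * τ)⁻¹ * (t * τ) := by rw [h3]
        _ = (t * τ) * v := by group
    let f : Q → ↥(Q ⊓ Subgroup.centralizer ({t * τ} : Set G)) := fun y => ⟨_, hv y⟩
    have hf : ∀ y y' : Q, f y = f y' → (y' : G)⁻¹ * y ∈ Q ⊓ Subgroup.centralizer ({t} : Set G) := by
      intro y y' e
      have e1 : t * (y : G) * t⁻¹ * (y : G)⁻¹ = t * (y' : G) * t⁻¹ * (y' : G)⁻¹ := congrArg Subtype.val e
      refine mem_inf_cent (Q.mul_mem (Q.inv_mem y'.2) y.2) ?_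
      have e2 : t * ((y' : G)⁻¹ * y) * t⁻¹ = (y' : G)⁻¹ * y := by
        have e3 : t * ((y' : G)⁻¹ * y) * t⁻¹ = (t * (y' : G) * t⁻¹)⁻¹ * (t * (y : G) * t⁻¹) := by group
        have e4 : t * (y : G) * t⁻¹ = t * (y' : G) * t⁻¹ * (y' : G)⁻¹ * y := by
          rw [← e1]
          group
        rw [e3, e4]
        group
      calc (y' : G)⁻¹ * y * t = t * ((y' : G)⁻¹ * y) * t⁻¹ * t := by rw [e2]
        _ = t * ((y' : G)⁻¹ * y) := by group
    have hle := card_le_of_fibers f hf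
    rw [hQ.card] at hle
    have hA := Nat.le_of_dvd (by norm_num) (card_inf_dvd hG h (t_order h) hQ.card)
    have hB := Nat.le_of_dvd (by norm_num) (card_inf_dvd hG h hτ'o hQ.card)
    have := Nat.mul_le_mul hA hB
    omega

end Cfsg.Agent.Lib.Gl23.Loc2
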