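import Mathlib
import Cfsg.Agent.Lib.Gl23.Loc2

/-!
# The subgroup of order `27` is not abelian
-/

set_option autoImplicit false
set_option linter.unusedSectionVars false
set_option linter.style.haveILetI false
set_option maxRecDepth 100000

namespace Cfsg.Agent.Lib.Gl23.Loc3

open Cfsg Cfsg.Agent.Lib.Gl23.Model Cfsg.Agent.Lib.Gl23.Local Cfsg.Agent.Lib.Gl23.Simp Cfsg.Agent.Lib.Gl23.Loc0
open Cfsg.Agent.Lib.Gl23.Loc1 Cfsg.Agent.Lib.Gl23.Loc2

universe u

variable {G : Type u} [Group G] [Finite G] {ι : Gam →* G} {t : G} {Q : Subgroup G}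

theorem mem_normalizer_of_conj {V : Subgroup G} {g : G} (hg : ∀ x ∈ V, g * x * g⁻¹ ∈ V) :
    g ∈ Subgroup.normalizer (V : Set G) := by
  rw [Subgroup.mem_normalizer_iff]
  intro x
  refine ⟨hg x, fun hx => ?_⟩
  let F : V → V := fun v => ⟨g * v * g⁻¹, hg v v.2⟩
  have hF : Function.Injective F := fun a b e => Subtype.ext (by
    have e1 : g * (a : G) * g⁻¹ = g * (b : G) * g⁻¹ := congrArg Subtype.val e
    simpa using e1)
  obtain ⟨v, hv⟩ := Finite.surjective_of_injective hF ⟨_, hx⟩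
  have e1 : g * (v : G) * g⁻¹ = g * x * g⁻¹ := congrArg Subtype.val hv
  have e2 : (v : G) = x := by simpa using e1
  rw [← e2]
  exact v.2

/-- Orbit and stabilizer for the conjugation action. -/
theorem orbit_count {H : Subgroup G} {u : G} (hR : Subgroup.centralizer ({u} : Set G) ≤ H) {A : Set G}
    (hA : ∀ g ∈ H, g * u * g⁻¹ ∈ A) (hA' : ∀ y ∈ A, ∃ g ∈ H, g * u * g⁻¹ = y) :
    Nat.card H = Nat.card (Subgroup.centralizer ({u} : Set G)) * Nat.card A := by
  classical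
  choose s hs hs' using hA'
  let f : H → A := fun g => ⟨g * u * g⁻¹, hA g g.2⟩
  have hmem : ∀ y : H, (s (f y) (f y).2)⁻¹ * (y : G) ∈ Subgroup.centralizer ({u} : Set G) := by
    intro y
    rw [Subgroup.mem_centralizer_singleton_iff]
    have e : s (f y) (f y).2 * u * (s (f y) (f y).2)⁻¹ = y * u * (y : G)⁻¹ := hs' _ _
    obtain ⟨c, hc⟩ : ∃ c, c = s (f y) (f y).2 := ⟨_, rfl⟩
    rw [← hc] at e ⊢
    have e1 : c⁻¹ * (y : G) * u = c⁻¹ * ((y : G) * u * (y : G)⁻¹) * y := by group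
    rw [e1, ← e]
    group
  let F : H → Subgroup.centralizer ({u} : Set G) × A := fun y => (⟨_, hmem y⟩, f y)
  have hF : Function.Bijective F := by
    constructor
    · intro y y' e
      have e1 : f y = f y' := congrArg Prod.snd e
      have e2 : (s (f y) (f y).2)⁻¹ * (y : G) = (s (f y') (f y').2)⁻¹ * (y' : G) :=
        congrArg (fun p => (p.1 : G)) e
      rw [← e1] at e2
      exact Subtype.ext (mul_left_cancel e2)
    · rintro ⟨r, a⟩
      have hrH := hR r.2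
      have hr := r.2
      rw [Subgroup.mem_centralizer_singleton_iff] at hr
      let y : H := ⟨s a a.2 * r, (H.mul_mem (hs a a.2) hrH)⟩
      have e : f y = a := by
        apply Subtype.ext
        change (s a a.2 * r) * u * (s a a.2 * r)⁻¹ = a
        have e1 : (s a a.2 * r) * u * (s a a.2 * (r : G))⁻¹ = s a a.2 * ((r : G) * u) * (r : G)⁻¹ * (s a a.2)⁻¹ := by
          group
        rw [e1, hr]
        have e2 : s a a.2 * (u * (r : G)) * (r : G)⁻¹ * (s a a.2)⁻¹ = s a a.2 * u * (s a a.2)⁻¹ := by group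
        rw [e2, hs' a a.2]
      refine ⟨y, ?_⟩
      apply Prod.ext
      · apply Subtype.ext
        change (s (f y) (f y).2)⁻¹ * (y : G) = r
        rw [e]
        change (s a a.2)⁻¹ * (s a a.2 * r) = r
        group
      · exact e
  have := Nat.card_congr (Equiv.ofBijective F hF)
  rwa [Nat.card_prod] at this

/-- There is no subgroup of index `4`. -/
theorem no_index4 [IsSimpleGroup G] (hN : Nat.card G = 5616) (H : Subgroup G) (hi : H.index = 4) : False := by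
  let φ := MulAction.toPermHom G (G ⧸ H)
  have hker : φ.ker ≤ H := by
    intro g hg
    have h1 : φ g = 1 := hg
    have h2 : g • ((1 : G) : G ⧸ H) = ((1 : G) : G ⧸ H) := by
      have := congrArg (fun p : Equiv.Perm (G ⧸ H) => p ((1 : G) : G ⧸ H)) h1
      exact this
    have h3 : ((g * 1 : G) : G ⧸ H) = ((1 : G) : G ⧸ H) := h2
    rw [QuotientGroup.eq] at h3
    simpa using h3
  rcases (MonoidHom.normal_ker φ).eq_bot_or_eq_top with h0 | h0
  · have hinj : Function.Injective φ := (MonoidHom.ker_eq_bot_iff φ).mp h0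
    have h1 := Subgroup.card_dvd_of_injective φ hinj
    rw [Nat.card_perm, hN] at h1
    have h2 : Nat.card (G ⧸ H) = 4 := hi
    rw [h2] at h1
    norm_num [Nat.factorial] at h1
  · rw [h0] at hker
    have : H = ⊤ := top_le_iff.mp hker
    rw [this, Subgroup.index_top] at hi
    omega

/-- A subgroup normalizing a root subgroup inside the centralizer of an involution has at most twelve elements. -/
theorem card_le_12 {c y : G} {ι' : Gam →* G} (h' : Emb ι' c) (hy : y * c = c * y) (hy3 : y ^ 3 = 1) (hy1 : y ≠ 1)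
    (S : Subgroup G) (hS : ∀ x ∈ S, x * c = c * x) (hS' : ∀ x ∈ S, x * y * x⁻¹ = y ∨ x * y * x⁻¹ = y⁻¹) :
    Nat.card S ≤ 12 := by
  classical
  obtain ⟨c₀, rfl⟩ := h'.cent y hy
  have hc3 : c₀ ^ 3 = 1 := h'.inj (by rw [map_pow, hy3, map_one])
  have hc1 : c₀ ≠ 1 := by
    rintro rfl
    exact hy1 (map_one _)
  have hex : ∀ x : S, ∃ γ : Gam, ι' γ = x := fun x => h'.cent x (hS x x.2)
  choose γ hγ using hex
  have hp : ∀ x : S, γ x * c₀ * (γ x)⁻¹ = c₀ ∨ γ x * c₀ * (γ x)⁻¹ = c₀⁻¹ := by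
    intro x
    rcases hS' x x.2 with h1 | h1
    · left
      apply h'.inj
      rw [map_mul, map_mul, map_inv, hγ, h1]
    · right
      apply h'.inj
      rw [map_mul, map_mul, map_inv, map_inv, hγ, h1]
  let F : S → {x : Gam // x * c₀ * x⁻¹ = c₀ ∨ x * c₀ * x⁻¹ = c₀⁻¹} := fun x => ⟨γ x, hp x⟩
  have hF : Function.Injective F := by
    intro x x' e
    have e1 : γ x = γ x' := congrArg Subtype.val e
    apply Subtype.ext
    rw [← hγ x, ← hγ x', e1]
  have h1 := Nat.card_le_card_of_injective F hF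
  have e : Nat.card {x : Gam // x * c₀ * x⁻¹ = c₀ ∨ x * c₀ * x⁻¹ = c₀⁻¹} = 12 := by
    rw [Nat.card_eq_fintype_card, Fintype.card_subtype, norm12 c₀ hc3 hc1]
  rw [e] at h1
  exact h1

theorem inv_ne_self {x : G} (h3 : x ^ 3 = 1) (h1 : x ≠ 1) : x⁻¹ ≠ x := by
  intro h2
  apply h1
  have h4 : x * x = 1 := by
    calc x * x = x⁻¹ * x := by rw [h2]
      _ = 1 := inv_mul_cancel x
  have h5 : x ^ 3 = x * (x * x) := by rw [pow_succ, pow_two, mul_assoc]
  rw [h5, h4, mul_one] at h3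
  exact h3

theorem card_five {a₁ a₂ a₃ a₄ a₅ : G} {A : Set G} (h1 : a₁ ∈ A) (h2 : a₂ ∈ A) (h3 : a₃ ∈ A) (h4 : a₄ ∈ A) (h5 : a₅ ∈ A)
    (d12 : a₁ ≠ a₂) (d13 : a₁ ≠ a₃) (d14 : a₁ ≠ a₄) (d15 : a₁ ≠ a₅) (d23 : a₂ ≠ a₃) (d24 : a₂ ≠ a₄) (d25 : a₂ ≠ a₅)
    (d34 : a₃ ≠ a₄) (d35 : a₃ ≠ a₅) (d45 : a₄ ≠ a₅) : 5 ≤ Nat.card A := by
  classical
  have hsub : (↑({a₁, a₂, a₃, a₄, a₅} : Finset G) : Set G) ⊆ A := by
    intro x hx
    simp only [Finset.coe_insert, Finset.coe_singleton, Set.mem_insert_iff, Set.mem_singleton_iff] at hx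
    rcases hx with rfl | rfl | rfl | rfl | rfl <;> assumption
  have hc : ({a₁, a₂, a₃, a₄, a₅} : Finset G).card = 5 := by
    rw [Finset.card_insert_of_notMem (by simp [d12, d13, d14, d15]),
      Finset.card_insert_of_notMem (by simp [d23, d24, d25]),
      Finset.card_insert_of_notMem (by simp [d34, d35]),
      Finset.card_insert_of_notMem (by simp [d45]), Finset.card_singleton]
  have h6 := Set.ncard_le_ncard hsub (Set.toFinite A)
  rw [Set.ncard_coe_finset, hc] at h6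
  rwa [Nat.card_coe_set_eq]

theorem card_le_of_sub_diff {V : Subgroup G} {A : Set G} (hA : A ⊆ (V : Set G) \ {1}) : Nat.card A + 1 ≤ Nat.card V := by
  have h1 := Set.ncard_le_ncard hA (Set.toFinite _)
  have h2 : ((V : Set G) \ {1}).ncard + 1 = (V : Set G).ncard :=
    Set.ncard_sdiff_singleton_add_one (one_mem V) (Set.toFinite _)
  have h3 : Nat.card V = (V : Set G).ncard := Nat.card_coe_set_eq (V : Set G)
  rw [Nat.card_coe_set_eq, h3]
  omega

theorem Y_cases : ∀ k : ℕ, k ≤ 26 → 5 ≤ k → 54 * k ∣ 5616 → 4 ∣ 54 * k → k = 8 ∨ k = 26 := by decide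

set_option maxHeartbeats 4000000 in
/-- **`Q` is not abelian.** -/
theorem nonabelian [IsSimpleGroup G] (hG : ∀ (f : G →* ℤˣ) (g : G), f g = 1) (hN : Nat.card G = 5616) (h : Emb ι t)
    (hQ : Root ι Q) : ¬ (∀ x ∈ Q, ∀ y ∈ Q, x * y = y * x) := by
  intro hab
  classical
  haveI f2 : Fact (Nat.Prime 2) := ⟨Nat.prime_two⟩
  obtain ⟨u, hu⟩ : ∃ u, u = ι u0 := ⟨_, rfl⟩
  obtain ⟨β, hβ⟩ : ∃ β, β = ι b := ⟨_, rfl⟩
  have hu3 : u ^ 3 = 1 := hu ▸ u_cube ι
  have hu1 : u ≠ 1 := hu ▸ u_ne h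
  have huQ : u ∈ Q := hu ▸ hQ.u_mem
  have htu : t * u * t⁻¹ = u := by
    rw [hu, ← comm_t_u h]
    group
  have hβu : β * u * β⁻¹ = u⁻¹ := by
    rw [hu, hβ]
    exact beta_u ι
  have htt := h.t_sq
  have htinv := h.t_inv
  have hββ : β * β = 1 := hβ ▸ beta_sq ι
  have hβt : β * t = t * β := hβ ▸ beta_t h
  have hβ1 : β ≠ 1 := hβ ▸ beta_ne h
  let N := Subgroup.normalizer (Q : Set G)
  have hcN : ∀ {g : G}, (g * u * g⁻¹ = u ∨ g * u * g⁻¹ = u⁻¹) → g ∈ N := by
    intro g hg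
    exact mem_normalizer_of_conj fun x hx => hQ.conj_mem (by rw [← hu]; exact hg) hx
  have hRN : Subgroup.centralizer ({u} : Set G) ≤ N := by
    intro x hx
    rw [Subgroup.mem_centralizer_singleton_iff] at hx
    apply hcN
    left
    rw [hx]
    group
  let Y : Set G := {y | y ∈ Q ∧ IsConj u y}
  have hY1 : ∀ g ∈ N, g * u * g⁻¹ ∈ Y := by
    intro g hg
    exact ⟨(Subgroup.mem_normalizer_iff.mp hg u).mp huQ, isConj_iff.mpr ⟨g, rfl⟩⟩
  have hY2 : ∀ y ∈ Y, ∃ g ∈ N, g * u * g⁻¹ = y := by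
    rintro y ⟨hyQ, hyc⟩
    obtain ⟨g, hg⟩ := isConj_iff.mp hyc
    refine ⟨g, ?_, hg⟩
    obtain ⟨Q', hQ'⟩ := exists_root hG hN (emb_conj h g)
    have hι : conjHom g ι u0 = y := by
      rw [conjHom_apply, ← hu, hg]
    have hle : Q ≤ Q' := by
      intro x hx
      rw [hQ'.mem, hι]
      exact ⟨hab x hx y hyQ, hQ.pow hx⟩
    have heq : Q = Q' := Subgroup.eq_of_le_of_card_ge hle (by rw [hQ.card, hQ'.card])
    apply mem_normalizer_of_conj
    intro x hx
    rw [heq, hQ'.mem, hι]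
    rw [← hg]
    constructor
    · have e1 : (g * x * g⁻¹) * (g * u * g⁻¹) = g * (x * u) * g⁻¹ := by group
      have e2 : (g * u * g⁻¹) * (g * x * g⁻¹) = g * (u * x) * g⁻¹ := by group
      rw [e1, e2, hu, hQ.comm hx]
    · rw [conj_pow, hQ.pow hx]
      group
  have hcard := orbit_count hRN hY1 hY2
  rw [hu, card_R hG hN h] at hcard
  -- the two further elements
  have hβ' : t * β ≠ 1 := hβ ▸ t_b_ne h
  have htβ2 : (t * β) * (t * β) = 1 := hβ ▸ t_b_sq h
  have htβt : (t * β) * t = t * (t * β) := by rw [mul_assoc, hβt, ← mul_assoc]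
  have htβu : (t * β) * u * (t * β)⁻¹ = u⁻¹ := by
    have e : (t * β) * u * (t * β)⁻¹ = t * (β * u * β⁻¹) * t⁻¹ := by group
    rw [e, hβu]
    have e2 : t * u⁻¹ * t⁻¹ = (t * u * t⁻¹)⁻¹ := by group
    rw [e2, htu]
  have ht' : t * (t * β) ≠ 1 := by
    rw [← mul_assoc, htt, one_mul]
    exact hβ1
  obtain ⟨w₁, hw₁Q, hw₁1, hw₁β, hw₁t, hw₁3⟩ := exists_w hG h hQ hββ hβ1 hβt (by rw [← hu]; exact hβu) hβ'
  obtain ⟨w₂, hw₂Q, hw₂1, hw₂β, hw₂t, hw₂3⟩ := exists_w hG h hQ htβ2 hβ' htβt (by rw [← hu]; exact htβu) ht'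
  have hβo : orderOf β = 2 := order_two hββ hβ1
  have htβo : orderOf (t * β) = 2 := order_two htβ2 hβ'
  have hβw₂ : β * w₂ * β⁻¹ = w₂⁻¹ := by
    have e1 : β = t * (t * β) := by rw [← mul_assoc, htt, one_mul]
    have e2 : (t * β) * w₂ * (t * β)⁻¹ = w₂ := by
      rw [← hw₂β]
      group
    calc β * w₂ * β⁻¹ = t * ((t * β) * w₂ * (t * β)⁻¹) * t⁻¹ := by
          conv_lhs => rw [e1]
          group
      _ = w₂⁻¹ := by rw [e2, hw₂t]
  -- the set `Y` has at least five elements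
  have hw₁c : IsConj u w₁ := by
    rw [hu]
    exact order3_isConj hG h hβo hw₁β hw₁3 hw₁1
  have hw₂c : IsConj u w₂ := by
    rw [hu]
    exact order3_isConj hG h htβo hw₂β hw₂3 hw₂1
  have hm1 : u ∈ Y := ⟨huQ, IsConj.refl u⟩
  have hm2 : u⁻¹ ∈ Y := ⟨Q.inv_mem huQ, isConj_iff.mpr ⟨β, hβu⟩⟩
  have hm3 : w₁ ∈ Y := ⟨hw₁Q, hw₁c⟩
  have hm4 : w₁⁻¹ ∈ Y := ⟨Q.inv_mem hw₁Q, hw₁c.trans (isConj_iff.mpr ⟨t, hw₁t⟩)⟩
  have hm5 : w₂ ∈ Y := ⟨hw₂Q, hw₂c⟩
  have hi1 := inv_ne_self hu3 hu1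
  have hi2 := inv_ne_self hw₁3 hw₁1
  have hi3 := inv_ne_self hw₂3 hw₂1
  have hu_w : ∀ {w : G}, w ^ 3 = 1 → w ≠ 1 → t * w * t⁻¹ = w⁻¹ → u ≠ w := by
    rintro w h3 h1 h2 rfl
    rw [htu] at h2
    exact hi1 h2.symm
  have huinv_w : ∀ {w : G}, w ^ 3 = 1 → w ≠ 1 → t * w * t⁻¹ = w⁻¹ → u⁻¹ ≠ w := by
    rintro w h3 h1 h2 rfl
    have e : t * u⁻¹ * t⁻¹ = (t * u * t⁻¹)⁻¹ := by group
    rw [e, htu] at h2
    exact hi1 (by rw [inv_inv] at h2; exact h2)
  have hw₁w₂ : ∀ {w : G}, β * w * β⁻¹ = w → w⁻¹ ≠ w₂ ∧ w ≠ w₂ := by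
    intro w hw
    constructor
    · rintro rfl
      have e : β * w⁻¹ * β⁻¹ = (β * w * β⁻¹)⁻¹ := by group
      rw [e, hw, inv_inv] at hβw₂
      exact hi3 (by rw [inv_inv]; exact hβw₂.symm)
    · rintro rfl
      rw [hw] at hβw₂
      exact hi3 hβw₂.symm
  have hβw₁ : β * w₁ * β⁻¹ = w₁ := by
    rw [← hw₁β]
    group
  have hinv3 : (w₁⁻¹) ^ 3 = 1 := by rw [inv_pow, hw₁3, inv_one]
  have hinv1 : w₁⁻¹ ≠ 1 := inv_ne_one.mpr hw₁1
  have htw₁inv : t * w₁⁻¹ * t⁻¹ = (w₁⁻¹)⁻¹ := by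
    have e : t * w₁⁻¹ * t⁻¹ = (t * w₁ * t⁻¹)⁻¹ := by group
    rw [e, hw₁t]
  have h5 : 5 ≤ Nat.card Y := card_five hm1 hm2 hm3 hm4 hm5 hi1.symm (hu_w hw₁3 hw₁1 hw₁t)
    (hu_w hinv3 hinv1 htw₁inv) (hu_w hw₂3 hw₂1 hw₂t) (huinv_w hw₁3 hw₁1 hw₁t) (huinv_w hinv3 hinv1 htw₁inv)
    (huinv_w hw₂3 hw₂1 hw₂t) hi2.symm (hw₁w₂ hβw₁).2 (hw₁w₂ hβw₁).1
  have hle26 : Nat.card Y ≤ 26 := by
    have hsub : Y ⊆ (Q : Set G) \ {1} := by
      rintro y ⟨hyQ, hyc⟩
      refine ⟨hyQ, ?_⟩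
      rintro rfl
      exact hu1 (isConj_one_right.mp hyc.symm)
    have := card_le_of_sub_diff hsub
    rw [hQ.card] at this
    omega
  -- the four-group
  let E : Subgroup G := (Subgroup.centralizer ({b} : Set Gam)).map ι
  have hEc : Nat.card E = 4 := by
    rw [Subgroup.card_map_of_injective h.inj]
    have e : Nat.card (Subgroup.centralizer ({b} : Set Gam)) = Nat.card {x : Gam // x * b = b * x} :=
      Nat.card_congr (Equiv.subtypeEquivRight fun c => Subgroup.mem_centralizer_singleton_iff)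
    rw [e, Nat.card_eq_fintype_card, Fintype.card_subtype, card_cent_b]
  have hEN : E ≤ N := by
    rintro _ ⟨c, hc, rfl⟩
    have hc' : c * b = b * c := Subgroup.mem_centralizer_singleton_iff.mp hc
    rcases cent_b c hc' with rfl | rfl | rfl | rfl
    · rw [map_one]
      exact one_mem _
    · rw [h.hz]
      exact hcN (Or.inl htu)
    · rw [← hβ]
      exact hcN (Or.inr hβu)
    · rw [map_mul, h.hz, ← hβ]
      exact hcN (Or.inr htβu)
  have htE : t ∈ E := ⟨z, Subgroup.mem_centralizer_singleton_iff.mpr (z_comm b).symm, h.hz⟩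
  have hβE : β ∈ E := ⟨b, Subgroup.mem_centralizer_singleton_iff.mpr rfl, hβ.symm⟩
  have hE : 4 ∣ Nat.card N := by
    have := Subgroup.card_dvd_of_le hEN
    rwa [hEc] at this
  have hdvd : Nat.card N ∣ 5616 := hN ▸ Subgroup.card_subgroup_dvd_card N
  rw [hcard] at hE hdvd
  rcases Y_cases _ hle26 h5 hdvd hE with h8 | h26
  · -- order `432`
    have hc : Nat.card N = 432 := by rw [hcard, h8]
    have hE'c : Nat.card (E.subgroupOf N) = 2 ^ 2 := by
      rw [Nat.card_congr (Subgroup.subgroupOfEquivOfLe hEN).toEquiv, hEc]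
      norm_num
    obtain ⟨K, hKc, hEK⟩ := Sylow.exists_subgroup_card_pow_prime_le 2 (n := 2) (m := 4)
      (by rw [hc]; norm_num) (E.subgroupOf N) hE'c (by norm_num)
    have hKp : IsPGroup 2 K := IsPGroup.of_card hKc
    haveI : Nontrivial K := by
      rw [← Finite.one_lt_card_iff_nontrivial, hKc]
      norm_num
    have hZ := hKp.center_nontrivial
    have h2Z : 2 ∣ Nat.card (Subgroup.center K) := by
      obtain ⟨k, hk⟩ := IsPGroup.iff_card.mp (hKp.to_subgroup (Subgroup.center K))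
      have h1 : 1 < Nat.card (Subgroup.center K) := Finite.one_lt_card_iff_nontrivial.mpr hZ
      rw [hk] at h1 ⊢
      refine dvd_pow_self 2 ?_
      rintro rfl
      simp at h1
    obtain ⟨c', hc'⟩ := exists_prime_orderOf_dvd_card' 2 h2Z
    obtain ⟨c, hcdef⟩ : ∃ c : G, c = (((c' : K) : N) : G) := ⟨_, rfl⟩
    have hco : orderOf c = 2 := by
      rw [hcdef, Subgroup.orderOf_coe, Subgroup.orderOf_coe, Subgroup.orderOf_coe]
      exact hc'
    have hcomm : ∀ x : K, ((x : N) : G) * c = c * ((x : N) : G) := by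
      intro x
      have h1 := (Subgroup.mem_center_iff.mp c'.2) x
      have h2 := congrArg (fun y : K => ((y : N) : G)) h1
      rw [hcdef]
      exact h2
    have hEK' : ∀ e ∈ E, ∃ x : K, ((x : N) : G) = e := by
      intro e he
      have h1 : (⟨e, hEN he⟩ : N) ∈ E.subgroupOf N := he
      exact ⟨⟨_, hEK h1⟩, rfl⟩
    have hct : c * t = t * c := by
      obtain ⟨x, hx⟩ := hEK' t htE
      have := hcomm x
      rw [hx] at this
      exact this.symm
    have hcβ : c * β = β * c := by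
      obtain ⟨x, hx⟩ := hEK' β hβE
      have := hcomm x
      rw [hx] at this
      exact this.symm
    have hex : ∃ y ∈ Q, y ≠ 1 ∧ y ^ 3 = 1 ∧ y * c = c * y := by
      obtain ⟨γ, hγ⟩ := h.cent c hct
      have hγb : γ * b = b * γ := by
        apply h.inj
        rw [map_mul, map_mul, hγ, ← hβ]
        exact hcβ
      rcases cent_b γ hγb with rfl | rfl | rfl | rfl
      · exfalso
        rw [map_one] at hγ
        rw [← hγ, orderOf_one] at hco
        omega
      · rw [h.hz] at hγ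
        refine ⟨u, huQ, hu1, hu3, ?_⟩
        rw [← hγ, hu]
        exact comm_t_u h
      · rw [← hβ] at hγ
        rw [← hγ]
        exact ⟨w₁, hw₁Q, hw₁1, hw₁3, hw₁β⟩
      · rw [map_mul, h.hz, ← hβ] at hγ
        rw [← hγ]
        exact ⟨w₂, hw₂Q, hw₂1, hw₂3, hw₂β⟩
    obtain ⟨y, hyQ, hy1, hy3, hyc⟩ := hex
    obtain ⟨g, -, h'⟩ := exists_emb hG h hco
    have hS : Nat.card (K.map N.subtype) ≤ 12 := by
      refine card_le_12 h' hyc hy3 hy1 _ ?_ ?_
      · rintro _ ⟨x, hx, rfl⟩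
        exact hcomm ⟨x, hx⟩
      · rintro _ ⟨x, hx, rfl⟩
        have hxN := x.2
        have hC := card_inf_dvd hG h hco hQ.card
        have hyC : y ∈ Q ⊓ Subgroup.centralizer ({c} : Set G) := mem_inf_cent hyQ hyc
        have hxc : (x : G) * c = c * x := hcomm ⟨x, hx⟩
        have hxyC : (x : G) * y * (x : G)⁻¹ ∈ Q ⊓ Subgroup.centralizer ({c} : Set G) := by
          refine mem_inf_cent ((Subgroup.mem_normalizer_iff.mp hxN y).mp hyQ) ?_
          have e1 : (x : G) * y * (x : G)⁻¹ * c = (x : G) * y * c * (x : G)⁻¹ := by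
            have e2 : (x : G)⁻¹ * c = c * (x : G)⁻¹ := by
              have : c = (x : G) * c * (x : G)⁻¹ := by rw [hxc]; group
              calc (x : G)⁻¹ * c = (x : G)⁻¹ * ((x : G) * c * (x : G)⁻¹) := by rw [← this]
                _ = c * (x : G)⁻¹ := by group
            rw [mul_assoc, e2]
            group
          rw [e1, mul_assoc (x : G), hyc, ← mul_assoc (x : G), hxc]
          group
        rcases eq_of_card hyC hy1 hy3 hC _ hxyC with h1 | h1 | h1
        · exfalso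
          apply hy1
          have : y = (x : G)⁻¹ * ((x : G) * y * (x : G)⁻¹) * x := by group
          rw [this, h1]
          group
        · exact Or.inl h1
        · right
          change (x : G) * y * (x : G)⁻¹ = y⁻¹
          rw [h1, u_sq_ne hy3 hy1]
    rw [Subgroup.card_map_of_injective N.subtype_injective, hKc] at hS
    norm_num at hS
  · -- index `4`
    have hc : Nat.card N = 1404 := by rw [hcard, h26]
    have hi : N.index = 4 := by
      have := N.card_mul_index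
      rw [hc, hN] at this
      omega
    exact no_index4 hN N hi

end Cfsg.Agent.Lib.Gl23.Loc3
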