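import Mathlib
import Cfsg.Agent.Lib.Gl23.Loc3

/-!
# The center of `Q`, the subgroups of order nine and their normalizers
-/

set_option autoImplicit false
set_option linter.unusedSectionVars false
set_option linter.style.haveILetI false
set_option maxRecDepth 100000

namespace Cfsg.Agent.Lib.Gl23.Loc4

open Cfsg Cfsg.Agent.Lib.Gl23.Model Cfsg.Agent.Lib.Gl23.Local Cfsg.Agent.Lib.Gl23.Simp Cfsg.Agent.Lib.Gl23.Loc0
open Cfsg.Agent.Lib.Gl23.Loc1 Cfsg.Agent.Lib.Gl23.Loc2 Cfsg.Agent.Lib.Gl23.Loc3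

universe u

variable {G : Type u} [Group G] [Finite G] {ι : Gam →* G} {t : G} {Q : Subgroup G}

theorem divisors27 {n : ℕ} (h : n ∣ 27) : n = 1 ∨ n = 3 ∨ n = 9 ∨ n = 27 := by
  have h1 : n ≤ 27 := Nat.le_of_dvd (by norm_num) h
  interval_cases n <;> simp_all

variable [IsSimpleGroup G] (hG : ∀ (f : G →* ℤˣ) (g : G), f g = 1) (hN : Nat.card G = 5616)

include hG hN

/-- **The center of `Q`.** -/
theorem center_eq (h : Emb ι t) (hQ : Root ι Q) {x : G} (hx : x ∈ Q) (hc : ∀ y ∈ Q, x * y = y * x) :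
    x = 1 ∨ x = ι u0 ∨ x = (ι u0) ^ 2 := by
  haveI f3 : Fact (Nat.Prime 3) := ⟨Nat.prime_three⟩
  by_contra hcon
  push_neg at hcon
  obtain ⟨h1, h2, h3⟩ := hcon
  have hna := nonabelian hG hN h hQ
  apply hna
  have huQ := hQ.u_mem
  have hu3 := u_cube ι
  have hu1 := u_ne h
  have huo : orderOf (ι u0) = 3 := orderOf_eq_prime hu3 hu1
  let u' : Q := ⟨ι u0, huQ⟩
  let x' : Q := ⟨x, hx⟩
  have hu'o : orderOf u' = 3 := by
    rw [← Subgroup.orderOf_coe]
    exact huo
  have hu'Z : u' ∈ Subgroup.center Q := by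
    rw [Subgroup.mem_center_iff]
    intro y
    apply Subtype.ext
    exact hQ.comm y.2
  have hx'Z : x' ∈ Subgroup.center Q := by
    rw [Subgroup.mem_center_iff]
    intro y
    apply Subtype.ext
    exact (hc y y.2).symm
  have hle : Subgroup.zpowers u' ≤ Subgroup.center Q := by
    rw [Subgroup.zpowers_le]
    exact hu'Z
  have hlt : Subgroup.zpowers u' < Subgroup.center Q := by
    refine lt_of_le_of_ne hle ?_
    intro e
    rw [← e] at hx'Z
    have hfin : IsOfFinOrder u' := isOfFinOrder_of_finite u'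
    obtain ⟨k, hk⟩ := (hfin.mem_powers_iff_mem_zpowers).mpr hx'Z
    have hk' : (ι u0) ^ k = x := congrArg Subtype.val hk
    have e1 : (ι u0) ^ k = (ι u0) ^ (k % 3) := by
      conv_lhs => rw [← Nat.div_add_mod k 3, pow_add, pow_mul, hu3, one_pow, one_mul]
    have hk3 : k % 3 = 0 ∨ k % 3 = 1 ∨ k % 3 = 2 := by omega
    rcases hk3 with h0 | h0 | h0 <;> rw [e1, h0] at hk'
    · exact h1 (by rw [← hk']; simp)
    · exact h2 (by rw [← hk']; simp)
    · exact h3 hk'.symm
  have hcard : Nat.card (Subgroup.zpowers u') < Nat.card (Subgroup.center Q) := by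
    by_contra hle'
    exact hlt.ne (Subgroup.eq_of_le_of_card_ge hle (not_lt.mp hle'))
  rw [Nat.card_zpowers, hu'o] at hcard
  have hdvd : Nat.card (Subgroup.center Q) ∣ 27 := by
    have := Subgroup.card_subgroup_dvd_card (Subgroup.center Q)
    rwa [hQ.card] at this
  have hmul := (Subgroup.center Q).card_mul_index
  rw [hQ.card] at hmul
  have hcomm : ∀ a b : Q, a * b = b * a := by
    rcases divisors27 hdvd with h0 | h0 | h0 | h0
    · omega
    · omega
    · have hi : (Subgroup.center Q).index = 3 := by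
        rw [h0] at hmul
        omega
      have hq : Nat.card (Q ⧸ Subgroup.center Q) = 3 := hi
      haveI : IsCyclic (Q ⧸ Subgroup.center Q) := isCyclic_of_prime_card hq
      haveI := isMulCommutative_of_isCyclic_quotient_center_self Q
      exact fun a b => IsMulCommutative.is_comm.comm a b
    · have htop : Subgroup.center Q = ⊤ := by
        apply Subgroup.eq_top_of_card_eq
        rw [h0, hQ.card]
      intro a b
      have : a ∈ Subgroup.center Q := by
        rw [htop]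
        exact Subgroup.mem_top a
      exact (Subgroup.mem_center_iff.mp this b).symm
  intro a ha b hb
  exact congrArg Subtype.val (hcomm ⟨a, ha⟩ ⟨b, hb⟩)

omit hG hN [IsSimpleGroup G] in
/-- Commutators in `Q` are powers of `u`. -/
theorem comm_mem (h : Emb ι t) (hQ : Root ι Q) {x y : G} (hx : x ∈ Q) (hy : y ∈ Q) :
    x * y * x⁻¹ * y⁻¹ = 1 ∨ x * y * x⁻¹ * y⁻¹ = ι u0 ∨ x * y * x⁻¹ * y⁻¹ = (ι u0) ^ 2 := by
  haveI f3 : Fact (Nat.Prime 3) := ⟨Nat.prime_three⟩
  have huQ := hQ.u_mem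
  have hu3 := u_cube ι
  have hu1 := u_ne h
  have huo : orderOf (ι u0) = 3 := orderOf_eq_prime hu3 hu1
  let u' : Q := ⟨ι u0, huQ⟩
  have hu'o : orderOf u' = 3 := by
    rw [← Subgroup.orderOf_coe]
    exact huo
  have hu'Z : u' ∈ Subgroup.center Q := by
    rw [Subgroup.mem_center_iff]
    intro y
    apply Subtype.ext
    exact hQ.comm y.2
  let U : Subgroup Q := Subgroup.zpowers u'
  haveI hUn : U.Normal := by
    refine ⟨?_⟩
    intro n hn g
    have hnZ : n ∈ Subgroup.center Q := (Subgroup.zpowers_le.mpr hu'Z) hn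
    have := Subgroup.mem_center_iff.mp hnZ g
    rw [this]
    simpa using hn
  have hUc : Nat.card U = 3 := by
    change Nat.card (Subgroup.zpowers u') = 3
    rw [Nat.card_zpowers, hu'o]
  have hqc : Nat.card (Q ⧸ U) = 3 ^ 2 := by
    have hmul := U.card_mul_index
    rw [hUc, hQ.card] at hmul
    have : U.index = 9 := by omega
    change U.index = 3 ^ 2
    rw [this]
    norm_num
  have hcomm := IsPGroup.isMulCommutative_of_card_eq_prime_sq (G := Q ⧸ U) (p := 3) hqc
  let x' : Q := ⟨x, hx⟩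
  let y' : Q := ⟨y, hy⟩
  have e1 : ((y'⁻¹ * x'⁻¹ : Q) : Q ⧸ U) = ((x'⁻¹ * y'⁻¹ : Q) : Q ⧸ U) := by
    rw [QuotientGroup.mk_mul, QuotientGroup.mk_mul]
    exact hcomm.is_comm.comm _ _
  rw [QuotientGroup.eq] at e1
  have e2 : (y'⁻¹ * x'⁻¹)⁻¹ * (x'⁻¹ * y'⁻¹) ∈ U := e1
  have hfin : IsOfFinOrder u' := isOfFinOrder_of_finite u'
  obtain ⟨k, hk⟩ := (hfin.mem_powers_iff_mem_zpowers).mpr e2
  have hk' : (ι u0) ^ k = x * y * x⁻¹ * y⁻¹ := by
    have := congrArg Subtype.val hk
    simp only [Subgroup.coe_pow, Subgroup.coe_mul, Subgroup.coe_inv, mul_inv_rev, inv_inv] at this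
    rw [this]
    simp [x', y', u', mul_assoc]
  have e3 : (ι u0) ^ k = (ι u0) ^ (k % 3) := by
    conv_lhs => rw [← Nat.div_add_mod k 3, pow_add, pow_mul, hu3, one_pow, one_mul]
  rw [← hk', e3]
  have hk3 : k % 3 = 0 ∨ k % 3 = 1 ∨ k % 3 = 2 := by omega
  rcases hk3 with h0 | h0 | h0 <;> rw [h0] <;> simp

/-- The subgroup of order nine attached to `w`. -/
theorem card_V (h : Emb ι t) (hQ : Root ι Q) {w : G} (hwQ : w ∈ Q) (hw3 : w ^ 3 = 1) (hw1 : w ≠ 1)
    (hwu : w ≠ ι u0) (hwu2 : w ≠ (ι u0) ^ 2) : Nat.card (Q ⊓ Subgroup.centralizer ({w} : Set G) : Subgroup G) = 9 := by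
  obtain ⟨V, hV⟩ : ∃ V : Subgroup G, V = Q ⊓ Subgroup.centralizer ({w} : Set G) := ⟨_, rfl⟩
  rw [← hV]
  have hVle : V ≤ Q := by rw [hV]; exact inf_le_left
  have hdvd : Nat.card V ∣ 27 := by
    have := Subgroup.card_dvd_of_le hVle
    rwa [hQ.card] at this
  have hwV : w ∈ V := by
    rw [hV]
    exact mem_inf_cent hwQ rfl
  have huV : ι u0 ∈ V := by
    rw [hV]
    exact mem_inf_cent hQ.u_mem (hQ.comm hwQ).symm
  have hwo : orderOf w = 3 := orderOf_eq_prime hw3 hw1
  have hne3 : Nat.card V ≠ 3 := by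
    intro h3
    rcases eq_of_card hwV hw1 hw3 (by rw [h3]) _ huV with h0 | h0 | h0
    · exact u_ne h h0
    · exact hwu h0.symm
    · apply hwu2
      rw [h0, ← pow_mul]
      have e : w ^ (2 * 2) = w ^ 3 * w := by rw [← pow_succ]
      rw [e, hw3, one_mul]
  have hne1 : Nat.card V ≠ 1 := by
    intro h1
    have := Subgroup.orderOf_dvd_natCard V hwV
    rw [hwo, h1] at this
    omega
  have hne27 : Nat.card V ≠ 27 := by
    intro h27
    have heq : V = Q := Subgroup.eq_of_le_of_card_ge hVle (by rw [hQ.card, h27])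
    rcases center_eq hG hN h hQ hwQ (fun y hy => by
      rw [← heq, hV] at hy
      exact (Subgroup.mem_centralizer_singleton_iff.mp (Subgroup.mem_inf.mp hy).2).symm) with h0 | h0 | h0
    · exact hw1 h0
    · exact hwu h0
    · exact hwu2 h0
  rcases divisors27 hdvd with h0 | h0 | h0 | h0
  · exact absurd h0 hne1
  · exact absurd h0 hne3
  · exact h0
  · exact absurd h0 hne27

omit hG hN [IsSimpleGroup G] in
/-- `Q` normalizes the subgroup of order nine. -/
theorem Q_norm_V (h : Emb ι t) (hQ : Root ι Q) {w q : G} (hwQ : w ∈ Q) (hq : q ∈ Q) :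
    q ∈ Subgroup.normalizer ((Q ⊓ Subgroup.centralizer ({w} : Set G) : Subgroup G) : Set G) := by
  apply mem_normalizer_of_conj
  intro x hx
  obtain ⟨hxQ, hxw⟩ := Subgroup.mem_inf.mp hx
  rw [Subgroup.mem_centralizer_singleton_iff] at hxw
  refine mem_inf_cent (Q.mul_mem (Q.mul_mem hq hxQ) (Q.inv_mem hq)) ?_
  -- `x` commutes with `q⁻¹ w q`
  have hu : Commute x (ι u0) := hQ.comm hxQ
  have hc : Commute x (q⁻¹ * w * q * w⁻¹) := by
    have e := comm_mem h hQ (Q.inv_mem hq) hwQ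
    rw [inv_inv] at e
    rcases e with e | e | e
    · rw [e]
      exact Commute.one_right x
    · rw [e]
      exact hu
    · rw [e]
      exact hu.pow_right 2
  have hw : Commute x w := hxw
  have hc2 : Commute x (q⁻¹ * w * q) := by
    have e : q⁻¹ * w * q = (q⁻¹ * w * q * w⁻¹) * w := by group
    rw [e]
    exact hc.mul_right hw
  have hc3 : x * (q⁻¹ * w * q) = (q⁻¹ * w * q) * x := hc2
  calc q * x * q⁻¹ * w = q * (x * (q⁻¹ * w * q)) * q⁻¹ := by group
    _ = q * ((q⁻¹ * w * q) * x) * q⁻¹ := by rw [hc3]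
    _ = w * (q * x * q⁻¹) := by group

end Cfsg.Agent.Lib.Gl23.Loc4
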