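import Mathlib
import Cfsg.Agent.Lib.Gl23.Loc4

/-!
# The two subgroups of index `13`
-/

set_option autoImplicit false
set_option linter.unusedSectionVars false
set_option linter.style.haveILetI false
set_option maxRecDepth 100000

namespace Cfsg.Agent.Lib.Gl23.Loc5

open Cfsg Cfsg.Agent.Lib.Gl23.Model Cfsg.Agent.Lib.Gl23.Local Cfsg.Agent.Lib.Gl23.Simp Cfsg.Agent.Lib.Gl23.Loc0
open Cfsg.Agent.Lib.Gl23.Loc1 Cfsg.Agent.Lib.Gl23.Loc2 Cfsg.Agent.Lib.Gl23.Loc3 Cfsg.Agent.Lib.Gl23.Loc4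

universe u

variable {G : Type u} [Group G] [Finite G] {ι : Gam →* G} {t : G} {Q : Subgroup G}

theorem P_cases : ∀ k : ℕ, k ≤ 8 → 5 ≤ k → 54 * k ∣ 5616 → k = 8 := by decide

/-- A normalizing element. -/
theorem conj_V (hQ : Root ι Q) {g w : G} (hg : g * ι u0 * g⁻¹ = ι u0 ∨ g * ι u0 * g⁻¹ = (ι u0)⁻¹)
    (hgw : g * w * g⁻¹ = w ∨ g * w * g⁻¹ = w⁻¹) :
    g ∈ Subgroup.normalizer ((Q ⊓ Subgroup.centralizer ({w} : Set G) : Subgroup G) : Set G) := by
  apply mem_normalizer_of_conj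
  intro x hx
  obtain ⟨hxQ, hxw⟩ := Subgroup.mem_inf.mp hx
  rw [Subgroup.mem_centralizer_singleton_iff] at hxw
  refine mem_inf_cent (hQ.conj_mem hg hxQ) ?_
  have h1 : (g * x * g⁻¹) * (g * w * g⁻¹) = (g * w * g⁻¹) * (g * x * g⁻¹) := by
    have e1 : (g * x * g⁻¹) * (g * w * g⁻¹) = g * (x * w) * g⁻¹ := by group
    have e2 : (g * w * g⁻¹) * (g * x * g⁻¹) = g * (w * x) * g⁻¹ := by group
    rw [e1, e2, hxw]
  rcases hgw with hgw | hgw
  · rwa [hgw] at h1
  · rw [hgw] at h1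
    have h2 : Commute (g * x * g⁻¹) w⁻¹ := h1
    exact Commute.inv_right_iff.mp h2

/-- The elements of the centralizer of `u` are in `Q`, up to `t`. -/
theorem mem_or [IsSimpleGroup G] (hG : ∀ (f : G →* ℤˣ) (g : G), f g = 1) (hN : Nat.card G = 5616) (h : Emb ι t)
    (hQ : Root ι Q) {x : G} (hx : x * ι u0 = ι u0 * x) : x ∈ Q ∨ x * t ∈ Q := by
  have hR := card_R hG hN h
  obtain ⟨R, hRe⟩ : ∃ R, R = Subgroup.centralizer ({ι u0} : Set G) := ⟨_, rfl⟩
  rw [← hRe] at hR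
  have hmemR : ∀ {x : G}, x ∈ R ↔ x * ι u0 = ι u0 * x := by
    intro x
    rw [hRe, Subgroup.mem_centralizer_singleton_iff]
  have hQR : Q ≤ R := fun y hy => hmemR.mpr (hQ.comm hy)
  have hK : (Q.subgroupOf R).index = 2 := by
    have h1 := (Q.subgroupOf R).card_mul_index
    rw [Nat.card_congr (Subgroup.subgroupOfEquivOfLe hQR).toEquiv, hQ.card, hR] at h1
    omega
  by_cases hxQ : x ∈ Q
  · exact Or.inl hxQ
  right
  have htR : t ∈ R := hmemR.mpr (comm_t_u h).symm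
  have htQ : t ∉ Q := by
    intro ht
    have h1 := hQ.pow ht
    have e : t ^ 27 = t * (t * t) ^ 13 := by
      rw [← pow_two, ← pow_mul, ← pow_succ']
    rw [e, h.t_sq, one_pow, mul_one] at h1
    exact h.t_ne h1
  have h1 := Subgroup.mul_mem_iff_of_index_two hK (a := ⟨x, hmemR.mpr hx⟩) (b := ⟨t, htR⟩)
  have h2 : (⟨x, hmemR.mpr hx⟩ : R) * ⟨t, htR⟩ ∈ Q.subgroupOf R := by
    rw [h1]
    exact ⟨fun h3 => absurd h3 hxQ, fun h3 => absurd h3 htQ⟩
  exact h2

theorem sep {W : Subgroup G} {u p q : G} (hu3 : u ^ 3 = 1) (hu : u ∉ W) (hp : p ∈ W) (hq : q ∈ W)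
    (e : p * u = q * u⁻¹) : False := by
  apply hu
  have e1 : u = q⁻¹ * p := by
    have e2 : p = q * u⁻¹ * u⁻¹ := by
      rw [← e]
      group
    have e3 : u⁻¹ * u⁻¹ = u := by
      have : u ^ 3 = u * u * u := by rw [pow_succ, pow_two]
      rw [this] at hu3
      have e4 : u * u = u⁻¹ := eq_inv_of_mul_eq_one_left hu3
      rw [← e4]
      have e5 : (u * u) * (u * u) = (u * u * u) * u := by group
      rw [e5, hu3, one_mul]
    rw [e2, mul_assoc, e3]
    group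
  rw [e1]
  exact W.mul_mem (W.inv_mem hq) hp

variable [IsSimpleGroup G] (hG : ∀ (f : G →* ℤˣ) (g : G), f g = 1) (hN : Nat.card G = 5616)

include hG hN

/-- **The normalizer of the subgroup of order nine.** -/
theorem card_P (h : Emb ι t) (hQ : Root ι Q) {w : G} (hwQ : w ∈ Q) (hw3 : w ^ 3 = 1) (hw1 : w ≠ 1)
    (hwu : w ≠ ι u0) (hwu2 : w ≠ (ι u0) ^ 2) (hc : IsConj (ι u0) w) (htw : t * w * t⁻¹ = w⁻¹)
    (hβw : ι b * w * (ι b)⁻¹ = w ∨ ι b * w * (ι b)⁻¹ = w⁻¹) :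
    Nat.card (Subgroup.normalizer ((Q ⊓ Subgroup.centralizer ({w} : Set G) : Subgroup G) : Set G)) = 432 ∧
      ∃ Q' : Subgroup G, Nat.card Q' = 27 ∧ (∀ x ∈ Q', x * w = w * x ∧ x ^ 27 = 1) ∧
        Q' ≤ Subgroup.normalizer ((Q ⊓ Subgroup.centralizer ({w} : Set G) : Subgroup G) : Set G) := by
  classical
  obtain ⟨u, hu⟩ : ∃ u, u = ι u0 := ⟨_, rfl⟩
  obtain ⟨β, hβ⟩ : ∃ β, β = ι b := ⟨_, rfl⟩
  rw [← hβ] at hβw
  rw [← hu] at hwu hwu2 hc
  have hu3 : u ^ 3 = 1 := hu ▸ u_cube ι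
  have hu1 : u ≠ 1 := hu ▸ u_ne h
  have huQ : u ∈ Q := hu ▸ hQ.u_mem
  have htu : t * u * t⁻¹ = u := by
    rw [hu, ← comm_t_u h]
    group
  have hβu : β * u * β⁻¹ = u⁻¹ := by
    rw [hu, hβ]
    exact beta_u ι
  obtain ⟨V, hV⟩ : ∃ V : Subgroup G, V = Q ⊓ Subgroup.centralizer ({w} : Set G) := ⟨_, rfl⟩
  rw [← hV]
  have hVcard : Nat.card V = 9 := by
    rw [hV]
    exact card_V hG hN h hQ hwQ hw3 hw1 (hu ▸ hwu) (hu ▸ hwu2)
  let P := Subgroup.normalizer (V : Set G)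
  have hQP : Q ≤ P := by
    intro q hq
    change q ∈ Subgroup.normalizer (V : Set G)
    rw [hV]
    exact Q_norm_V h hQ hwQ hq
  have htP : t ∈ P := by
    change t ∈ Subgroup.normalizer (V : Set G)
    rw [hV]
    exact conj_V hQ (Or.inl (hu ▸ htu)) (Or.inr htw)
  have hβP : β ∈ P := by
    change β ∈ Subgroup.normalizer (V : Set G)
    rw [hV]
    exact conj_V hQ (Or.inr (by rw [← hu]; exact hβu)) hβw
  have hRP : Subgroup.centralizer ({u} : Set G) ≤ P := by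
    intro x hx
    rw [Subgroup.mem_centralizer_singleton_iff] at hx
    rcases mem_or hG hN h hQ (hu ▸ hx) with h1 | h1
    · exact hQP h1
    · have e : x = (x * t) * t⁻¹ := by group
      rw [e]
      exact P.mul_mem (hQP h1) (P.inv_mem htP)
  -- the subgroup at `w`
  obtain ⟨g, hg⟩ := isConj_iff.mp hc
  have h' := emb_conj h g
  obtain ⟨Q', hQ'⟩ := exists_root hG hN h'
  have hι : conjHom g ι u0 = w := by
    rw [conjHom_apply, ← hu, hg]
  have hmemQ' : ∀ x, x ∈ Q' ↔ x * w = w * x ∧ x ^ 27 = 1 := by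
    intro x
    rw [hQ'.mem, hι]
  have huw : u * w = w * u := by
    rw [hu]
    exact (hQ.comm hwQ).symm
  have huQ' : u ∈ Q' := (hmemQ' u).mpr ⟨huw, by rw [show 27 = 3 * 9 by norm_num, pow_mul, hu3, one_pow]⟩
  have hu_w : u ≠ w := fun e => hwu e.symm
  have hu_w2 : u ≠ w ^ 2 := by
    intro e
    apply hwu2
    rw [e, ← pow_mul]
    have e2 : w ^ (2 * 2) = w ^ 3 * w := by rw [← pow_succ]
    rw [e2, hw3, one_mul]
  have hVeq : V = Q' ⊓ Subgroup.centralizer ({u} : Set G) := by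
    apply Subgroup.eq_of_le_of_card_ge
    · intro x hx
      rw [hV] at hx
      obtain ⟨hxQ, hxw⟩ := Subgroup.mem_inf.mp hx
      rw [Subgroup.mem_centralizer_singleton_iff] at hxw
      exact mem_inf_cent ((hmemQ' x).mpr ⟨hxw, hQ.pow hxQ⟩) (hu ▸ hQ.comm hxQ)
    · rw [hVcard, card_V hG hN h' hQ' huQ' hu3 hu1 (by rw [hι]; exact hu_w) (by rw [hι]; exact hu_w2)]
  have hQ'P : Q' ≤ P := by
    intro q hq
    change q ∈ Subgroup.normalizer (V : Set G)
    rw [hVeq]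
    exact Q_norm_V h' hQ' huQ' hq
  refine ⟨?_, Q', hQ'.card, fun x hx => (hmemQ' x).mp hx, hQ'P⟩
  -- an element moving `u`
  have hnc : ¬ ∀ y ∈ Q', u * y = y * u := by
    intro hall
    rcases center_eq hG hN h' hQ' huQ' hall with h0 | h0 | h0
    · exact hu1 h0
    · exact hu_w (by rw [h0, hι])
    · exact hu_w2 (by rw [h0, hι])
  push_neg at hnc
  obtain ⟨q, hqQ', hqu⟩ := hnc
  obtain ⟨w', hw'⟩ : ∃ w', w' = q * u * q⁻¹ * u⁻¹ := ⟨_, rfl⟩
  have hw'cases : w' = w ∨ w' = w ^ 2 := by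
    have e := comm_mem h' hQ' hqQ' huQ'
    rw [hι, ← hw'] at e
    rcases e with e | e | e
    · exfalso
      apply hqu
      rw [e] at hw'
      have e2 : q * u * q⁻¹ = u := by
        have : u = q * u * q⁻¹ * u⁻¹ * u := by rw [← hw']; group
        calc q * u * q⁻¹ = q * u * q⁻¹ * u⁻¹ * u := by group
          _ = u := by rw [← hw', one_mul]
      calc u * q = (q * u * q⁻¹) * q := by rw [e2]
        _ = q * u := by group
    · exact Or.inl e
    · exact Or.inr e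
  let W : Subgroup G := Subgroup.zpowers w
  have hw_W : w ∈ W := Subgroup.mem_zpowers w
  have hw'W : w' ∈ W := by
    rcases hw'cases with e | e
    · rw [e]
      exact hw_W
    · rw [e]
      exact W.pow_mem hw_W 2
  have huW : u ∉ W := by
    intro huW
    have hcardW : Nat.card W = 3 := by
      change Nat.card (Subgroup.zpowers w) = 3
      rw [Nat.card_zpowers, orderOf_eq_prime hw3 hw1]
    rcases eq_of_card hw_W hw1 hw3 (by rw [hcardW]) u huW with h0 | h0 | h0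
    · exact hu1 h0
    · exact hu_w h0
    · exact hu_w2 h0
  have hw'3 : w' ^ 3 = 1 := by
    rcases hw'cases with e | e
    · rw [e, hw3]
    · rw [e, ← pow_mul, mul_comm, pow_mul, hw3, one_pow]
  have hw'1 : w' ≠ 1 := by
    rcases hw'cases with e | e
    · rw [e]
      exact hw1
    · rw [e, u_sq_ne hw3 hw1]
      exact inv_ne_one.mpr hw1
  have hqw : q * w = w * q := ((hmemQ' q).mp hqQ').1
  have hqw' : q * w' = w' * q := by
    have hc : Commute q w := hqw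
    rcases hw'cases with e | e
    · rw [e]
      exact hqw
    · rw [e]
      exact hc.pow_right 2
  have hqP : q ∈ P := hQ'P hqQ'
  have e1 : q * u * q⁻¹ = w' * u := by
    rw [hw']
    group
  have e2 : q ^ 2 * u * (q ^ 2)⁻¹ = w' ^ 2 * u := by
    have e3 : q ^ 2 * u * (q ^ 2)⁻¹ = q * (q * u * q⁻¹) * q⁻¹ := by
      rw [pow_two]
      group
    rw [e3, e1]
    have e4 : q * (w' * u) * q⁻¹ = (q * w') * u * q⁻¹ := by group
    rw [e4, hqw']
    have e5 : w' * q * u * q⁻¹ = w' * (q * u * q⁻¹) := by group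
    rw [e5, e1, pow_two]
    group
  obtain ⟨w'', hw''⟩ : ∃ w'', w'' = β * w' * β⁻¹ := ⟨_, rfl⟩
  have hβw_W : β * w * β⁻¹ ∈ W := by
    rcases hβw with e | e
    · rw [e]
      exact hw_W
    · rw [e]
      exact W.inv_mem hw_W
  have hw''W : w'' ∈ W := by
    rw [hw'']
    rcases hw'cases with e | e
    · rw [e]
      exact hβw_W
    · rw [e, ← conj_pow]
      exact W.pow_mem hβw_W 2
  have hw''1 : w'' ≠ 1 := by
    rw [hw'']
    intro e
    apply hw'1
    have : w' = β⁻¹ * (β * w' * β⁻¹) * β := by group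
    rw [this, e]
    group
  have e5 : β * (w' * u) * β⁻¹ = w'' * u⁻¹ := by
    have e6 : β * (w' * u) * β⁻¹ = (β * w' * β⁻¹) * (β * u * β⁻¹) := by group
    rw [e6, hβu, ← hw'']
  -- the orbit
  let A : Set G := {y | ∃ g ∈ P, g * u * g⁻¹ = y}
  have hcard := orbit_count (u := u) (H := P) hRP (A := A) (fun g hg => ⟨g, hg, rfl⟩) (fun y hy => hy)
  rw [hu, card_R hG hN h] at hcard
  have huV : u ∈ V := by
    rw [hV]
    exact mem_inf_cent huQ huw
  have hsub : A ⊆ (V : Set G) \ {1} := by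
    rintro _ ⟨g, hgP, rfl⟩
    refine ⟨(Subgroup.mem_normalizer_iff.mp hgP u).mp huV, ?_⟩
    intro e
    apply hu1
    have e' : g * u * g⁻¹ = 1 := e
    have : u = g⁻¹ * (g * u * g⁻¹) * g := by group
    rw [this, e']
    group
  have hle8 : Nat.card A ≤ 8 := by
    have := card_le_of_sub_diff hsub
    rw [hVcard] at this
    omega
  have h5 : 5 ≤ Nat.card A := by
    have m1 : u ∈ A := ⟨1, one_mem _, by group⟩
    have m2 : w' * u ∈ A := ⟨q, hqP, e1⟩
    have m3 : w' ^ 2 * u ∈ A := ⟨q ^ 2, P.pow_mem hqP 2, e2⟩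
    have m4 : u⁻¹ ∈ A := ⟨β, hβP, hβu⟩
    have m5 : w'' * u⁻¹ ∈ A := ⟨β * q, P.mul_mem hβP hqP, by
      have e7 : β * q * u * (β * q)⁻¹ = β * (q * u * q⁻¹) * β⁻¹ := by group
      rw [e7, e1, e5]⟩
    have hone : (1 : G) ∈ W := one_mem _
    have hw'2W : w' ^ 2 ∈ W := W.pow_mem hw'W 2
    refine card_five m1 m2 m3 m4 m5 ?_ ?_ ?_ ?_ ?_ ?_ ?_ ?_ ?_ ?_
    · intro e
      apply hw'1
      have : u * u⁻¹ = w' * u * u⁻¹ := by rw [← e]
      simpa using this.symm
    · intro e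
      have : u * u⁻¹ = w' ^ 2 * u * u⁻¹ := by rw [← e]
      have h2 : w' ^ 2 = 1 := by simpa using this.symm
      rw [u_sq_ne hw'3 hw'1] at h2
      exact hw'1 (inv_eq_one.mp h2)
    · intro e
      exact sep hu3 huW hone hone (by rw [one_mul, one_mul]; exact e)
    · intro e
      exact sep hu3 huW hone hw''W (by rw [one_mul]; exact e)
    · intro e
      apply hw'1
      have e3 : w' = w' ^ 2 := mul_right_cancel e
      have e4 : w' * w' = w' * 1 := by
        rw [mul_one]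
        rw [← pow_two, ← e3]
      exact mul_left_cancel e4
    · intro e
      exact sep hu3 huW hw'W hone (by rw [one_mul]; exact e)
    · intro e
      exact sep hu3 huW hw'W hw''W e
    · intro e
      exact sep hu3 huW hw'2W hone (by rw [one_mul]; exact e)
    · intro e
      exact sep hu3 huW hw'2W hw''W e
    · intro e
      apply hw''1
      have : u⁻¹ * u = w'' * u⁻¹ * u := by rw [← e]
      simpa using this.symm
  have hdvd : Nat.card P ∣ 5616 := hN ▸ Subgroup.card_subgroup_dvd_card P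
  rw [hcard] at hdvd
  have h8 := P_cases _ hle8 h5 hdvd
  rw [hcard, h8]

end Cfsg.Agent.Lib.Gl23.Loc5
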