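import Mathlib
import Cfsg.Agent.Lib.Gl23.Loc5

/-!
# The two subgroups of index `13`: the intersection
-/

set_option autoImplicit false
set_option linter.unusedSectionVars false
set_option linter.style.haveILetI false
set_option maxRecDepth 100000

namespace Cfsg.Agent.Lib.Gl23.Loc6

open Cfsg Cfsg.Agent.Lib.Gl23.Model Cfsg.Agent.Lib.Gl23.Local Cfsg.Agent.Lib.Gl23.Simp Cfsg.Agent.Lib.Gl23.Loc0
open Cfsg.Agent.Lib.Gl23.Loc1 Cfsg.Agent.Lib.Gl23.Loc2 Cfsg.Agent.Lib.Gl23.Loc3 Cfsg.Agent.Lib.Gl23.Loc4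
open Cfsg.Agent.Lib.Gl23.Loc5

universe u

variable {G : Type u} [Group G] [Finite G] {ι : Gam →* G} {t : G} {Q : Subgroup G}

theorem D_cases : ∀ m : ℕ, m ≤ 8 → 54 * m ∣ 432 → m ≠ 1 → m = 2 ∨ m = 4 ∨ m = 8 := by decide

variable [IsSimpleGroup G] (hG : ∀ (f : G →* ℤˣ) (g : G), f g = 1) (hN : Nat.card G = 5616)

include hG hN

/-- The centralizer of `u` normalizes the subgroup of order nine. -/
theorem R_le_P (h : Emb ι t) (hQ : Root ι Q) {w : G} (hwQ : w ∈ Q) (htw : t * w * t⁻¹ = w⁻¹) :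
    Subgroup.centralizer ({ι u0} : Set G) ≤
      Subgroup.normalizer ((Q ⊓ Subgroup.centralizer ({w} : Set G) : Subgroup G) : Set G) := by
  have htu : t * ι u0 * t⁻¹ = ι u0 := by
    rw [← comm_t_u h]
    group
  intro x hx
  rw [Subgroup.mem_centralizer_singleton_iff] at hx
  rcases mem_or hG hN h hQ hx with h1 | h1
  · exact Q_norm_V h hQ hwQ h1
  · have e : x = (x * t) * t⁻¹ := by group
    rw [e]
    exact Subgroup.mul_mem _ (Q_norm_V h hQ hwQ h1)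
      (Subgroup.inv_mem _ (conj_V hQ (Or.inl htu) (Or.inr htw)))

omit hG hN [IsSimpleGroup G] in
/-- The two root elements do not commute. -/
theorem no_comm {w₁ w₂ : G} (hV : Nat.card (Q ⊓ Subgroup.centralizer ({w₁} : Set G) : Subgroup G) = 9)
    (hu3 : ι u0 ^ 3 = 1) (hu1 : ι u0 ≠ 1) (htu : t * ι u0 * t⁻¹ = ι u0) (hQ : Root ι Q)
    (hw₁Q : w₁ ∈ Q) (hw₂Q : w₂ ∈ Q) (hw₁1 : w₁ ≠ 1) (hw₁3 : w₁ ^ 3 = 1) (hw₂1 : w₂ ≠ 1) (hw₂3 : w₂ ^ 3 = 1)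
    (ht1 : t * w₁ * t⁻¹ = w₁⁻¹) (ht2 : t * w₂ * t⁻¹ = w₂⁻¹) {β : G} (hβ1 : β * w₁ * β⁻¹ = w₁)
    (hβ2 : β * w₂ * β⁻¹ = w₂⁻¹) : w₂ * w₁ ≠ w₁ * w₂ := by
  intro hcomm
  haveI f3 : Fact (Nat.Prime 3) := ⟨Nat.prime_three⟩
  obtain ⟨V, hVe⟩ : ∃ V : Subgroup G, V = Q ⊓ Subgroup.centralizer ({w₁} : Set G) := ⟨_, rfl⟩
  rw [← hVe] at hV
  have hcV := IsPGroup.isMulCommutative_of_card_eq_prime_sq (G := V) (p := 3) (by rw [hV]; norm_num)
  have hVcomm : ∀ x ∈ V, ∀ y ∈ V, x * y = y * x := by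
    intro x hx y hy
    exact congrArg Subtype.val (hcV.is_comm.comm ⟨x, hx⟩ ⟨y, hy⟩)
  let T : Subgroup G :=
    { carrier := {x | x ∈ V ∧ t * x * t⁻¹ = x⁻¹}
      mul_mem' := by
        rintro x y ⟨hx, hx'⟩ ⟨hy, hy'⟩
        refine ⟨V.mul_mem hx hy, ?_⟩
        have e : t * (x * y) * t⁻¹ = (t * x * t⁻¹) * (t * y * t⁻¹) := by group
        rw [e, hx', hy', mul_inv_rev, hVcomm _ (V.inv_mem hx) _ (V.inv_mem hy)]
      one_mem' := ⟨one_mem _, by group⟩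
      inv_mem' := by
        rintro x ⟨hx, hx'⟩
        refine ⟨V.inv_mem hx, ?_⟩
        have e : t * x⁻¹ * t⁻¹ = (t * x * t⁻¹)⁻¹ := by group
        rw [e, hx'] }
  have hTV : T ≤ V := fun x hx => hx.1
  have huV : ι u0 ∈ V := by
    rw [hVe]
    exact mem_inf_cent hQ.u_mem (hQ.comm hw₁Q).symm
  have huT : ι u0 ∉ T := by
    rintro ⟨-, h2⟩
    rw [htu] at h2
    exact inv_ne_self hu3 hu1 h2.symm
  have hw₁V : w₁ ∈ V := by
    rw [hVe]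
    exact mem_inf_cent hw₁Q rfl
  have hw₂V : w₂ ∈ V := by
    rw [hVe]
    exact mem_inf_cent hw₂Q hcomm
  have hw₁T : w₁ ∈ T := ⟨hw₁V, ht1⟩
  have hw₂T : w₂ ∈ T := ⟨hw₂V, ht2⟩
  have hTd : Nat.card T ∣ 3 := by
    have h9 := Subgroup.card_dvd_of_le hTV
    rw [hV] at h9
    have hne : Nat.card T ≠ 9 := by
      intro h0
      have : T = V := Subgroup.eq_of_le_of_card_ge hTV (by rw [hV, h0])
      exact huT (this ▸ huV)
    have hle := Nat.le_of_dvd (by norm_num) h9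
    interval_cases (Nat.card T) <;> simp_all
  rcases eq_of_card hw₁T hw₁1 hw₁3 hTd w₂ hw₂T with h0 | h0 | h0
  · exact hw₂1 h0
  · rw [h0, hβ1] at hβ2
    exact inv_ne_self hw₁3 hw₁1 hβ2.symm
  · rw [h0, ← conj_pow, hβ1, u_sq_ne hw₁3 hw₁1, inv_inv] at hβ2
    exact inv_ne_self hw₁3 hw₁1 hβ2

/-- **The two subgroups.** -/
theorem parabolics (h : Emb ι t) : ∃ P₁ P₂ : Subgroup G, Nat.card P₁ = 432 ∧ Nat.card P₂ = 432 ∧
    Nat.card (P₁ ⊓ P₂ : Subgroup G) = 108 := by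
  classical
  haveI f3 : Fact (Nat.Prime 3) := ⟨Nat.prime_three⟩
  obtain ⟨Q, hQ⟩ := exists_root hG hN h
  obtain ⟨u, hu⟩ : ∃ u, u = ι u0 := ⟨_, rfl⟩
  obtain ⟨β, hβ⟩ : ∃ β, β = ι b := ⟨_, rfl⟩
  have hu3 : u ^ 3 = 1 := hu ▸ u_cube ι
  have hu1 : u ≠ 1 := hu ▸ u_ne h
  have huQ : u ∈ Q := hu ▸ hQ.u_mem
  have htu : t * u * t⁻¹ = u := by
    rw [hu, ← comm_t_u h]
    group
  have hβu : β * u * β⁻¹ = u⁻¹ := by
    rw [hu, hβ]
    exact beta_u ι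
  have htt := h.t_sq
  have htinv := h.t_inv
  have hββ : β * β = 1 := hβ ▸ beta_sq ι
  have hβt : β * t = t * β := hβ ▸ beta_t h
  have hβ1 : β ≠ 1 := hβ ▸ beta_ne h
  have hβ' : t * β ≠ 1 := hβ ▸ t_b_ne h
  have htβ2 : (t * β) * (t * β) = 1 := hβ ▸ t_b_sq h
  have htβt : (t * β) * t = t * (t * β) := by rw [mul_assoc, hβt, ← mul_assoc]
  have htβu : (t * β) * u * (t * β)⁻¹ = u⁻¹ := by
    have e : (t * β) * u * (t * β)⁻¹ = t * (β * u * β⁻¹) * t⁻¹ := by group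
    rw [e, hβu]
    have e2 : t * u⁻¹ * t⁻¹ = (t * u * t⁻¹)⁻¹ := by group
    rw [e2, htu]
  have ht' : t * (t * β) ≠ 1 := by
    rw [← mul_assoc, htt, one_mul]
    exact hβ1
  obtain ⟨w₁, hw₁Q, hw₁1, hw₁β, hw₁t, hw₁3⟩ := exists_w hG h hQ hββ hβ1 hβt (by rw [← hu]; exact hβu) hβ'
  obtain ⟨w₂, hw₂Q, hw₂1, hw₂β, hw₂t, hw₂3⟩ := exists_w hG h hQ htβ2 hβ' htβt (by rw [← hu]; exact htβu) ht'
  have hβo : orderOf β = 2 := order_two hββ hβ1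
  have htβo : orderOf (t * β) = 2 := order_two htβ2 hβ'
  have hβw₂ : β * w₂ * β⁻¹ = w₂⁻¹ := by
    have e1 : β = t * (t * β) := by rw [← mul_assoc, htt, one_mul]
    have e2 : (t * β) * w₂ * (t * β)⁻¹ = w₂ := by
      rw [← hw₂β]
      group
    calc β * w₂ * β⁻¹ = t * ((t * β) * w₂ * (t * β)⁻¹) * t⁻¹ := by
          conv_lhs => rw [e1]
          group
      _ = w₂⁻¹ := by rw [e2, hw₂t]
  have hβw₁ : β * w₁ * β⁻¹ = w₁ := by
    rw [← hw₁β]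
    group
  have hw₁c : IsConj (ι u0) w₁ := order3_isConj hG h hβo hw₁β hw₁3 hw₁1
  have hw₂c : IsConj (ι u0) w₂ := order3_isConj hG h htβo hw₂β hw₂3 hw₂1
  -- `w` is not a power of `u`
  have hsep : ∀ {w : G}, w ^ 3 = 1 → w ≠ 1 → t * w * t⁻¹ = w⁻¹ → w ≠ ι u0 ∧ w ≠ (ι u0) ^ 2 := by
    intro w h3 h1 h2
    constructor
    · intro e
      rw [e, ← hu, htu] at h2
      exact inv_ne_self hu3 hu1 h2.symm
    · intro e
      rw [e, ← hu, ← conj_pow, htu, u_sq_ne hu3 hu1, inv_inv] at h2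
      exact inv_ne_self hu3 hu1 h2
  obtain ⟨s11, s12⟩ := hsep hw₁3 hw₁1 hw₁t
  obtain ⟨s21, s22⟩ := hsep hw₂3 hw₂1 hw₂t
  obtain ⟨c1, Q₁, hQ₁c, hQ₁, hQ₁P⟩ := card_P hG hN h hQ hw₁Q hw₁3 hw₁1 s11 s12 hw₁c hw₁t (Or.inl (hβ ▸ hβw₁))
  obtain ⟨c2, -, -, -, -⟩ := card_P hG hN h hQ hw₂Q hw₂3 hw₂1 s21 s22 hw₂c hw₂t (Or.inr (hβ ▸ hβw₂))
  have hV₁ := card_V hG hN h hQ hw₁Q hw₁3 hw₁1 s11 s12
  have hV₂ := card_V hG hN h hQ hw₂Q hw₂3 hw₂1 s21 s22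
  have hnc := no_comm hV₁ (u_cube ι) (u_ne h) (hu ▸ htu) hQ hw₁Q hw₂Q hw₁1 hw₁3 hw₂1 hw₂3 hw₁t hw₂t hβw₁ hβw₂
  refine ⟨_, _, c1, c2, ?_⟩
  obtain ⟨P₁, hP₁⟩ : ∃ P₁ : Subgroup G,
    P₁ = Subgroup.normalizer ((Q ⊓ Subgroup.centralizer ({w₁} : Set G) : Subgroup G) : Set G) := ⟨_, rfl⟩
  obtain ⟨P₂, hP₂⟩ : ∃ P₂ : Subgroup G,
    P₂ = Subgroup.normalizer ((Q ⊓ Subgroup.centralizer ({w₂} : Set G) : Subgroup G) : Set G) := ⟨_, rfl⟩
  rw [← hP₁, ← hP₂]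
  rw [← hP₁] at c1 hQ₁P
  rw [← hP₂] at c2
  obtain ⟨D, hD⟩ : ∃ D : Subgroup G, D = P₁ ⊓ P₂ := ⟨_, rfl⟩
  rw [← hD]
  have hDP₁ : D ≤ P₁ := by rw [hD]; exact inf_le_left
  have hDP₂ : D ≤ P₂ := by rw [hD]; exact inf_le_right
  have hRD : Subgroup.centralizer ({ι u0} : Set G) ≤ D := by
    rw [hD]
    refine le_inf ?_ ?_
    · rw [hP₁]
      exact R_le_P hG hN h hQ hw₁Q hw₁t
    · rw [hP₂]
      exact R_le_P hG hN h hQ hw₂Q hw₂t
  have hβD : β ∈ D := by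
    have hu' : β * ι u0 * β⁻¹ = ι u0 ∨ β * ι u0 * β⁻¹ = (ι u0)⁻¹ := Or.inr (hu ▸ hβu)
    rw [hD]
    refine Subgroup.mem_inf.mpr ⟨?_, ?_⟩
    · rw [hP₁]
      exact conj_V hQ hu' (Or.inl hβw₁)
    · rw [hP₂]
      exact conj_V hQ hu' (Or.inr hβw₂)
  have hβR : β ∉ Subgroup.centralizer ({ι u0} : Set G) := by
    intro hb
    rw [Subgroup.mem_centralizer_singleton_iff, ← hu] at hb
    rw [hb] at hβu
    have e : u * β * β⁻¹ = u := by group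
    rw [e] at hβu
    exact inv_ne_self hu3 hu1 hβu.symm
  have hcR := card_R hG hN h
  have h54 : 54 ∣ Nat.card D := by
    have := Subgroup.card_dvd_of_le hRD
    rwa [hcR] at this
  have h432 : Nat.card D ∣ 432 := by
    have := Subgroup.card_dvd_of_le hDP₁
    rwa [c1] at this
  obtain ⟨m, hm⟩ := h54
  rw [hm] at h432
  have hm8 : m ≤ 8 := by
    have := Nat.le_of_dvd (by norm_num) h432
    omega
  have hm1 : m ≠ 1 := by
    rintro rfl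
    apply hβR
    have : Subgroup.centralizer ({ι u0} : Set G) = D :=
      Subgroup.eq_of_le_of_card_ge hRD (by rw [hcR, hm])
    rw [this]
    exact hβD
  have hbig : m ≠ 2 → False := by
    intro hm2
    -- `D` has index at most two in `P₁`
    have hK := (D.subgroupOf P₁).card_mul_index
    rw [Nat.card_congr (Subgroup.subgroupOfEquivOfLe hDP₁).toEquiv, c1, hm] at hK
    have hQD : Q₁ ≤ D := by
      intro q hq
      have hqP := hQ₁P hq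
      let q' : P₁ := ⟨q, hqP⟩
      have hq27 : q' ^ 27 = 1 := Subtype.ext (by simpa [q'] using (hQ₁ q hq).2)
      have hmem : q' ∈ D.subgroupOf P₁ := by
        rcases D_cases m hm8 h432 hm1 with h2 | h4 | h8
        · exact absurd h2 hm2
        · have hi : (D.subgroupOf P₁).index = 2 := by
            rw [h4] at hK
            omega
          have e1 : q' ^ 2 ∈ D.subgroupOf P₁ := Subgroup.sq_mem_of_index_two hi q'
          have e3 : q' = (q' ^ 2) ^ 14 := by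
            rw [← pow_mul, show 2 * 14 = 27 + 1 by norm_num, pow_succ, hq27, one_mul]
          rw [e3]
          exact Subgroup.pow_mem _ e1 14
        · have hi : (D.subgroupOf P₁).index = 1 := by
            rw [h8] at hK
            omega
          rw [Subgroup.index_eq_one.mp hi]
          exact Subgroup.mem_top _
      exact hmem
    have hQ₁P₂ : Q₁ ≤ P₂ := hQD.trans hDP₂
    obtain ⟨V₂, hV₂e⟩ : ∃ V₂ : Subgroup G, V₂ = Q ⊓ Subgroup.centralizer ({w₂} : Set G) := ⟨_, rfl⟩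
    rw [← hV₂e] at hV₂ hP₂
    have hp1 : IsPGroup 3 Q₁ := IsPGroup.of_card (n := 3) (by rw [hQ₁c]; norm_num)
    have hp2 : IsPGroup 3 V₂ := IsPGroup.of_card (n := 2) (by rw [hV₂]; norm_num)
    have hsup : IsPGroup 3 (Q₁ ⊔ V₂ : Subgroup G) := hp1.to_sup_of_normal_right' hp2 (by rw [← hP₂]; exact hQ₁P₂)
    obtain ⟨k, hk⟩ := IsPGroup.iff_card.mp hsup
    have hdvd := Subgroup.card_subgroup_dvd_card (Q₁ ⊔ V₂ : Subgroup G)
    rw [hk, hN] at hdvd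
    have hk3 : k ≤ 3 := by
      by_contra hk4
      have : 3 ^ 4 ∣ 3 ^ k := pow_dvd_pow 3 (by omega)
      have := this.trans hdvd
      norm_num at this
    have hle : Nat.card (Q₁ ⊔ V₂ : Subgroup G) ≤ 27 := by
      rw [hk]
      calc 3 ^ k ≤ 3 ^ 3 := Nat.pow_le_pow_right (by norm_num) hk3
        _ = 27 := by norm_num
    have heq : Q₁ = Q₁ ⊔ V₂ := Subgroup.eq_of_le_of_card_ge le_sup_left (by rw [hQ₁c]; exact hle)
    have hw₂V : w₂ ∈ V₂ := by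
      rw [hV₂e]
      exact mem_inf_cent hw₂Q rfl
    have hw₂Q₁ : w₂ ∈ Q₁ := by
      rw [heq]
      exact (le_sup_right : V₂ ≤ Q₁ ⊔ V₂) hw₂V
    exact hnc (hQ₁ w₂ hw₂Q₁).1
  have hm2 : m = 2 := by
    by_contra hne
    exact hbig hne
  rw [hm, hm2]

end Cfsg.Agent.Lib.Gl23.Loc6
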