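import Mathlib

/-!
# Finite checks for `SL₃(3)`
-/

set_option autoImplicit false
set_option maxRecDepth 100000

namespace Cfsg.Agent.Lib.Gl23.PSLCheck

open Matrix

/-- Vectors. -/
abbrev V3 := Fin 3 → ZMod 3

/-- The group. -/
abbrev SL3 := Matrix.SpecialLinearGroup (Fin 3) (ZMod 3)

/-- The table of points. -/
def tbl : Fin 13 → V3 :=
  ![![1, 0, 0], ![0, 1, 0], ![0, 0, 1], ![1, 1, 0], ![0, 1, 1], ![1, 1, 1], ![1, 2, 1], ![1, 2, 2], ![2, 0, 2],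
    ![2, 1, 0], ![0, 2, 1], ![1, 1, 2], ![2, 0, 1]]

/-- The point of a label. -/
def pv (i : ZMod 13) : V3 := tbl i

theorem scalar_check : ∀ a b c d e f g h i : ZMod 3,
    (∀ k ∈ ({0, 1, 2, 5} : Finset (ZMod 13)), (!![a, b, c; d, e, f; g, h, i] : Matrix (Fin 3) (Fin 3) (ZMod 3)) *ᵥ pv k = pv k ∨
      (!![a, b, c; d, e, f; g, h, i] : Matrix (Fin 3) (Fin 3) (ZMod 3)) *ᵥ pv k = -pv k) →
    (!![a, b, c; d, e, f; g, h, i] : Matrix (Fin 3) (Fin 3) (ZMod 3)) = 1 ∨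
      (!![a, b, c; d, e, f; g, h, i] : Matrix (Fin 3) (Fin 3) (ZMod 3)) = -1 := by
  decide +kernel

theorem card_SL3_fin : Fintype.card SL3 = 5616 := by decide +kernel

theorem card_SL3 : Nat.card SL3 = 5616 := by
  rw [Nat.card_eq_fintype_card, card_SL3_fin]

end Cfsg.Agent.Lib.Gl23.PSLCheck
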