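import Mathlib
import Cfsg.Agent.Lib.Gl23.Plane
import Cfsg.Agent.Lib.Gl23.PSLCheck

/-!
# `SL₃(3)` acting on the difference-set plane
-/

set_option autoImplicit false
set_option maxRecDepth 100000

namespace Cfsg.Agent.Lib.Gl23.PSL

open Cfsg.Agent.Lib.Gl23.Plane Cfsg.Agent.Lib.Gl23.PSLCheck
open Matrix

/-- The label of a vector. -/
def lab (v : V3) : ZMod 13 :=
  ((List.finRange 13).find? (fun i => decide (tbl i = v ∨ tbl i = -v))).getD 0

theorem lab_pv : ∀ i : ZMod 13, lab (pv i) = i := by decide +kernel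

theorem lab_neg : ∀ v : V3, lab (-v) = lab v := by decide +kernel

theorem pv_lab : ∀ v : V3, v ≠ 0 → pv (lab v) = v ∨ pv (lab v) = -v := by decide +kernel

theorem pv_ne : ∀ i : ZMod 13, pv i ≠ 0 := by decide +kernel

theorem line_form : ∀ m : V3, m ≠ 0 → ∃ j : ZMod 13, ∀ i : ZMod 13, inD (i - j) ↔ m ⬝ᵥ pv i = 0 := by
  decide +kernel

theorem line_normal : ∀ j : ZMod 13, ∃ n : V3, n ≠ 0 ∧ ∀ i : ZMod 13, inD (i - j) ↔ n ⬝ᵥ pv i = 0 := by
  decide +kernel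

theorem mulVec_ne (g : SL3) {v : V3} (hv : v ≠ 0) : g.1 *ᵥ v ≠ 0 := by
  intro h
  apply hv
  have h1 : (g⁻¹).1 *ᵥ (g.1 *ᵥ v) = v := by
    rw [Matrix.mulVec_mulVec]
    have : (g⁻¹).1 * g.1 = 1 := by
      rw [← Matrix.SpecialLinearGroup.coe_mul, inv_mul_cancel]
      rfl
    rw [this, Matrix.one_mulVec]
  rw [← h1, h, Matrix.mulVec_zero]

theorem lab_eq_of (g : SL3) {v : V3} (hv : v ≠ 0) : lab (g.1 *ᵥ pv (lab v)) = lab (g.1 *ᵥ v) := by
  rcases pv_lab v hv with h | h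
  · rw [h]
  · rw [h, Matrix.mulVec_neg, lab_neg]

/-- The action on the labels. -/
def kEnd : SL3 →* Function.End (ZMod 13) where
  toFun g := fun i => lab (g.1 *ᵥ pv i)
  map_one' := by
    funext i
    change lab ((1 : SL3).1 *ᵥ pv i) = i
    rw [show (1 : SL3).1 = 1 from rfl, Matrix.one_mulVec, lab_pv]
  map_mul' g h := by
    funext i
    change lab ((g * h).1 *ᵥ pv i) = lab (g.1 *ᵥ pv (lab (h.1 *ᵥ pv i)))
    rw [lab_eq_of g (mulVec_ne h (pv_ne i)), Matrix.mulVec_mulVec]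
    rfl

/-- The action on the labels, as permutations. -/
def kappa : SL3 →* Equiv.Perm (ZMod 13) := kEnd.toHomPerm

theorem kappa_apply (g : SL3) (i : ZMod 13) : kappa g i = lab (g.1 *ᵥ pv i) := rfl

theorem pv_kappa (g : SL3) (i : ZMod 13) : pv (kappa g i) = g.1 *ᵥ pv i ∨ pv (kappa g i) = -(g.1 *ᵥ pv i) :=
  pv_lab _ (mulVec_ne g (pv_ne i))

theorem dot_eq (g : SL3) (n v : V3) : (n ᵥ* (g⁻¹).1) ⬝ᵥ (g.1 *ᵥ v) = n ⬝ᵥ v := by
  rw [Matrix.dotProduct_mulVec, Matrix.vecMul_vecMul]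
  have : (g⁻¹).1 * g.1 = 1 := by
    rw [← Matrix.SpecialLinearGroup.coe_mul, inv_mul_cancel]
    rfl
  rw [this, Matrix.vecMul_one]

theorem vecMul_ne (g : SL3) {n : V3} (hn : n ≠ 0) : n ᵥ* (g⁻¹).1 ≠ 0 := by
  intro h
  apply hn
  have h1 : (n ᵥ* (g⁻¹).1) ᵥ* g.1 = n := by
    rw [Matrix.vecMul_vecMul]
    have : (g⁻¹).1 * g.1 = 1 := by
      rw [← Matrix.SpecialLinearGroup.coe_mul, inv_mul_cancel]
      rfl
    rw [this, Matrix.vecMul_one]
  rw [← h1, h, Matrix.zero_vecMul]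

theorem pline_kappa (g : SL3) : PLine (kappa g) := by
  intro j
  obtain ⟨n, hn, hj⟩ := line_normal j
  obtain ⟨j', hj'⟩ := line_form _ (vecMul_ne g hn)
  refine ⟨j', fun i => ?_⟩
  rw [hj, hj']
  have e := dot_eq g n (pv i)
  rcases pv_kappa g i with h | h
  · rw [h, e]
  · rw [h, dotProduct_neg, e, neg_eq_zero]

theorem kappa_inj : Function.Injective kappa := by
  rw [injective_iff_map_eq_one]
  intro g hg
  have h1 : ∀ k : ZMod 13, g.1 *ᵥ pv k = pv k ∨ g.1 *ᵥ pv k = -pv k := by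
    intro k
    have h2 : kappa g k = k := by rw [hg]; rfl
    have h3 := pv_kappa g k
    rw [h2] at h3
    rcases h3 with h3 | h3
    · left; exact h3.symm
    · right
      have h4 := congrArg Neg.neg h3
      rw [neg_neg] at h4
      exact h4.symm
  have h2 := scalar_check (g.1 0 0) (g.1 0 1) (g.1 0 2) (g.1 1 0) (g.1 1 1) (g.1 1 2) (g.1 2 0) (g.1 2 1) (g.1 2 2)
  have e : (!![g.1 0 0, g.1 0 1, g.1 0 2; g.1 1 0, g.1 1 1, g.1 1 2; g.1 2 0, g.1 2 1, g.1 2 2] :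
      Matrix (Fin 3) (Fin 3) (ZMod 3)) = g.1 := by
    ext i j
    fin_cases i <;> fin_cases j <;> rfl
  rw [e] at h2
  rcases h2 (fun k _ => h1 k) with h3 | h3
  · exact Subtype.ext h3
  · exfalso
    have h4 := g.2
    rw [h3] at h4
    revert h4
    decide +kernel

theorem center_eq_bot : Subgroup.center SL3 = ⊥ := by
  rw [eq_bot_iff]
  intro A hA
  obtain ⟨r, hr, hrA⟩ := (Matrix.SpecialLinearGroup.mem_center_iff).mp hA
  have h3 : Fintype.card (Fin 3) = 3 := by simp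
  rw [h3] at hr
  have h0 : ∀ r : ZMod 3, r ^ 3 = 1 → r = 1 := by decide
  have h1 : r = 1 := h0 r hr
  rw [Subgroup.mem_bot]
  apply Subtype.ext
  rw [← hrA, h1]
  simp

/-- `PSL₃(3)` is `SL₃(3)`. -/
noncomputable def pslEquiv : Matrix.ProjectiveSpecialLinearGroup (Fin 3) (ZMod 3) ≃* SL3 :=
  (QuotientGroup.quotientMulEquivOfEq center_eq_bot).trans QuotientGroup.quotientBot

/-- **`PSL₃(3)` from a faithful line-preserving action of a group of order `5616`.** -/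
theorem nonempty_equiv_psl {A : Type*} [Group A] (f : A →* Equiv.Perm (ZMod 13)) (hf : Function.Injective f)
    (hfP : ∀ a, PLine (f a)) (hA : Nat.card A = 5616) :
    Nonempty (A ≃* Matrix.ProjectiveSpecialLinearGroup (Fin 3) (ZMod 3)) := by
  obtain ⟨e⟩ := nonempty_mulEquiv f kappa hf kappa_inj hfP pline_kappa hA card_SL3
  exact ⟨e.trans pslEquiv.symm⟩

end Cfsg.Agent.Lib.Gl23.PSL
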